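import Cfsg.Agent.H91.AHSpec

/-! AH tower: the order formula for a coprime action of `C_r × C_r` (job OP). -/

set_option autoImplicit false

namespace H57.AH

open H33.Solv H91.AH Finset

section End

variable {B : Type} [AddCommGroup B] {r : ℕ} {a b c d : Module.End ℤ B} {y : B}

/-- The norm map. -/
def Nm (r : ℕ) (c : Module.End ℤ B) : Module.End ℤ B := ∑ j ∈ range r, c ^ j

/-- Fixed points. -/
abbrev Fx (c : Module.End ℤ B) : Submodule ℤ B := LinearMap.eqLocus c LinearMap.id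

theorem pow_fix (h : c y = y) (j : ℕ) : (c ^ j) y = y := by
  rw [Module.End.pow_apply]; exact Function.iterate_fixed h j

theorem Nm_fix (h : c y = y) : Nm r c y = r • y := by
  simp [Nm, LinearMap.sum_apply, pow_fix h]

theorem fix_Nm (h : c ^ r = 1) (y : B) : c (Nm r c y) = Nm r c y := by
  have := congrArg (· y) (mul_geom_sum c r)
  rw [h, sub_self] at this
  exact sub_eq_zero.1 this

theorem comm_Nm (h : Commute d c) (y : B) : d (Nm r c y) = Nm r c (d y) :=
  congrArg (· y) (Commute.sum_right _ _ _ fun j _ => h.pow_right j : Commute d (Nm r c)).eq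

theorem fix_of_pow (hr : r.Prime) (h : c ^ r = 1) {j : ℕ} (hj : ¬ r ∣ j) (hy : (c ^ j) y = y) :
    c y = y := by
  obtain ⟨k, -, hk⟩ := Nat.exists_mul_mod_eq_one_of_coprime
    (hr.coprime_iff_not_dvd.2 hj).symm hr.one_lt
  have := pow_fix hy k
  rwa [← pow_mul, pow_eq_pow_mod _ h, hk, pow_one] at this

variable (hr : r.Prime) (inj : Function.Injective fun y : B => r • y) (hc : Commute a b)
  (ha : a ^ r = 1) (hb : b ^ r = 1)

include hr inj hb in
theorem Nm_pow {j : ℕ} (hj : ¬ r ∣ j) (y : B) : Nm r (b ^ j) y = Nm r b y := by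
  have h1 : (b ^ j) ^ r = 1 := by rw [← pow_mul, mul_comm, pow_mul, hb, one_pow]
  refine inj ((Nm_fix (fix_of_pow hr hb hj (fix_Nm h1 y))).symm.trans
    (Eq.trans ?_ (Nm_fix (pow_fix (fix_Nm hb y) j))))
  exact (comm_Nm (Commute.sum_left _ _ _ fun i _ => (Commute.refl b).pow_pow i j) y)

include hr inj hc hb in
theorem ident (y : B) :
    Nm r b y + ∑ i ∈ range r, Nm r (a * b ^ i) y = r • y + Nm r a (Nm r b y) := by
  have e : ∑ i ∈ range r, Nm r (a * b ^ i) y = ∑ j ∈ range r, (a ^ j) (Nm r (b ^ j) y) := by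
    simp only [Nm, LinearMap.sum_apply, map_sum]
    rw [sum_comm]
    refine sum_congr rfl fun j _ => sum_congr rfl fun i _ => ?_
    rw [(hc.pow_right i).mul_pow, ← pow_mul, mul_comm i, pow_mul, Module.End.mul_apply]
  obtain ⟨s, rfl⟩ := Nat.exists_eq_succ_of_ne_zero hr.ne_zero
  rw [e, sum_range_succ', sum_congr rfl fun j hj => congrArg _ (Nm_pow hr inj hb
    (Nat.not_dvd_of_pos_of_lt j.succ_pos (Nat.succ_lt_succ (mem_range.1 hj))) y),
    pow_zero, pow_zero, Nm_fix (c := 1) rfl, Nm.eq_1 _ a, sum_range_succ']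
  simp only [LinearMap.add_apply, LinearMap.sum_apply, pow_zero, Module.End.one_apply]
  abel

include hr inj hc ha hb in
theorem card_eq [Finite B] : Nat.card B * Nat.card (Fx a ⊓ Fx b : Submodule ℤ B) ^ r =
    Nat.card (Fx b) * ∏ i ∈ range r, Nat.card (Fx (a * b ^ i)) := by
  have hi : ∀ i, (a * b ^ i) ^ r = 1 := fun i => by
    rw [(hc.pow_right i).mul_pow, ha, ← pow_mul, mul_comm i, pow_mul, hb, one_pow, one_mul]
  have cb : ∀ i, Commute b (a * b ^ i) := fun i => hc.symm.mul_right ((Commute.refl b).pow_right i)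
  have ca : ∀ i, Commute a (a * b ^ i) := fun i => (Commute.refl a).mul_right (hc.pow_right i)
  let Φ : Fx b × (∀ i : Fin r, Fx (a * b ^ i.1)) →+ B :=
    AddMonoidHom.mk' (fun y => y.1 + ∑ i, (y.2 i : B)) fun y z => by
      simp only [Prod.fst_add, Prod.snd_add, Pi.add_apply, Submodule.coe_add, sum_add_distrib]; abel
  have sj : Function.Surjective Φ := fun y => by
    obtain ⟨y, rfl⟩ := Finite.injective_iff_surjective.1 inj y
    refine ⟨(⟨Nm r b y - Nm r a (Nm r b y), ?_⟩, fun i => ⟨Nm r (a * b ^ i.1) y, fix_Nm (hi i) y⟩), ?_⟩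
    · change b _ = _ - _
      rw [map_sub, comm_Nm hc.symm, fix_Nm hb]
    · change _ - _ + ∑ i : Fin r, Nm r (a * b ^ i.1) y = r • y
      rw [Fin.sum_univ_eq_sum_range (fun i => Nm r (a * b ^ i) y), sub_add_eq_add_sub,
        ident hr inj hc hb, add_sub_cancel_right]
  have two : ∀ {i y}, (a * b ^ i) y = y → b y = y → y ∈ Fx a ⊓ Fx b := fun h1 h2 =>
    ⟨by rwa [Module.End.mul_apply, pow_fix h2] at h1, h2⟩
  have lt : ∀ {i k y}, i < k → k < r → (a * b ^ i) y = y → (a * b ^ k) y = y → b y = y :=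
    fun {i k y} h1 h2 h3 h4 => fix_of_pow hr hb (j := k - i)
      (Nat.not_dvd_of_pos_of_lt (by omega) (by omega)) (by
        rwa [← Nat.sub_add_cancel h1.le, pow_add, ← mul_assoc, (hc.pow_right _).eq, mul_assoc,
          Module.End.mul_apply, h3] at h4)
  have ker : ∀ y ∈ Φ.ker, ∀ i, (y.2 i : B) ∈ Fx a ⊓ Fx b := fun y hy i => by
    have e : Nm r (a * b ^ i.1) (y.1 + ∑ k, (y.2 k : B)) = 0 := by
      exact (congrArg _ (AddMonoidHom.mem_ker.1 hy)).trans (map_zero _)
    rw [map_add, map_sum, ← add_sum_erase _ _ (mem_univ i), Nm_fix (y.2 i).2, add_left_comm,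
      add_eq_zero_iff_eq_neg] at e
    have m : r • (y.2 i : B) ∈ Fx a ⊓ Fx b := by
      rw [e]
      refine neg_mem (add_mem (two (fix_Nm (hi i) _) (by rw [comm_Nm (cb i)]; exact congrArg _ y.1.2))
        (Submodule.sum_mem _ fun k hk => two (fix_Nm (hi i) _) ?_))
      have f1 := fix_Nm (hi i) (y.2 k : B)
      have f2 : (a * b ^ k.1) (Nm r (a * b ^ i.1) (y.2 k)) = Nm r (a * b ^ i.1) (y.2 k) := by
        rw [comm_Nm ((ca i).mul_left ((cb i).pow_left k))]; exact congrArg _ (y.2 k).2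
      rcases lt_or_gt_of_ne (Fin.val_ne_of_ne (ne_of_mem_erase hk)) with h | h
      exacts [lt h i.2 f2 f1, lt h k.2 f1 f2]
    exact ⟨inj ((map_nsmul a r _).symm.trans m.1), inj ((map_nsmul b r _).symm.trans m.2)⟩
  have ck : Nat.card Φ.ker = Nat.card (Fx a ⊓ Fx b : Submodule ℤ B) ^ r := by
    rw [Nat.card_congr (Equiv.ofBijective (fun (y : Φ.ker) i => (⟨y.1.2 i, ker y y.2 i⟩ :
      (Fx a ⊓ Fx b : Submodule ℤ B))) ⟨fun y z e => ?_, fun z => ?_⟩), Nat.card_fun,
      Nat.card_eq_fintype_card (α := Fin r), Fintype.card_fin]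
    · have e2 : y.1.2 = z.1.2 := funext fun i => Subtype.ext (congrArg (·.1) (congrFun e i) :)
      have e1 : (y.1.1 : B) + ∑ i, (y.1.2 i : B) = z.1.1 + ∑ i, (z.1.2 i : B) := y.2.trans z.2.symm
      rw [e2, add_left_inj] at e1
      exact Subtype.ext (Prod.ext (Subtype.ext e1) e2)
    · exact ⟨⟨(⟨-∑ i, (z i : B), neg_mem (Submodule.sum_mem _ fun i _ => (z i).2.2)⟩,
        fun i => ⟨z i, (congrArg a (pow_fix (z i).2.2 i)).trans (z i).2.1⟩), neg_add_cancel _⟩, rfl⟩
  rw [← ck, ← Fin.prod_univ_eq_prod_range (fun i => Nat.card (Fx (a * b ^ i))), ← Nat.card_pi,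
    ← Nat.card_prod (Fx b), ← Φ.ker.card_mul_index, AddSubgroup.index_ker,
    AddMonoidHom.range_eq_top.2 sj, AddSubgroup.card_top, mul_comm]

end End

theorem jobOP : JobOP := by
  intro r R Y _ _ _ _ B α β hr hc h
  let res : ∀ γ : R, (∀ y ∈ B, γ • y ∈ B) → Module.End ℤ B := fun γ k =>
    (AddMonoidHom.mk' (fun y : B => (⟨γ • y.1, k y y.2⟩ : B)) fun y z =>
      Subtype.ext (smul_add γ y.1 z.1)).toIntLinearMap
  let a := res α fun y hy => (h y hy).1
  let b := res β fun y hy => (h y hy).2.1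
  have pw : ∀ γ k i (y : B), ((res γ k ^ i) y : Y) = γ ^ i • y.1 := fun γ k i y => by
    induction i with
    | zero => simp
    | succ i ih => rw [pow_succ', pow_succ', mul_smul, ← ih]; rfl
  have cg : ∀ (U : Submodule ℤ B) (U' : AddSubgroup Y), U' ≤ B → (∀ y : B, y ∈ U ↔ y.1 ∈ U') →
      Nat.card U' = Nat.card U := fun U U' le k =>
    Nat.card_congr ⟨fun y => ⟨⟨y, le y.2⟩, (k _).2 y.2⟩, fun y => ⟨y.1, (k _).1 y.2⟩,
      fun _ => rfl, fun _ => rfl⟩
  have := card_eq (a := a) (b := b) hr (fun y z e => Subtype.ext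
    ((Nat.Coprime.nsmul_right_bijective (G := Y) hc.symm).1 (congrArg Subtype.val e)))
    (LinearMap.ext fun y => Subtype.ext (h y y.2).2.2.2.2)
    (LinearMap.ext fun y => Subtype.ext ((pw α (fun y hy => (h y hy).1) r y).trans (h y y.2).2.2.1))
    (LinearMap.ext fun y => Subtype.ext ((pw β (fun y hy => (h y hy).2.1) r y).trans (h y y.2).2.2.2.1))
  rw [cg (Fx a ⊓ Fx b) (B ⊓ fix Y α ⊓ fix Y β) (inf_le_left.trans inf_le_left) fun y => ⟨fun k =>
      ⟨⟨y.2, congrArg Subtype.val k.1⟩, congrArg Subtype.val k.2⟩,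
      fun k => ⟨Subtype.ext k.1.2, Subtype.ext k.2⟩⟩,
    cg (Fx b) (B ⊓ fix Y β) inf_le_left fun y => ⟨fun k => ⟨y.2, congrArg Subtype.val k⟩,
      fun k => Subtype.ext k.2⟩, this]
  refine congrArg _ (prod_congr rfl fun i _ => (cg _ _ inf_le_left fun y => ?_).symm)
  have e : (((a * b ^ i) y : B) : Y) = (α * β ^ i) • y.1 := by
    rw [mul_smul, ← pw β fun y hy => (h y hy).2.1]; rfl
  exact ⟨fun k => ⟨y.2, e.symm.trans (congrArg Subtype.val k)⟩, fun k => Subtype.ext (e.trans k.2)⟩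

end H57.AH
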