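import Cfsg.Agent.H91.AHSpec

/-! AH tower: the top module (jobs TP1, TP2, TP3). -/

set_option autoImplicit false

namespace H57.AH

open H33.Solv Subgroup MulAction H91.AH

variable {X : Type} [Group X] [Finite X] {p : ℕ}

theorem mem_of_pow {V : Subgroup X} [V.Normal] (hp : p.Prime) (h : ¬ p ∣ V.index) {x : X} {k : ℕ}
    (hx : x ^ p ^ k = 1) : x ∈ V := by
  obtain ⟨m, hm⟩ := exists_pow_eq_self_of_coprime (x := x) (n := V.index)
    (((hp.coprime_iff_not_dvd.2 h).symm.pow_right k).of_dvd_right (orderOf_dvd_of_pow_eq_one hx))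
  exact hm ▸ pow_mem (V.pow_index_mem x) m

open scoped IsMulCommutative in
theorem jobTP1 : JobTP1 := by
  rintro G _ _ hs Q ⟨q0, hq0⟩
  obtain ⟨K, ⟨hK, q, q1, q2, q3⟩, mx⟩ := H2.exists_maximal_subgroup
    (fun K : Subgroup G => K.Normal ∧ ∃ q, q.Prime ∧ Q q ∧ q ∣ K.index)
    ⟨⊥, inferInstance, q0, by rwa [index_bot]⟩
  have key : ∀ L : Subgroup (G ⧸ K), L.Normal → ∀ q, q.Prime → Q q → q ∣ L.index → L = ⊥ :=
    fun L hL q a b c => by
      have := mx (L.comap (QuotientGroup.mk' K)) ⟨inferInstance, q, a, b, by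
        rwa [index_comap_of_surjective _ (QuotientGroup.mk'_surjective K)]⟩
        (QuotientGroup.le_comap_mk' K L)
      rw [← map_comap_eq_self_of_surjective (QuotientGroup.mk'_surjective K) L, this,
        QuotientGroup.map_mk'_self]
  replace q3 : q ∣ Nat.card (G ⧸ K) := q3
  obtain ⟨V, p, hV, -, ne, pr, -, pg, ex, cm, -⟩ := exists_minN (⊤ : Subgroup (G ⧸ K)) inferInstance
    fun e => q1.ne_one (Nat.dvd_one.1 (by rwa [← card_top, e, card_bot] at q3))
  have nd := fun q a b c => ne (key V hV q a b c)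
  have := Fact.mk pr
  obtain rfl : q = p := by
    obtain ⟨n, hn⟩ := pg.exists_card_eq
    rw [← V.card_mul_index, hn] at q3
    exact (Nat.prime_dvd_prime_iff_eq q1 pr).1
      (q1.dvd_of_dvd_pow ((q1.dvd_mul.1 q3).resolve_right (nd q q1 q2)))
  have le : V ≤ centralizer (V : Set (G ⧸ K)) := fun a ha b hb => cm b hb a ha
  refine ⟨K, hK, q, V, hV, q2, ⟨pr, ne, ex, le_antisymm (fun x hx => ?_) le, nd q q1 q2⟩, nd⟩
  set C := centralizer (V : Set (G ⧸ K))
  have lz : V.subgroupOf C ≤ center C := fun a ha =>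
    mem_center_iff.2 fun b => Subtype.ext (b.2 a ha).symm
  have tr : ∀ y : C, (((MonoidHom.transfer (inclusion lz) y : center C) : C) : G ⧸ K) =
      y ^ V.relIndex C :=
    fun y => by
      rw [MonoidHom.transfer_eq_pow (inclusion lz) y fun k g h => by
        calc _ = g⁻¹ * y ^ k * g * g * g⁻¹ := by group
          _ = _ := by rw [← mem_center_iff.1 (lz h) g]; group]
      rfl
  let L : Subgroup (G ⧸ K) := (MonoidHom.transfer (inclusion lz)).ker.map C.subtype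
  have mL : ∀ y, y ∈ L ↔ y ∈ C ∧ y ^ V.relIndex C = 1 := fun y =>
    ⟨fun ⟨z, h, e⟩ => e ▸ ⟨z.2, (tr z).symm.trans (by rw [MonoidHom.mem_ker.1 h]; rfl)⟩,
      fun ⟨h, e⟩ => ⟨⟨y, h⟩, Subtype.ext (Subtype.ext ((tr _).trans e)), rfl⟩⟩
  have L0 : L = ⊥ := key L ⟨fun y hy g => (mL _).2 ⟨Normal.conj_mem inferInstance y ((mL y).1 hy).1 g,
    by rw [conj_pow, ((mL y).1 hy).2]; simp⟩⟩ q q1 q2 (by
      rw [← L.card_mul_index] at q3
      refine (q1.dvd_mul.1 q3).resolve_left fun h => nd q q1 q2 ?_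
      obtain ⟨y, hy⟩ := exists_prime_orderOf_dvd_card' q h
      rw [← orderOf_coe] at hy
      exact (hy ▸ orderOf_dvd_of_pow_eq_one ((mL y).1 y.2).2).trans (relIndex_dvd_index_of_le le))
  refine mem_of_pow pr (nd q q1 q2) (k := 1) (mem_bot.1 (L0 ▸ (mL _).2 ⟨pow_mem hx _, ?_⟩))
  rw [pow_one, ← pow_mul, mul_comm, pow_mul]
  exact ex _ ((V.subgroupOf C).pow_index_mem ⟨x, hx⟩)

variable {V : Subgroup X} [V.Normal] (h : Mon p V)
include h

theorem comm {a b : X} (ha : a ∈ V) (hb : b ∈ V) : a * b = b * a := h.cent.ge hb a ha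

theorem parts (x : X) : ∃ g a n, a ∈ V ∧ x = g * a ∧ Commute x a ∧ ¬ p ∣ n ∧ g ^ n = 1 := by
  obtain ⟨k, n, hn, e⟩ := Nat.exists_eq_pow_mul_and_not_dvd (orderOf_pos x).ne' p h.pr.ne_one
  obtain ⟨m, j, m1, m2⟩ := exists_part h.pr x k
  have c : Commute x (x ^ m) := (Commute.refl x).pow_right m
  refine ⟨x * (x ^ m)⁻¹, x ^ m, n, mem_of_pow h.pr h.cop m2, by simp, c, hn, ?_⟩
  rw [c.inv_right.mul_pow, inv_pow, ← pow_mul, mul_inv_eq_one, pow_eq_pow_iff_modEq, e]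
  simpa using m1.symm.mul_right' n

theorem eq_one {a : X} (ha : a ∈ V) {n : ℕ} (hn : ¬ p ∣ n) (e : a ^ n = 1) : a = 1 :=
  (pow_eq_one_iff_of_coprime (h.pr.coprime_iff_not_dvd.2 hn)).1 ⟨h.ex a ha, e⟩

omit h in
theorem Md.eq {W : Type} [AddCommGroup W] [DistribMulAction (X ⧸ V) W] {π : X → W} (m : Md V π)
    {a b : X} (ha : a ∈ V) (hb : b ∈ V) (e : π a = π b) : a = b :=
  inv_mul_eq_one.1 ((m.sec.eq_iff ha hb).1 e)

omit h in
theorem jobTP2 : JobTP2 := by
  intro X _ _ hs hr p V _ h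
  have := Fact.mk h.pr
  obtain ⟨W, _, π, s⟩ := exists_sec (Z := ⊥) (N := V)
    (fun a ha b hb => mem_bot.2 (commutatorElement_eq_one_iff_mul_comm.2 (comm h ha hb)))
    fun a _ z hz => Normal.conj_mem inferInstance z hz a
  obtain ⟨_, act⟩ := s.exists_act
  have key : ∀ (g : X) (w : W), (g : X ⧸ V).out • w = g • w := fun g w => by
    obtain ⟨v, hv⟩ := QuotientGroup.mk_out_eq_mul V g
    obtain ⟨a, ha, rfl⟩ := s.surj w
    rw [hv, mul_smul, act v a ha, comm h v.2 ha, mul_inv_cancel_right]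
  let A : DistribMulAction (X ⧸ V) W :=
    { smul := fun q w => q.out • w
      one_smul := fun w => (key 1 w).trans (one_smul X w)
      mul_smul := fun a b w => by
        obtain ⟨a, rfl⟩ := QuotientGroup.mk_surjective a
        obtain ⟨b, rfl⟩ := QuotientGroup.mk_surjective b
        exact (key (a * b) w).trans ((mul_smul a b w).trans (by
          change _ = (a : X ⧸ V).out • (b : X ⧸ V).out • w; rw [key, key]))
      smul_zero := fun q => smul_zero q.out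
      smul_add := fun q => smul_add q.out }
  have m : Md V π := ⟨s, fun g a ha => (key g _).trans (act g a ha)⟩
  let M : Module (ZMod p) W := AddCommGroup.zmodModule fun w => by
    obtain ⟨a, ha, rfl⟩ := s.surj w
    rw [← s.pow ha, h.ex a ha, s.one]
  refine ⟨W, _, s.finite, M, A, π, m, s.card.trans (relIndex_bot_left V), inferInstance, h.cop, ?_,
    fun c hc => ?_, fun c v a k hv a0 hk => ?_⟩
  · obtain ⟨⟨a, ha⟩, a1⟩ := ne_bot_iff_exists_ne_one.1 h.ne
    exact ⟨π a, 0, fun e => a1 (Subtype.ext ((s.zero a ha).1 e))⟩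
  · obtain ⟨g, rfl⟩ := QuotientGroup.mk_surjective c
    refine (QuotientGroup.eq_one_iff g).2 (h.cent.le fun a ha => ?_)
    exact (mul_inv_eq_iff_eq_mul.1 (Md.eq m (Normal.conj_mem inferInstance a ha g) ha
      ((m.act g a ha).symm.trans (hc _)))).symm
  obtain ⟨x, rfl⟩ := QuotientGroup.mk_surjective c
  obtain ⟨g, b, n, hb, rfl, -, hn, gn⟩ := parts h x
  obtain ⟨u, hu, rfl⟩ := s.surj v
  rw [QuotientGroup.mk_mul_of_mem g hb] at hv hk ⊢
  have o1 : orderOf g ∣ orderOf (g : X ⧸ V) := orderOf_dvd_of_pow_eq_one (eq_one h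
    ((QuotientGroup.eq_one_iff _).1 (by rw [QuotientGroup.mk_pow, pow_orderOf_eq_one])) hn
    (by rw [← pow_mul, mul_comm, pow_mul, gn, one_pow]))
  have o2 : orderOf u ∣ p := orderOf_dvd_of_pow_eq_one (h.ex u hu)
  obtain ⟨t, t1, t2⟩ := hr.pair (x := g) (y := u) (mul_inv_eq_iff_eq_mul.1
      (Md.eq m (Normal.conj_mem inferInstance u hu g) hu ((m.act g u hu).symm.trans hv)))
    (((h.pr.coprime_iff_not_dvd.2 hn).symm.of_dvd_left (orderOf_dvd_of_pow_eq_one gn)).of_dvd_right o2)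
    (hk.of_dvd_right o1) (b := a.val) (((h.pr.coprime_iff_not_dvd.2 fun k => a0 (by
      rw [← ZMod.natCast_zmod_val a]; exact (ZMod.natCast_eq_zero_iff _ _).2 k)).symm).of_dvd_right o2)
  refine ⟨t, ?_, by exact_mod_cast congrArg (QuotientGroup.mk : X → X ⧸ V) t1⟩
  rw [m.act t u hu, t2, s.pow hu, ← Nat.cast_smul_eq_nsmul (ZMod p), ZMod.natCast_zmod_val]

theorem conj_lift {W : Type} [AddCommGroup W] [DistribMulAction (X ⧸ V) W] {π : X → W} (m : Md V π)
    {g g' : X} (hd : g' * g⁻¹ ∈ V) {n : ℕ} (hn : ¬ p ∣ n) (e : g ^ n = 1) (e' : g' ^ n = 1) :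
    ∃ b ∈ V, g' * b = b * g := by
  have nV := ‹V.Normal›
  have st : ∀ b ∈ V, g' * b * g⁻¹ ∈ V ∧ π (g' * b * g⁻¹) = (g' : X ⧸ V) • π b + π (g' * g⁻¹) :=
    fun b hb => by
      rw [show g' * b * g⁻¹ = g' * b * g'⁻¹ * (g' * g⁻¹) by group, m.act g' b hb]
      exact ⟨mul_mem (nV.conj_mem b hb g') hd, m.sec.mul _ (nV.conj_mem b hb g') _ hd⟩
  have sc : ∀ i, g' ^ (i + 1) * g⁻¹ ^ (i + 1) = g' * (g' ^ i * g⁻¹ ^ i) * g⁻¹ := fun i => by
    rw [pow_succ', pow_succ]; group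
  have mem : ∀ i, g' ^ i * g⁻¹ ^ i ∈ V := fun i => by
    induction i with
    | zero => simp
    | succ i ih => rw [sc]; exact (st _ ih).1
  have s1 : (g' : X ⧸ V) • ∑ i ∈ Finset.range n, π (g' ^ i * g⁻¹ ^ i) + n • π (g' * g⁻¹) =
      ∑ i ∈ Finset.range n, π (g' ^ i * g⁻¹ ^ i) := by
    have := (Finset.sum_range_succ' (fun i => π (g' ^ i * g⁻¹ ^ i)) n).symm.trans
      (Finset.sum_range_succ _ n)
    rw [inv_pow g n, e, e', pow_zero, pow_zero, inv_one, add_left_inj,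
      Finset.sum_congr rfl fun i _ => (congrArg π (sc i)).trans (st _ (mem i)).2,
      Finset.sum_add_distrib, ← Finset.smul_sum, Finset.sum_const, Finset.card_range] at this
    exact this
  obtain ⟨t, ht⟩ := exists_pow_eq_self_of_coprime (x := g' * g⁻¹) (n := n)
    ((h.pr.coprime_iff_not_dvd.2 hn).symm.of_dvd_right (orderOf_dvd_of_pow_eq_one (h.ex _ hd)))
  obtain ⟨b, hb, eb⟩ := m.sec.surj (t • ∑ i ∈ Finset.range n, π (g' ^ i * g⁻¹ ^ i))
  refine ⟨b, hb, mul_inv_eq_iff_eq_mul.1 (Md.eq m (st b hb).1 hb ?_)⟩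
  rw [(st b hb).2, eb, smul_comm, ← ht, m.sec.pow (pow_mem hd n), m.sec.pow hd, ← smul_add, s1]

omit h in
theorem jobTP3 : JobTP3 := by
  intro X _ _ _ p V nV h W _ _ π m x
  obtain ⟨g, a, n, ha, e, c, hn, gn⟩ := parts h x
  refine ⟨π a, by rw [m.act x a ha, c.eq, mul_inv_cancel_right], ?_⟩
  rw [lk, cc, ← (V.subgroupOf (centralizer {x})).card_mul_index]
  refine Nat.mul_le_mul (Nat.card_le_card_of_surjective (fun b : V.subgroupOf (centralizer {x}) =>
    (⟨π b.1, by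
      rw [mem_fix, m.act x b.1 b.2, ← (mem_cent.1 b.1.2).eq, mul_inv_cancel_right]⟩ :
      fix W (x : X ⧸ V))) fun ⟨w, hw⟩ => ?_) ?_
  · obtain ⟨b, hb, rfl⟩ := m.sec.surj w
    exact ⟨⟨⟨b, mem_cent.2 (mul_inv_eq_iff_eq_mul.1 (Md.eq m (nV.conj_mem b hb x) hb
      ((m.act x b hb).symm.trans hw))).symm⟩, hb⟩, rfl⟩
  refine (card_le_of_le (K := (centralizer {x}).map (QuotientGroup.mk' V)) ?_).trans
    ((relIndex_ker (centralizer {x}) (QuotientGroup.mk' V)).symm.trans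
      (by rw [QuotientGroup.ker_mk']; rfl)).le
  rintro y ⟨h1, h2⟩
  obtain ⟨y, rfl⟩ := QuotientGroup.mk_surjective y
  have ya : y * a = a * y := mul_inv_eq_iff_eq_mul.1 (Md.eq m (nV.conj_mem a ha y) ha
    ((m.act y a ha).symm.trans h2))
  have h3 := (mem_cent.1 h1).eq
  rw [e, QuotientGroup.mk_mul_of_mem g ha] at h3
  obtain ⟨b, hb, eb⟩ := conj_lift h m (g := g) (g' := y * g * y⁻¹) ((QuotientGroup.eq_one_iff _).1 (by
    simp [h3])) hn gn (by rw [conj_pow, gn]; simp)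
  refine ⟨b⁻¹ * y, mem_cent.2 ?_, ?_⟩
  · rw [e]
    refine Commute.mul_right ?_ (Commute.mul_left (comm h (inv_mem hb) ha) ya)
    calc _ = b⁻¹ * (y * g * y⁻¹ * b) * (b⁻¹ * y) := by group
      _ = _ := by rw [eb]; group
  · simp [(QuotientGroup.eq_one_iff b).2 hb]

end H57.AH
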