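import Cfsg.Agent.Base
import Cfsg.Agent.H57.Bruhat
import Cfsg.Agent.H28.GenChar

/-!
# Alternating sums of flag permutation characters (Steinberg's unipotent characters).
-/

set_option autoImplicit false
set_option linter.unusedSectionVars false

namespace H57

open Matrix Finset Cfsg H28
open scoped MatrixGroups

variable {n : ℕ}

section lab

variable (μ : Fin n → ℕ)

lemma compLabel_mono : Monotone (compLabel μ) := fun i j hij =>
  card_le_card fun k hk => by
    simp only [mem_filter, mem_univ, true_and] at hk ⊢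
    exact hk.trans hij

/-- The block label as an element of `Fin n`. -/
def lab (hμ : ∑ i, μ i = n) (i : Fin n) : Fin n := ⟨compLabel μ i, compLabel_lt μ hμ i⟩

lemma lab_mono (hμ : ∑ i, μ i = n) : Monotone (lab μ hμ) := compLabel_mono μ

lemma card_lab_eq (hμ : ∑ i, μ i = n) (s : Fin n) : Fintype.card {i // lab μ hμ i = s} = μ s := by
  rw [← card_compLabel_eq μ hμ s]
  exact Fintype.card_congr (Equiv.subtypeEquivRight fun i => Fin.ext_iff)

lemma parabolicGL_eq_blockGL (hμ : ∑ i, μ i = n) (F : Type*) [Field F] :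
    parabolicGL n F μ = blockGL F (lab μ hμ) := rfl

lemma mem_youngSubgroup_iff (hμ : ∑ i, μ i = n) (σ : Equiv.Perm (Fin n)) :
    σ ∈ youngSubgroup μ ↔ ∀ i, lab μ hμ (σ i) = lab μ hμ i :=
  forall_congr' fun i => (Fin.ext_iff (a := lab μ hμ (σ i)) (b := lab μ hμ i)).symm

end lab

theorem sum_fpc_parabolic (F : Type*) [Field F] [Fintype (GL (Fin n) F)] {α β : Fin n → ℕ}
    (hα : ∑ i, α i = n) (hβ : ∑ i, β i = n) :
    ∑ g, fixedPointCharacter (parabolicGL n F α) g * fixedPointCharacter (parabolicGL n F β) g =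
      (Nat.card (GL (Fin n) F) : ℂ) * Nat.card (Tables α β) := by
  rw [parabolicGL_eq_blockGL α hα, parabolicGL_eq_blockGL β hβ]
  refine sum_fpc_mul_fpc _ _ (permGL (Fin n) F) _
    (tableOf_surjective (card_lab_eq α hα) (card_lab_eq β hβ)) (fun g => ?_) fun σ τ => ?_
  · obtain ⟨σ, h, hh, k, hk, e⟩ := bruhat_gl g
    exact ⟨σ, h, blockGL_id_le (lab_mono α hα) hh, k, blockGL_id_le (lab_mono β hβ) hk, e⟩
  · rw [Subtype.mk.injEq, tableOf_eq_iff_gl (F := F)]

theorem sum_fpc_young {α β : Fin n → ℕ} (hα : ∑ i, α i = n) (hβ : ∑ i, β i = n) :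
    ∑ g, fixedPointCharacter (youngSubgroup α) g * fixedPointCharacter (youngSubgroup β) g =
      (Nat.card (Equiv.Perm (Fin n)) : ℂ) * Nat.card (Tables α β) := by
  refine sum_fpc_mul_fpc _ _ id _
    (tableOf_surjective (card_lab_eq α hα) (card_lab_eq β hβ))
    (fun g => ⟨g, 1, one_mem _, 1, one_mem _, by simp⟩) fun σ τ => ?_
  rw [Subtype.mk.injEq, tableOf_eq_iff]
  simp only [mem_youngSubgroup_iff α hα, mem_youngSubgroup_iff β hβ, id]
  exact ⟨fun ⟨ρ, π, h1, h2, e⟩ => ⟨ρ, h1, π, h2, e⟩, fun ⟨ρ, h1, π, h2, e⟩ => ⟨ρ, π, h1, h2, e⟩⟩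

section alt

variable {G : Type*} [Group G] (P : (Fin n → ℕ) → Subgroup G)

/-- The alternating sum of coset permutation characters attached to `ν`. -/
noncomputable def altChar (ν : Fin n → ℕ) : G → ℂ :=
  fun g => ∑ κ : Equiv.Perm (Fin n),
    if ∀ i : Fin n, (κ i).val ≤ ν i + i.val then
      ((Equiv.Perm.sign κ : ℤ) : ℂ) * fixedPointCharacter (P fun i => ν i + i.val - (κ i).val) g
    else 0

lemma sum_sub_perm {ν : Fin n → ℕ} (hν : ∑ i, ν i = n) {κ : Equiv.Perm (Fin n)}
    (h : ∀ i : Fin n, (κ i).val ≤ ν i + i.val) : ∑ i, (ν i + i.val - (κ i).val) = n := by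
  have h1 : ∑ i, (ν i + i.val - (κ i).val) + ∑ i, (κ i).val = ∑ i, (ν i + i.val) := by
    rw [← sum_add_distrib]
    exact sum_congr rfl fun i _ => Nat.sub_add_cancel (h i)
  rw [sum_add_distrib, hν, Equiv.sum_comp κ (fun i => i.val)] at h1
  omega

lemma strictMono_add_val {ν : Fin n → ℕ} (h : Monotone ν) : StrictMono fun i : Fin n => ν i + i.val :=
  fun _ _ hij => Nat.add_lt_add_of_le_of_lt (h hij.le) hij

lemma isGeneralizedCharacter_altChar [Finite G] (ν : Fin n → ℕ) :
    IsGeneralizedCharacter G (altChar P ν) := by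
  have : altChar P ν = ∑ κ : Equiv.Perm (Fin n), if ∀ i : Fin n, (κ i).val ≤ ν i + i.val then
      ((Equiv.Perm.sign κ : ℤ) : ℂ) • fixedPointCharacter (P fun i => ν i + i.val - (κ i).val)
      else 0 := by
    funext g
    simp only [altChar, Finset.sum_apply]
    refine sum_congr rfl fun κ _ => ?_
    split_ifs <;> simp
  rw [this]
  refine H28.isGeneralizedCharacter_sum _ fun κ _ => ?_
  split_ifs
  · exact (H28.isCharacter_perm _).isGeneralizedCharacter.intCast_smul _
  · exact H28.isGeneralizedCharacter_zero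

theorem classInner_altChar [Fintype G]
    (hP : ∀ α β : Fin n → ℕ, ∑ i, α i = n → ∑ i, β i = n →
      ∑ g, fixedPointCharacter (P α) g * fixedPointCharacter (P β) g =
        (Nat.card G : ℂ) * Nat.card (Tables α β))
    {ν ν' : Fin n → ℕ} (h1 : Monotone ν) (h2 : ∑ i, ν i = n) (h1' : Monotone ν')
    (h2' : ∑ i, ν' i = n) : classInner (altChar P ν) (altChar P ν') = if ν = ν' then 1 else 0 := by
  have h := congrArg (Int.cast : ℤ → ℂ)
    (sum_sign_card_tables (strictMono_add_val h1) (strictMono_add_val h1'))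
  have e : ((fun i : Fin n => ν i + i.val) = fun i : Fin n => ν' i + i.val) ↔ ν = ν' := by
    simp [funext_iff]
  simp only [e] at h
  push_cast at h
  have hG : (Nat.card G : ℂ) ≠ 0 := Nat.cast_ne_zero.2 Nat.card_pos.ne'
  rw [← h, classInner, inv_mul_eq_iff_eq_mul₀ hG]
  simp only [altChar, map_sum, sum_mul_sum]
  simp only [mul_sum]
  rw [sum_comm]
  refine sum_congr rfl fun κ _ => ?_
  rw [sum_comm]
  refine sum_congr rfl fun κ' _ => ?_
  by_cases hκ : ∀ i : Fin n, (κ i).val ≤ ν i + i.val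
  · by_cases hκ' : ∀ i : Fin n, (κ' i).val ≤ ν' i + i.val
    · simp only [if_pos hκ, if_pos hκ', if_pos (And.intro hκ hκ')]
      rw [mul_left_comm, ← hP _ _ (sum_sub_perm h2 hκ) (sum_sub_perm h2' hκ'), mul_sum]
      refine sum_congr rfl fun g _ => ?_
      simp only [map_mul, map_intCast, fixedPointCharacter, map_natCast]
      ring
    · simp [hκ']
  · simp [hκ]

/-- The `q`-integer. -/
def qint (q r : ℕ) : ℕ := ∑ l ∈ range r, q ^ l

lemma qint_add (q t r : ℕ) : qint q (t + r) = qint q t + q ^ t * qint q r := by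
  rw [qint, sum_range_add, qint, qint, mul_sum]
  simp only [pow_add]

lemma qfact_succ (q r : ℕ) : qfact q (r + 1) = qfact q r * qint q (r + 1) := prod_range_succ _ _

lemma qint_strictMono {q : ℕ} (hq : 0 < q) : StrictMono (qint q) :=
  strictMono_nat_of_lt_succ fun r => by
    rw [qint, qint, sum_range_succ]
    have := pow_pos hq r
    omega

lemma pow_mul_qfact (q l v : ℕ) (h : v ≤ l) :
    (q : ℂ) ^ v.choose 2 * qfact q l =
      qfact q (l - v) * ∏ t ∈ range v, ((qint q l : ℂ) - qint q t) := by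
  induction v with
  | zero => simp
  | succ v ih =>
    obtain ⟨r, rfl⟩ := Nat.exists_eq_add_of_le h
    have e1 : v + 1 + r - v = r + 1 := by omega
    rw [e1, qfact_succ] at ih
    rw [Nat.choose_succ_succ', Nat.choose_one_right, pow_add, mul_assoc, ih (by omega),
      Nat.add_sub_cancel_left, prod_range_succ, show v + 1 + r = v + (r + 1) by ring,
      qint_add q v]
    push_cast
    ring

lemma sum_choose_two (n : ℕ) : ∑ i : Fin n, i.val.choose 2 = n * (n - 1) * (n - 2) / 6 := by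
  have h : ∑ i : Fin n, i.val.choose 2 = n.choose 3 := by
    induction n with
    | zero => simp
    | succ n ih => rw [Fin.sum_univ_castSucc, Nat.choose_succ_succ, add_comm, ← ih]; simp
  rw [h, Nat.choose_eq_descFactorial_div_factorial]
  simp only [Nat.descFactorial_succ, Nat.descFactorial_zero, Nat.factorial]
  congr 1
  simp; ring

/-- The degree formula. -/
theorem altChar_one_mul (q : ℕ)
    (hP : ∀ α : Fin n → ℕ, ∑ i, α i = n → (P α).index * ∏ i, qfact q (α i) = qfact q n)
    {ν : Fin n → ℕ} (h2 : ∑ i, ν i = n) :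
    altChar P ν 1 * (q : ℂ) ^ (n * (n - 1) * (n - 2) / 6) * ∏ i : Fin n, (qfact q (ν i + i.val) : ℂ) =
      qfact q n * ∏ i : Fin n, ∏ j ∈ Ioi i,
        ((qint q (ν j + j.val) : ℂ) - qint q (ν i + i.val)) := by
  let p : Fin n → Polynomial ℂ := fun v => ∏ t ∈ range v, (Polynomial.X - Polynomial.C (qint q t : ℂ))
  have h := Matrix.det_eval_matrixOfPolynomials_eq_det_vandermonde
    (fun i : Fin n => (qint q (ν i + i.val) : ℂ)) p
    (fun v => by rw [Polynomial.natDegree_finsetProd_X_sub_C_eq_card, card_range])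
    fun v => Polynomial.monic_prod_X_sub_C _ _
  rw [← det_vandermonde, h, ← det_transpose, det_apply', altChar, sum_mul, sum_mul, mul_sum]
  refine sum_congr rfl fun κ _ => ?_
  simp only [transpose_apply, of_apply, p, Polynomial.eval_prod, Polynomial.eval_sub,
    Polynomial.eval_X, Polynomial.eval_C]
  split_ifs with hκ
  · rw [fixedPointCharacter, MulAction.fixedBy_one_eq_univ, Nat.card_univ, ← Subgroup.index_eq_card,
      ← hP _ (sum_sub_perm h2 hκ), ← sum_choose_two, ← Equiv.sum_comp κ, ← prod_pow_eq_pow_sum,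
      mul_assoc, ← prod_mul_distrib, prod_congr rfl fun i _ => pow_mul_qfact q _ _ (hκ i),
      prod_mul_distrib]
    push_cast
    ring
  · push Not at hκ
    obtain ⟨i, hi⟩ := hκ
    rw [zero_mul, zero_mul, prod_eq_zero (mem_univ i) (prod_eq_zero (mem_range.2 hi) (sub_self _))]
    simp

theorem altChar_one_re_nonneg (q : ℕ) (hq : 0 < q)
    (hP : ∀ α : Fin n → ℕ, ∑ i, α i = n → (P α).index * ∏ i, qfact q (α i) = qfact q n)
    {ν : Fin n → ℕ} (h1 : Monotone ν) (h2 : ∑ i, ν i = n) : 0 ≤ (altChar P ν 1).re := by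
  have h := altChar_one_mul P q hP h2
  have e : ∏ i : Fin n, ∏ j ∈ Ioi i, ((qint q (ν j + j.val) : ℂ) - qint q (ν i + i.val)) =
      ((∏ i : Fin n, ∏ j ∈ Ioi i, (qint q (ν j + j.val) - qint q (ν i + i.val)) : ℕ) : ℂ) := by
    push_cast
    refine prod_congr rfl fun i _ => prod_congr rfl fun j hj => ?_
    rw [Nat.cast_sub ((qint_strictMono hq).monotone (strictMono_add_val h1 (mem_Ioi.1 hj)).le)]
  rw [e, mul_assoc, ← Nat.cast_prod, ← Nat.cast_pow, ← Nat.cast_mul, ← Nat.cast_mul,
    ← eq_div_iff (Nat.cast_ne_zero.2 (mul_ne_zero (pow_pos hq _).ne'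
      (prod_ne_zero_iff.2 fun i _ => (qfact_pos _).ne')))] at h
  rw [h, Complex.div_natCast_re, Complex.natCast_re]
  positivity

theorem isIrrCharacter_altChar [Fintype G] (q : ℕ) (hq : 0 < q)
    (hP : ∀ α β : Fin n → ℕ, ∑ i, α i = n → ∑ i, β i = n →
      ∑ g, fixedPointCharacter (P α) g * fixedPointCharacter (P β) g =
        (Nat.card G : ℂ) * Nat.card (Tables α β))
    (hP' : ∀ α : Fin n → ℕ, ∑ i, α i = n → (P α).index * ∏ i, qfact q (α i) = qfact q n)
    {ν : Fin n → ℕ} (h1 : Monotone ν) (h2 : ∑ i, ν i = n) : IsIrrCharacter G (altChar P ν) :=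
  (isGeneralizedCharacter_altChar P ν).irr_of_norm_one
    (by rw [classInner_altChar P hP h1 h2 h1 h2, if_pos rfl]) (altChar_one_re_nonneg P q hq hP' h1 h2)

/-- The degree of the Steinberg character. -/
theorem altChar_one_steinberg (q : ℕ) (hq : 0 < q)
    (hP : ∀ α : Fin n → ℕ, ∑ i, α i = n → (P α).index * ∏ i, qfact q (α i) = qfact q n) :
    altChar P (fun _ => 1) 1 = q ^ (n * (n - 1) / 2) := by
  have h := altChar_one_mul P q hP (ν := fun _ => 1) (by simp)
  have hq' : (q : ℂ) ≠ 0 := Nat.cast_ne_zero.2 hq.ne'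
  have hf : ∀ r, (qfact q r : ℂ) ≠ 0 := fun r => Nat.cast_ne_zero.2 (qfact_pos r).ne'
  have e1 : ∏ i : Fin n, (qfact q (1 + i.val) : ℂ) = qfact q n * ∏ i : Fin n, (qfact q i.val : ℂ) := by
    rw [qfact, Nat.cast_prod, prod_range, ← prod_mul_distrib]
    refine prod_congr rfl fun i _ => ?_
    rw [add_comm, qfact_succ, Nat.cast_mul, mul_comm]; rfl
  have e2 : ∀ j : Fin n, ∏ i ∈ Iio j, ((qint q (1 + j.val) : ℂ) - qint q (1 + i.val)) =
      q ^ j.val * (q ^ j.val.choose 2 * qfact q j) := by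
    intro j
    rw [pow_mul_qfact q j j le_rfl, Nat.sub_self, show qfact q 0 = 1 from rfl, Nat.cast_one, one_mul,
      ← Fin.card_Iio j, ← prod_const, Fin.card_Iio, ← Nat.Iio_eq_range, ← Fin.map_valEmbedding_Iio,
      prod_map, ← prod_mul_distrib]
    refine prod_congr rfl fun i _ => ?_
    simp only [qint_add, Fin.valEmbedding_apply]
    push_cast
    ring
  rw [prod_comm' (t' := univ) (s' := fun j => Iio j) (by simp)] at h
  simp only [e1, e2, prod_mul_distrib, prod_pow_eq_pow_sum, sum_choose_two] at h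
  have e3 : ∑ i : Fin n, i.val = n * (n - 1) / 2 := by
    rw [← Finset.sum_range_id, sum_range]
  rw [e3] at h
  have hf' : ∏ i : Fin n, (qfact q i.val : ℂ) ≠ 0 := prod_ne_zero_iff.2 fun i _ => hf _
  refine mul_right_cancel₀ (mul_ne_zero (pow_ne_zero (n * (n - 1) * (n - 2) / 6) hq')
    (mul_ne_zero (hf n) hf')) ?_
  linear_combination h

end alt

end H57
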