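import Cfsg.Agent.H40.E7TSpec
import Cfsg.Agent.H58.E7Lin

/-! Tower E7T, job `JobSum`: sums of dimensions of fixed spaces over `3⁴`. -/

set_option autoImplicit false

namespace H57.E7T

open Module Cfsg H40.E7S H40.E7T

universe u

variable {G : Type u} [Group G] (ρ : Representation (ZMod 2) G V56)

/-- The element with exponent vector `v`. -/
def pw {n : ℕ} (a : Fin n → G) (v : Fin n → ZMod 3) : G := (List.ofFn fun i => a i ^ (v i).val).prod

theorem pw_ind {n : ℕ} (a : Fin n → G) (v : Fin n → ZMod 3) {K : Submonoid G} (h : ∀ i, a i ∈ K) :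
    pw a v ∈ K := K.list_prod_mem fun x hx => by
  obtain ⟨i, rfl⟩ := List.mem_ofFn.1 hx
  exact pow_mem (h i) _

theorem pw_cons {n : ℕ} (a : Fin (n + 1) → G) (i : ZMod 3) (v : Fin n → ZMod 3) :
    pw a (Fin.cons i v) = a 0 ^ i.val * pw (fun j => a j.succ) v := by
  simp [pw, List.ofFn_succ]

theorem pw_comm {n : ℕ} {a : Fin n → G} (v : Fin n → ZMod 3) {c : G} (h : ∀ i, Commute c (a i)) :
    Commute c (pw a v) := (pw_ind a v (K := Submonoid.centralizer {c}) fun i => by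
  rintro _ rfl; exact h i) c rfl

theorem pw_cube : ∀ {n : ℕ} {a : Fin n → G} (v : Fin n → ZMod 3), (∀ i j, Commute (a i) (a j)) →
    (∀ i, a i ^ 3 = 1) → pw a v ^ 3 = 1
  | 0, _, _, _, _ => by simp [pw]
  | n + 1, a, v, h, k => by
    rw [← Fin.cons_self_tail v, pw_cons, ((pw_comm _ fun i => h 0 _).pow_left _).mul_pow,
      pw_cube _ (fun _ _ => h _ _) fun _ => k _, ← pow_mul, mul_comm, pow_mul, k, one_pow, one_mul]

theorem key : ∀ {n : ℕ} (a : Fin n → G) (M : Submodule (ZMod 2) V56), (∀ i j, Commute (a i) (a j)) →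
    (∀ i, a i ^ 3 = 1) → (∀ i, ∀ v ∈ M, ρ (a i) v ∈ M) →
    3 * ∑ v, dm (M ⊓ kf (ρ (pw a v))) = 3 ^ n * (dm M + 2 * dm (M ⊓ ⨅ i, kf (ρ (a i))))
  | 0, a, M, _, _, _ => by
    have : kf (1 : End (ZMod 2) V56) = ⊤ := eq_top_iff.2 fun v _ => mem_kf.2 rfl
    simp [pw, this]; ring
  | n + 1, a, M, h, k, hM => by
    have c : ∀ {x y : G}, Commute x y → ∀ v, ρ x (ρ y v) = ρ y (ρ x v) := fun e v => by
      rw [← End.mul_apply, ← map_mul, e, map_mul, End.mul_apply]
    have q : ∀ {x : G}, x ^ 3 = 1 → ∀ v ∈ M, (ρ x ^ 3) v = v := fun e v _ => by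
      rw [← map_pow, e, map_one, End.one_apply]
    have ih := key (fun j => a j.succ) (M ⊓ kf (ρ (a 0))) (fun _ _ => h _ _) (fun _ => k _)
      fun i v hv => ⟨hM _ v hv.1, mem_kf.2 (by rw [c (h 0 _), mem_kf.1 hv.2])⟩
    have st : ∀ v : Fin n → ZMod 3, dm M + 3 * dm (M ⊓ kf (ρ (a 0)) ⊓ kf (ρ (pw (fun j => a j.succ) v))) =
        dm (M ⊓ kf (ρ (a 0))) + ∑ i : ZMod 3, dm (M ⊓ kf (ρ (pw a (Fin.cons i v)))) := fun v => by
      let K : Submonoid G := ⟨⟨{x | ∀ v ∈ M, ρ x v ∈ M}, fun hx hy v hv => by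
        rw [map_mul, End.mul_apply]; exact hx _ (hy v hv)⟩, fun v hv => by simpa using hv⟩
      rw [H58.E7.jobPart V56 3 Nat.prime_three (by decide) M _ _ (hM 0)
        (pw_ind _ v (K := K) fun i => hM _) (fun w _ => c (pw_comm v fun i => h 0 _) w) (q (k 0))
        (q (pw_cube v (fun _ _ => h _ _) fun _ => k _)), Finset.sum_range]
      simp only [pw_cons, map_mul, map_pow]
      rfl
    have e := Finset.sum_congr rfl fun v (_ : v ∈ Finset.univ) => st v
    rw [Finset.sum_add_distrib, Finset.sum_add_distrib, ← Finset.mul_sum, ih, Finset.sum_comm] at e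
    have e2 : (M ⊓ ⨅ i, kf (ρ (a i))) = M ⊓ kf (ρ (a 0)) ⊓ ⨅ i : Fin n, kf (ρ (a i.succ)) := by
      ext v; simp [Fin.forall_fin_succ, and_assoc]
    rw [← (Fin.consEquiv fun _ => ZMod 3).sum_comp, Fintype.sum_prod_type, e2]
    simp only [Finset.sum_const, Finset.card_univ, Fintype.card_pi, ZMod.card, Finset.prod_const,
      Fintype.card_fin, smul_eq_mul] at e
    change 3 * ∑ i : ZMod 3, ∑ v : Fin n → ZMod 3, dm (M ⊓ kf (ρ (pw a (Fin.cons i v)))) = _
    rw [pow_succ]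
    nlinarith

theorem first {a : Fin 4 → G} (h : El a) :
    ∑ v : E4, fd ρ (ev a v) = 27 * (56 + 2 * dm (fix4 ρ a)) := by
  have k := key ρ a ⊤ h.comm h.cube fun _ _ _ => trivial
  have e1 : ∀ v, pw a v = ev a v := fun v => by simp [pw, ev, List.ofFn_succ, mul_assoc]
  have e2 : (⨅ i, kf (ρ (a i))) = fix4 ρ a := by
    ext v; simp [fix4, Fin.forall_fin_succ, and_assoc]
  have e3 : dm (⊤ : Submodule (ZMod 2) V56) = 56 := by simp [dm]
  simp only [top_inf_eq, e1, e2, e3] at k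
  change 3 * ∑ v : E4, fd ρ (ev a v) = _ at k
  omega

theorem jobSum : JobSum.{u} := fun G _ ρ a h => ⟨first ρ h, fun M => by
  refine ⟨dm (fix4 ρ fun i => ev a (M i)), Submodule.finrank_mono fun v hv => ?_, by
    simp only [h.ev_act]; exact first ρ (h.sub M)⟩
  have p : ∀ (x : G) (n : ℕ), ρ x v = v → ρ (x ^ n) v = v := fun x n e => by
    induction n with
    | zero => simp
    | succ n ih => rw [pow_succ, map_mul, End.mul_apply, e, ih]
  have : ∀ w, v ∈ kf (ρ (ev a w)) := fun w => mem_kf.2 (by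
    simp only [ev, map_mul, End.mul_apply]
    rw [p _ _ (mem_kf.1 hv.2), p _ _ (mem_kf.1 hv.1.2), p _ _ (mem_kf.1 hv.1.1.2),
      p _ _ (mem_kf.1 hv.1.1.1)])
  exact ⟨⟨⟨this _, this _⟩, this _⟩, this _⟩⟩

end H57.E7T
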