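import Cfsg.Agent.H57.F2Ob

/-! Tower F2 (row S3817): steps (G), (G2') and TI. -/

set_option autoImplicit false

namespace H57.F2

open Subgroup Cfsg H98
open scoped commutatorElement

universe u

variable {G : Type u} [Group G] [Finite G] {p q r : ℕ} {x : G}

theorem card_lt_of_lt {A B : Subgroup G} (h : A < B) : Nat.card A < Nat.card B :=
  (card_le_of_le h.le).lt_of_ne fun e => h.ne (eq_of_le_of_card_ge h.le e.ge)

theorem ab_mod (hp : p.Prime) (hq : Pr p q) {F K U : Subgroup G} [F.Normal] [K.Normal]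
    (hx : IsPGroup p (zpowers x)) (hF : ¬ p ∣ Nat.card F) (hK : res p K ≤ F)
    (hU : U ≤ pCoreOf q (cen x)) {k y : G} (hk : k ∈ K) (hy : y ∈ U) : ⁅k, y⁆ ∈ F := by
  have : Fact p.Prime := ⟨hp⟩
  set f := QuotientGroup.mk' F with hf
  have ker : ∀ z, f z = 1 ↔ z ∈ F := fun z => QuotientGroup.eq_one_iff z
  have hP : IsPGroup p (K.map f) := (isPGroup_map_iff f K).2 (by rwa [hf, QuotientGroup.ker_mk'])
  have nP : (K.map f).Normal := Subgroup.Normal.map inferInstance f (QuotientGroup.mk'_surjective F)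
  have hUc : U ≤ cen x := hU.trans (pCoreOf_le _)
  have h1 := thompson_AB hP (hx.map f)
    (res_eq_self_of_isPGroup_prime hq.1 hq.2 (((isPGroup_pCoreOf _).to_le hU).map f))
    (le_top.trans (normalizer_eq_top _).ge) (le_top.trans (normalizer_eq_top _).ge)
    (by rw [← map_commutator, commutator_comm, ← cm, cm_eq_bot.2 hUc, Subgroup.map_bot]) (by
      rintro _ ⟨⟨k, hk, rfl⟩, hc⟩
      have h2 : ⁅x, k⁆ ∈ F := by
        rw [← ker, map_commutatorElement, commutatorElement_eq_one_iff_mul_comm]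
        exact mem_cs.1 hc _ ⟨x, mem_zpowers x, rfl⟩
      obtain ⟨m, hm, hc⟩ := exists_mul_cen hp hx hF (by rw [nor, normalizer_eq_top]; trivial) h2
      refine mem_cs.2 ?_
      rintro _ ⟨y, hy, rfl⟩
      have e : f k = f (m * k) := by rw [map_mul, (ker m).2 hm, one_mul]
      have h3 : ⁅f k, f y⁆ ∈ (pCoreOf q (cen x)).map f ⊓ K.map f := by
        refine mem_inf.2 ⟨?_, ?_⟩
        · rw [e, ← map_commutatorElement]
          exact mem_map_of_mem f (mul_mem (conj_mem_of_mem_normalizer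
            (self_le_normalizer_pCoreOf _ hc) (hU hy)) (inv_mem (hU hy)))
        · exact commutator_le_left (K.map f) ⊤
            (commutator_mem_commutator (mem_map_of_mem f hk) (mem_top _))
      rw [inf_eq_bot_ne hq.1 hp hq.2 ((isPGroup_pCoreOf _).map f) hP, mem_bot,
        commutatorElement_eq_one_iff_mul_comm] at h3
      exact h3.symm)
  rw [← ker, map_commutatorElement, commutatorElement_eq_one_iff_mul_comm]
  exact (mem_cs.1 (h1 (mem_map_of_mem f hk)) _ (mem_map_of_mem f hy)).symm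

theorem fg (h : Hyp p x) (K : Kit p x) : FG p x := by
  intro X hX hx q hq U hU
  have : Fact p.Prime := ⟨h.pp⟩
  have hUX : U ≤ X := hU.trans ((pCoreOf_le _).trans inf_le_left)
  have hKX : ncl X (zpowers x) ≤ X := ncl_le_of_le (zpowers_le.2 hx)
  have := normal_subgroupOf_of_le_normalizer (self_le_nor_Fp p X)
  have := normal_subgroupOf_of_le_normalizer (le_normalizer_ncl X (zpowers x))
  have h1 : U ≤ X ⊓ stab (ncl X (zpowers x)) (Fp p X) := fun y hy => by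
    refine mem_inf.2 ⟨hUX hy, mem_stab.2 ⟨self_le_nor_Fp p X (hUX hy), fun k hk => ?_⟩⟩
    refine ab_mod (G := X) (x := ⟨x, hx⟩) (F := (Fp p X).subgroupOf X)
      (K := (ncl X (zpowers x)).subgroupOf X) (U := U.subgroupOf X) h.pp hq
      (zp_pg (k := 1) (Subtype.ext (by simpa using h.pow)))
      (by rw [Nat.card_congr (subgroupOfEquivOfLe (Fp_le p X)).toEquiv]; exact not_dvd_Fp h.pp X)
      (fun z hz => K.h1b X hX hx (by rw [← map_res_subgroupOf hKX]; exact mem_map_of_mem _ hz))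
      ?_ (k := ⟨k, hKX hk⟩) (y := ⟨y, hUX hy⟩) hk hy
    have e : cen (⟨x, hx⟩ : X) = (X ⊓ cen x).subgroupOf X := by
      ext z; simp [mem_cen, mem_subgroupOf, Subtype.ext_iff]
    rw [e, pCoreOf_subgroupOf_eq inf_le_left]
    exact fun z hz => hU hz
  refine (ncl_le h1 (le_normalizer_inf le_normalizer
    (le_normalizer_stab (le_normalizer_ncl _ _) (self_le_nor_Fp p X)))).trans fun y hy => ?_
  obtain ⟨m, hm, hc⟩ := exists_mul_cen h.pp h.pg (not_dvd_Fp h.pp X) (self_le_nor_Fp p X hx)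
    ((mem_stab.1 hy.2).2 x (le_ncl _ _ (mem_zpowers x)))
  rw [show y = m⁻¹ * (m * y) by group]
  exact mul_mem (mem_sup_right (inv_mem hm))
    (mem_sup_left (mem_inf.2 ⟨mul_mem (Fp_le p X hm) hy.1, hc⟩))

theorem fg2 (h : Hyp p x) (K : Kit p x) : FG2 p x := by
  intro M M₀ hM hx h0 hc hF q hq hne
  have := hq.fact
  have hx0 : x ∈ M₀ := hc (mem_inf.2 ⟨hx, self_mem_cen x⟩)
  have p0 := isPGroup_pCoreOf (p := q) M₀
  have n0 := self_le_normalizer_pCoreOf (p := q) M₀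
  have nU : M ⊓ cen x ≤ nor (pCoreOf q M₀ ⊓ M) :=
    le_normalizer_inf (hc.trans n0) (le_normalizer_of_le inf_le_left)
  have h1 : pCoreOf q M₀ ⊓ M ⊓ cen x ≤ pCoreOf q (M ⊓ cen x) :=
    le_pCoreOf (p0.to_le (inf_le_left.trans inf_le_left)) (inf_le_inf_right _ inf_le_right)
      (le_normalizer_inf nU (le_normalizer_of_le inf_le_right))
  have h2 := (fg h K M hM.1 hx q hq _ h1).trans (sup_le hc hF)
  have h3 : pCoreOf q M₀ ⊓ M ⊓ cen x ≤ pCoreOf q M :=
    ((le_inf (inf_le_left.trans inf_le_left) (le_ncl _ _)).trans (pCoreOf_inf_le_of_le h2)).trans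
      (pCoreOf_le_pCoreOf_of_normal (ncl_le_of_le (inf_le_left.trans inf_le_right))
        (le_normalizer_ncl _ _))
  have xU := nU (mem_inf.2 ⟨hx, self_mem_cen x⟩)
  have pU : IsPGroup q (pCoreOf q M₀ ⊓ M : Subgroup G) := p0.to_le inf_le_left
  have h4 : pCoreOf q M₀ ⊓ M ≤ pCoreOf q M := by
    rw [← cm_sup_cen h.pp h.pg (hq.not_dvd h.pp pU) xU]
    exact sup_le (K.h1a M hM.1 hx q hq _ inf_le_right pU xU) h3
  have h5 : pCoreOf q M ≤ nor (pCoreOf q M₀) := ((core_le_Fp hq M).trans hF).trans n0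
  by_contra hc
  have hlt := lt_inf_normalizer (IsPGroup.to_sup_of_normal_right' (isPGroup_pCoreOf M) p0 h5)
    (left_lt_sup.2 hc)
  refine hlt.not_ge fun y hy => ?_
  obtain ⟨a, ha, b, hb, rfl⟩ := (mem_sup_left_norm h5).1 hy.1
  have hm : a * b ∈ M := K.norV M hM q hq.1 hne ▸ hy.2
  exact mul_mem ha (h4 ⟨hb, (Subgroup.mul_mem_cancel_left M (pCoreOf_le M ha)).1 hm⟩)

theorem jobG : JobG.{u} := fun _ _ _ _ K =>
  ⟨fun x h => fg h (K x h), fun x h => fg2 h (K x h)⟩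

theorem jobTI : JobTI.{u} := by
  intro G _ _ p K x h W hxW hW q hq ha hb
  have := hq.fact
  have K := K x h
  have cc : ∀ {S : Subgroup G}, IsPGroup q S → W ≤ nor S → cm (cm S x) x = cm S x :=
    fun h1 h2 => cm_cm h.pp h.pg (hq.not_dvd h.pp h1) (h2 hxW)
  suffices H : ∀ n : ℕ, ∀ S₁ S₂ : Subgroup G, MaxI q W S₁ → MaxI q W S₂ → ¬ S₁ ⊓ S₂ ≤ cen x →
      Nat.card G - Nat.card (S₁ ⊓ S₂ : Subgroup G) = n → cm S₁ x = cm S₂ x from
    fun S₁ S₂ h1 h2 h3 => H _ S₁ S₂ h1 h2 h3 rfl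
  intro n
  induction n using Nat.strong_induction_on with
  | _ n ih =>
  suffices H : ∀ S₁ S₂ : Subgroup G, MaxI q W S₁ → MaxI q W S₂ → ¬ S₁ ⊓ S₂ ≤ cen x →
      Nat.card G - Nat.card (S₁ ⊓ S₂ : Subgroup G) = n → ¬ cm S₂ x ≤ S₁ ⊓ S₂ →
      cm S₁ x = cm S₂ x by
    intro S₁ S₂ h1 h2 h3 hn
    by_cases c2 : cm S₂ x ≤ S₁ ⊓ S₂
    · by_cases c1 : cm S₁ x ≤ S₂ ⊓ S₁
      · exact le_antisymm (cc h1.1 h1.2.1 ▸ cm_mono (c1.trans inf_le_left))
          (cc h2.1 h2.2.1 ▸ cm_mono (c2.trans inf_le_left))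
      · exact (H S₂ S₁ h2 h1 (inf_comm S₁ S₂ ▸ h3) (inf_comm S₁ S₂ ▸ hn) c1).symm
    · exact H S₁ S₂ h1 h2 h3 hn c2
  intro S₁ S₂ h1 h2 h3 hn c2
  set Γ := S₁ ⊓ S₂ with hΓ
  have pΓ : IsPGroup q Γ := h1.1.to_le inf_le_left
  have hX := K.norq q hq.1 Γ pΓ (fun e => h3 (e ▸ bot_le))
  have WX : W ≤ nor Γ := le_normalizer_inf h1.2.1 h2.2.1
  have R2 : cm S₂ x ≤ S₂ := cm_le (h2.2.1 hxW)
  have WR : W ≤ nor (cm S₂ x) := nor_cm h2.2.1 hW
  have l1 : Γ < S₁ ⊓ nor Γ := lt_inf_normalizer h1.1 (lt_of_le_not_ge inf_le_left fun e =>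
    c2 (le_inf (R2.trans (h1.2.2 S₂ h2.1 h2.2.1 (e.trans inf_le_right)).le) R2))
  have l2 : Γ < (cm S₂ x ⊔ Γ) ⊓ nor Γ :=
    lt_inf_normalizer (h2.1.to_le (sup_le R2 inf_le_right)) (right_lt_sup.2 c2)
  set O := pCoreOf q (cen x) with hO
  have WU : W ≤ nor (S₁ ⊓ nor Γ) := le_normalizer_inf h1.2.1 (le_normalizer_of_le WX)
  have nO : nor Γ ⊓ cen x ≤ nor (O ⊓ nor Γ) := le_normalizer_inf
    (inf_le_right.trans (self_le_normalizer_pCoreOf _)) (le_normalizer_of_le inf_le_left)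
  have cW : cs W ≤ cen x := by rw [← cs_zpowers]; exact centralizer_anti (zpowers_le.2 hxW)
  have pB : IsPGroup q (pCoreOf q (nor Γ) ⊔ (O ⊓ nor Γ ⊔ S₁ ⊓ nor Γ ⊓ cs W) : Subgroup G) :=
    IsPGroup.to_sup_of_normal_left' (isPGroup_pCoreOf _) (IsPGroup.to_sup_of_normal_left'
      ((isPGroup_pCoreOf _).to_le inf_le_left) (h1.1.to_le (inf_le_left.trans inf_le_left))
      ((inf_le_inf inf_le_right cW).trans nO))
      (le_normalizer_pCoreOf_of_le (sup_le inf_le_right (inf_le_left.trans inf_le_right)))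
  obtain ⟨S, hS, hB⟩ := exists_maxI pB (le_normalizer_sup (le_normalizer_pCoreOf_of_le WX)
    (le_normalizer_sup ((le_inf WX hW).trans nO)
      (le_normalizer_inf WU (le_normalizer_centralizer le_normalizer))))
  have dec : ∀ T : Subgroup G, IsPGroup q T → T ≤ nor Γ → x ∈ nor T → T ⊓ cen x ≤ S → T ≤ S :=
    fun T t1 t2 t3 t4 => by
      rw [← cm_sup_cen h.pp h.pg (hq.not_dvd h.pp t1) t3]
      exact sup_le ((K.h1a _ hX (WX hxW) q hq T t2 t1 t3).trans (le_sup_left.trans hB)) t4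
  have u1 : S₁ ⊓ nor Γ ≤ S := dec _ (h1.1.to_le inf_le_left) inf_le_right (WU hxW)
    ((ha _ (h1.1.to_le (inf_le_left.trans inf_le_left)) inf_le_right
      (le_normalizer_inf WU (le_normalizer_of_le hW))).trans ((sup_le_sup
        (le_inf inf_le_right (inf_le_left.trans (inf_le_left.trans inf_le_right)))
        (inf_le_inf_right _ inf_le_left)).trans (le_sup_right.trans hB)))
  have mR : Mem q x (cm S₂ x) := h.mem_cm hq h2.1 (h2.2.1 hxW) (fun e => c2 (e ▸ bot_le))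
  have u2 : (cm S₂ x ⊔ Γ) ⊓ nor Γ ≤ S := by
    rw [sup_comm, sup_inf_of_le_left (inf_le_right.trans (le_nor_cm S₂ x)) le_normalizer]
    refine sup_le (l1.le.trans u1) (dec _ (mR.pg.to_le inf_le_left) inf_le_right
      (le_normalizer_inf WR (le_normalizer_of_le WX) hxW) ?_)
    exact (le_inf ((inf_le_inf_right _ inf_le_left).trans (hb _ mR WR))
      (inf_le_left.trans inf_le_right)).trans (le_sup_left.trans (le_sup_right.trans hB))
  have step : ∀ T : Subgroup G, MaxI q W T → Γ < T ⊓ S → cm T x = cm S x := fun T t1 t2 =>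
    ih _ (by
      have e1 := card_lt_of_lt t2
      have e2 := card_le_card_group (T ⊓ S)
      omega) T S t1 hS (fun e => h3 (t2.le.trans e)) rfl
  rw [step S₁ h1 (l1.trans_le (le_inf inf_le_left u1)), step S₂ h2 (l2.trans_le
    (le_inf (inf_le_left.trans (sup_le R2 inf_le_right)) u2))]

end H57.F2
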