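import Cfsg.Agent.H57.F2Spec
import Cfsg.Agent.H83.BaerSuzuki

/-! Tower F2 (row S3817): the first consequences of `Hyp`. -/

set_option autoImplicit false

namespace H57.F2

open Subgroup Cfsg H98
open scoped commutatorElement

universe u

variable {G : Type u} [Group G] [Finite G] {p q : ℕ} {x : G}

omit [Finite G] in
theorem Hyp.core_bot (h : Hyp p x) (hq : q.Prime) (N : Subgroup G) [N.Normal] :
    pCoreOf q N = ⊥ := by
  have := pCoreOf_le_pCoreOf_of_normal (p := q) (le_top (a := N)) (normalizer_eq_top N).ge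
  rwa [pCoreOf_top, h.core q hq, le_bot_iff] at this

omit [Finite G] in
theorem Hyp.norq (h : Hyp p x) (hq : q.Prime) {A : Subgroup G} (hA : IsPGroup q A) (hne : A ≠ ⊥) :
    nor A ≠ ⊤ := fun e => hne (by
  have := le_pCoreOf hA le_top e.ge
  rwa [pCoreOf_top, h.core q hq, le_bot_iff] at this)

omit [Finite G] in
theorem Hyp.cenq (h : Hyp p x) (hq : q.Prime) {z : G} {k : ℕ} (hz : z ^ q ^ k = 1) (hne : z ≠ 1) :
    cen z ≠ ⊤ := fun e => h.norq hq (zp_pg hz) (fun e => hne (zpowers_eq_bot.1 e))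
      (top_le_iff.1 (e.ge.trans (by rw [← cs_zpowers]; exact centralizer_le_normalizer _)))

/-- a subgroup of `⟨x^X⟩` normalized by a normal subgroup `N ≤ X` containing it is trivial -/
theorem Hyp.bot_of (h : Hyp p x) {X N D : Subgroup G} [N.Normal] (hX : X ≠ ⊤) (hx : x ∈ X)
    (hN : N ≤ X) (hD : D ≤ N) (hn : N ≤ nor D) (hK : D ≤ ncl X (zpowers x)) : D = ⊥ := by
  have : Fact p.Prime := ⟨h.pp⟩
  have h1 : res p D ≤ ⊥ := res_le_of_forall_prime fun q hq hne y hy hk => by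
    rw [← h.core_bot hq N, pCoreOf_eq_inf_of_normal hN (le_top.trans (normalizer_eq_top N).ge)]
    exact ⟨h.good X hX hx q ⟨hq, hne⟩ y (hK hy) hk, hD hy⟩
  have := le_pCoreOf (res_eq_bot_iff.1 (le_bot_iff.1 h1)) hD hn
  rwa [h.core_bot h.pp N, le_bot_iff] at this

theorem Hyp.nox (h : Hyp p x) {N : Subgroup G} [N.Normal] (hx : x ∈ N) : N = ⊤ := by
  by_contra hN
  have := h.bot_of hN hx le_rfl (ncl_le_of_le (zpowers_le.2 hx)) (le_normalizer_ncl _ _) le_rfl
  exact h.ne_one (zpowers_eq_bot.1 (ncl_eq_bot_iff.1 this))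

theorem Hyp.nrm (h : Hyp p x) (N : Subgroup G) [N.Normal] (hN : N ≠ ⊥) : N ⊔ zpowers x = ⊤ := by
  by_contra hX
  have hx : x ∈ nor N := by rw [nor, normalizer_eq_top]; trivial
  have h1 := h.bot_of hX (mem_sup_right (mem_zpowers x)) le_sup_left (cm_le hx) (le_nor_cm N x)
    (cm_le_ncl le_sup_left)
  have h2 : cs N = ⊤ := h.nox (mem_centralizer_iff.2 fun y hy => mem_cen.1 (cm_eq_bot.1 h1 hy))
  obtain ⟨r, hr, hd⟩ := Nat.exists_prime_and_dvd (fun e => hN (card_eq_one.1 e))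
  have : Fact r.Prime := ⟨hr⟩
  obtain ⟨z, hz⟩ := exists_prime_orderOf_dvd_card' r hd
  have hz' : orderOf (z : G) = r := by rw [Subgroup.orderOf_coe, hz]
  refine h.cenq (k := 1) (z := z) hr (by rw [pow_one, ← hz', pow_orderOf_eq_one])
    (fun e => hr.one_lt.ne' (by rw [← hz', e, orderOf_one])) (top_le_iff.1 fun y _ => ?_)
  exact mem_cen.2 (mem_centralizer_iff.1 (h2.ge (mem_top y)) z z.2).symm

omit [Finite G] in
theorem Hyp.h1a (h : Hyp p x) {X Y : Subgroup G} (hX : X ≠ ⊤) (hx : x ∈ X) (hq : Pr p q)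
    (hY : Y ≤ X) (hg : IsPGroup q Y) (hn : x ∈ nor Y) : cm Y x ≤ pCoreOf q X := fun y hy =>
  h.good X hX hx q hq y (cm_le_ncl hY hy) (isPGroup_iff_forall.1 hg y (cm_le hn hy))

theorem Hyp.h1b (h : Hyp p x) {X : Subgroup G} (hX : X ≠ ⊤) (hx : x ∈ X) :
    res p (ncl X (zpowers x)) ≤ Fp p X :=
  have : Fact p.Prime := ⟨h.pp⟩
  res_le_of_forall_prime fun q hq hne y hy hk =>
    core_le_Fp ⟨hq, hne⟩ X (h.good X hX hx q ⟨hq, hne⟩ y hy hk)

theorem Hyp.h1c (h : Hyp p x) {X : Subgroup G} (hX : X ≠ ⊤) (hx : x ∈ X) (hn : x ∉ pCoreOf p X) :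
    ∃ q : ℕ, Pr p q ∧ cm (pCoreOf q X) x ≠ ⊥ := by
  by_contra! hc
  have : Fact p.Prime := ⟨h.pp⟩
  have h1 : Fp p X ≤ cs (ncl X (zpowers x)) := le_centralizer_ncl
    (by rw [← cs, cs_zpowers]; exact Fp_le_of fun q hq => cm_eq_bot.1 (hc q hq)) (self_le_nor_Fp p X)
  obtain ⟨T, hT, hxT⟩ := exists_isSyl_le h.pg (le_ncl X (zpowers x))
  have h2 : ncl X (zpowers x) ≤ nor T := by
    rw [← hT.sup_res]
    exact sup_le le_normalizer (le_normalizer_of_le_centralizer
      ((h.h1b hX hx).trans (h1.trans (centralizer_anti hT.le))))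
  exact hn (pCoreOf_le_pCoreOf_of_normal (ncl_le_of_le (zpowers_le.2 hx)) (le_normalizer_ncl _ _)
    (hT.eq_pCoreOf h2 ▸ hxT (mem_zpowers x)))

theorem jobKit : JobKit.{u} := by
  intro G _ _ p x h
  have : Fact p.Prime := ⟨h.pp⟩
  refine ⟨fun N _ hN => h.nrm N hN, fun q hq A => h.norq hq, fun q hq z k => h.cenq hq,
    fun M hM hx => ?_, fun M hM q hq hne => ?_, fun X hX hx q hq Y => h.h1a hX hx hq,
    fun X hX hx q hq Y hY hm => hm.eq ▸ h.h1a hX hx hq hY hm.pg hm.inv, fun X => h.h1b,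
    fun X => h.h1c, fun u hu ⟨k, hk⟩ => ?_, fun g hg => ?_, ?_, fun R hR hx n hn c hc => ?_⟩
  · by_contra hc
    have : M.Normal := normal_of_top_le_normalizer
      (hM.2 _ (lt_of_le_not_ge le_normalizer hc)).ge
    exact hM.1 (h.nox hx)
  · exact ((hM.le_iff.1 (self_le_normalizer_pCoreOf M)).resolve_left
      (h.norq hq (isPGroup_pCoreOf M) hne))
  · have hx : x ∈ closure ({x, u} : Set G) := subset_closure (by simp)
    have hu' : u ∈ closure ({x, u} : Set G) := subset_closure (by simp)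
    obtain ⟨q, hq, hne⟩ := h.h1c (h.two u) hx fun e => hu
      ((IsPGroup.to_sup_of_normal_left' (isPGroup_pCoreOf _) (zp_pg hk)
        (le_normalizer_pCoreOf_of_le (zpowers_le.2 hu'))).to_le ((closure_le _).2 (by
          rintro z (rfl | rfl)
          exacts [mem_sup_left e, mem_sup_right (mem_zpowers _)])))
    have hn := self_le_normalizer_pCoreOf (p := q) _ hx
    exact ⟨q, _, hq, h.mem_cm hq (isPGroup_pCoreOf _) hn hne, (cm_le hn).trans (pCoreOf_le _)⟩
  · obtain ⟨M, hM, hle⟩ := exists_coatom (h.two g)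
    have hgM : g ∈ M := hle (subset_closure (by simp))
    refine ⟨M, ⟨hM, hle (subset_closure (by simp)), fun e => hg ((isPGroup_pCoreOf M).to_le
      ((closure_le _).2 ?_))⟩, hgM⟩
    rintro z (rfl | rfl)
    exacts [e, conj_mem_of_mem_normalizer (self_le_normalizer_pCoreOf M hgM) e]
  · by_contra! hc
    have := H83.mem_pCore_of_baer_suzuki hc
    rw [h.core p h.pp] at this
    exact h.ne_one this
  · obtain ⟨m, hm, e⟩ := exists_Yn h.pp h.pg hR hx hn
    have h1 : x ∈ closure ({x, m * c} : Set G) := subset_closure (by simp)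
    have h2 : m * c ∈ closure ({x, m * c} : Set G) := subset_closure (by simp)
    have h3 : Yn R x n ≤ closure ({x, m * c} : Set G) := Yn_le_of h1 (by
      rw [← e, show m * x * m⁻¹ = m * c * x * (m * c)⁻¹ by rw [mul_assoc m c, mem_cen.1 hc]; group]
      exact mul_mem (mul_mem h2 h1) (inv_mem h2))
    exact ⟨_, h.two _, h1, (Subgroup.mul_mem_cancel_left _ (h3 hm)).1 h2, h3,
      cm_le_ncl h3 ((cm_Yn h.pp h.pg hR hx hn).ge (comm_mem_Yn hx hn))⟩

end H57.F2
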