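import Cfsg.Agent.H57.F2Spec

/-! Tower F2 (row S3817): step (Ob). -/

set_option autoImplicit false

namespace H57.F2

open Subgroup Cfsg H98
open scoped commutatorElement

universe u

variable {G : Type u} [Group G] {p q r : ℕ} {x z e a : G} {R R' M : Subgroup G}

theorem mem_cs {y : G} : y ∈ cs R ↔ ∀ r ∈ R, r * y = y * r := mem_centralizer_iff

theorem le_cen_of_cs (h : z ∈ cs R) : R ≤ cen z := fun y hy => mem_cen.2 (mem_cs.1 h y hy)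

theorem mem_cs_of_le (h : R ≤ cen z) : z ∈ cs R := mem_cs.2 fun _ hy => mem_cen.1 (h hy)

theorem comm_eq_one {y : G} : ⁅y, x⁆ = 1 ↔ y ∈ cen x := by
  rw [commutatorElement_eq_one_iff_mul_comm, mem_cen]

/-- an element of the second centre outside the centre -/
theorem exists_z2 [Finite G] (hq : q.Prime) (hR : IsPGroup q R) (h : ¬ R ≤ cs R) :
    ∃ w ∈ R, w ∉ cs R ∧ ∀ y ∈ R, ⁅y, w⁆ ∈ cs R := by
  have : Fact q.Prime := ⟨hq⟩
  obtain ⟨N, -, hN⟩ := Finite.exists_le_minimal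
    (p := fun N : Subgroup G => N ≤ R ∧ R ≤ nor N ∧ ¬ N ≤ cs R) ⟨le_rfl, le_normalizer, h⟩
  have hlt := commutator_lt_of_isPGroup (hR.to_le hN.1.1) hR hN.1.2.1
    (fun e => hN.1.2.2 (e ▸ bot_le))
  have h1 : ⁅N, R⁆ ≤ cs R := by
    by_contra hc
    exact hlt.not_ge (hN.2 ⟨hlt.le.trans hN.1.1, normalizer_commutator_ge_right N R, hc⟩ hlt.le)
  obtain ⟨w, hw, hw'⟩ := SetLike.not_le_iff_exists.1 hN.1.2.2
  refine ⟨w, hN.1.1 hw, hw', fun y hy => ?_⟩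
  rw [← commutatorElement_inv]
  exact inv_mem (h1 (commutator_mem_commutator hw hy))

theorem swap_cen {A : Subgroup G} {ζ y y' : G} (h1 : ζ ∈ nor R') (h2 : ζ ∈ nor A)
    (h3 : A ⊓ R' = ⊥) (hy : y ∈ A) (hy' : y' ∈ cen ζ) (hn : y' ∈ nor R') (hρ : y'⁻¹ * y ∈ R') :
    y ∈ cen ζ := by
  have h4 : ⁅ζ, y⁆ ∈ A ⊓ R' := by
    refine mem_inf.2 ⟨mul_mem (conj_mem_of_mem_normalizer h2 hy) (inv_mem hy), ?_⟩
    have e1 : ⁅ζ, y⁆ = y' * (ζ * (y'⁻¹ * y) * ζ⁻¹ * (y'⁻¹ * y)⁻¹) * y'⁻¹ := by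
      calc ⁅ζ, y⁆ = (ζ * y') * (y'⁻¹ * y * ζ⁻¹ * y⁻¹) := by rw [commutatorElement_def]; group
        _ = _ := by rw [← mem_cen.1 hy']; group
    rw [e1]
    exact conj_mem_of_mem_normalizer hn (mul_mem (conj_mem_of_mem_normalizer h1 hρ) (inv_mem hρ))
  rw [h3, mem_bot, comm_eq_one] at h4
  exact cen_comm.1 h4

theorem Line.cen_le [Finite G] (K : All (G := G) p (Kit p)) (C : All (G := G) p (FC p))
    (h : Hyp p x) (l : Line p x M) : cen x ≤ M := by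
  obtain ⟨q, hq, hne⟩ := (K x h).h1c M l.co.1 l.mem l.nm
  exact (C x h M l.co l.mem q hq hne).1.trans (C x h M l.co l.mem q hq hne).2

/-- the data of a counterexample to (Ob) -/
structure ObD (p q r : ℕ) (x : G) (R R' : Subgroup G) : Prop where
  K : All (G := G) p (Kit p)
  U : All (G := G) p (FU p)
  h : Hyp p x
  hq : Pr p q
  hr : Pr p r
  ne : q ≠ r
  mR : MaxM q x R
  mR' : MaxM r x R'
  nc : ¬ R ≤ cs R'

namespace ObD

variable (d : ObD p q r x R R')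
include d

theorem nZ : cen x ≤ nor (R ⊓ cs R ⊓ cen x) :=
  have h1 := (d.U x d.h).cen_le q d.hq R d.mR
  le_normalizer_inf (le_normalizer_inf h1 (le_normalizer_centralizer h1)) le_normalizer

theorem nR' : cen x ≤ nor R' := (d.U x d.h).cen_le r d.hr R' d.mR'

theorem pZ : IsPGroup q (R ⊓ cs R ⊓ cen x : Subgroup G) :=
  d.mR.1.pg.to_le (inf_le_left.trans inf_le_left)

theorem s1 (hz : z ∈ R ⊓ cs R ⊓ cen x) (hc : z ∈ cs R') : z = 1 := by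
  by_contra hne
  obtain ⟨k, hk⟩ := isPGroup_iff_forall.1 d.pZ z hz
  have hX := (d.K x d.h).cenq q d.hq.1 z k hk hne
  have hx : x ∈ cen z := cen_comm.1 hz.2
  exact d.nc (le_cs_of_core d.hq.1 d.hr.1 d.ne
    ((d.K x d.h).h1m _ hX hx q d.hq R (le_cen_of_cs hz.1.2) d.mR.1)
    ((d.K x d.h).h1m _ hX hx r d.hr R' (le_cen_of_cs hc) d.mR'.1))

theorem s2 {v : G} (hv : Hyp p v) (hc : v ∈ cen x) : R ⊓ cs R ⊓ cen x ≤ cen v := by
  have hX := (d.K x d.h).norq r d.hr.1 R' d.mR'.1.pg d.mR'.1.ne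
  have h1 := le_cs_of_core d.hq.1 d.hr.1 d.ne ((d.K v hv).h1a _ hX (d.nR' hc) q d.hq _
    (inf_le_right.trans d.nR') d.pZ (d.nZ hc)) (le_pCoreOf d.mR'.1.pg le_normalizer le_rfl)
  exact cm_eq_bot.1 (le_bot_iff.1 fun y hy => d.s1 (cm_le (d.nZ hc) hy) (h1 hy))

theorem s2' (g : G) {v : G} (hv : Hyp p v) (hc : v ∈ cen (g * x * g⁻¹)) :
    cj g (R ⊓ cs R ⊓ cen x) ≤ cen v := by
  rw [← cj_cen, mem_cj] at hc
  have h1 := cj_mono g (d.s2 (by simpa using hv.conj g⁻¹) hc)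
  rwa [cj_cen, show g * (g⁻¹ * v * g) * g⁻¹ = v by group] at h1

theorem s2c (g t : G) (hc : ⁅t, g * x * g⁻¹⁆ ∈ cen (g * x * g⁻¹)) :
    cj g (R ⊓ cs R ⊓ cen x) ≤ cen ⁅t, g * x * g⁻¹⁆ := by
  have h1 := d.s2' g ((d.h.conj g).conj t) (by
    rw [show t * (g * x * g⁻¹) * t⁻¹ = ⁅t, g * x * g⁻¹⁆ * (g * x * g⁻¹) by
      rw [commutatorElement_def]; group]
    exact mul_mem hc (self_mem_cen _))
  have h2 := d.s2' g (d.h.conj g) (self_mem_cen _)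
  intro y hy
  exact cen_comm.1 (mul_mem (cen_comm.1 (h1 hy)) (inv_mem (cen_comm.1 (h2 hy))))

theorem s4 [Finite G] (C : All (G := G) p (FC p)) (ha : a ∈ R) (he : e ∈ R')
    (hz : z ∈ R ⊓ cs R ⊓ cen x) :
    ∃ X : Subgroup G, X ≠ ⊤ ∧ a * x * a⁻¹ ∈ X ∧ e * x * e⁻¹ ∈ X ∧ z ∈ X ∧ e * z * e⁻¹ ∈ X := by
  set Z := R ⊓ cs R ⊓ cen x with hZ
  have haZ : cj a Z = Z := cj_eq_self (centralizer_le_normalizer _
    (mem_cs.2 fun y hy => (mem_cs.1 hy.1.2 a ha).symm))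
  have z2 : Z ≤ cen (a * x * a⁻¹) := haZ ▸ d.s2' a (d.h.conj a) (self_mem_cen _)
  have z1 : cj e Z ≤ cen (e * x * e⁻¹) := d.s2' e (d.h.conj e) (self_mem_cen _)
  have eg : e * a⁻¹ * (a * x * a⁻¹) * (e * a⁻¹)⁻¹ = e * x * e⁻¹ := by group
  by_cases hT : IsPGroup p (closure ({a * x * a⁻¹, e * x * e⁻¹} : Set G))
  swap
  · obtain ⟨M, l, hg⟩ := (d.K _ (d.h.conj a)).line (e * a⁻¹) (eg ▸ hT)
    have h1 := l.cen_le d.K C (d.h.conj a)
    have h2 : cen (e * x * e⁻¹) ≤ M := by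
      rw [← eg, ← cj_cen]; exact cj_le_of_le_of_mem h1 hg
    exact ⟨M, l.co.1, l.mem, h2 (self_mem_cen _), h1 (z2 hz), h2 (z1 (conj_mem_cj hz))⟩
  set T := closure ({a * x * a⁻¹, e * x * e⁻¹} : Set G) with hTd
  have m2 : a * x * a⁻¹ ∈ T := subset_closure (by simp)
  have m1 : e * x * e⁻¹ ∈ T := subset_closure (by simp)
  have key : ∃ ζ ∈ T, ζ ≠ 1 ∧ ζ ∈ cs T ∧ (Z ≤ cen ζ ∨ cj e Z ≤ cen ζ) := by
    by_cases hab : T ≤ cs T
    · exact ⟨_, m2, (d.h.conj a).ne_one, hab m2, Or.inl z2⟩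
    obtain ⟨t, ht, ht', h1⟩ := exists_z2 d.h.pp hT hab
    have h2 : ∀ y ∈ T, ⁅t, y⁆ ∈ cs T := fun y hy => by
      rw [← commutatorElement_inv]; exact inv_mem (h1 y hy)
    have h3 : ∀ y ∈ T, ⁅t, y⁆ ∈ T := fun y hy =>
      mul_mem (mul_mem (mul_mem ht hy) (inv_mem ht)) (inv_mem hy)
    by_cases c2 : ⁅t, a * x * a⁻¹⁆ = 1
    · refine ⟨_, h3 _ m1, fun c1 => ht' (mem_cs_of_le ((closure_le _).2 ?_)), h2 _ m1,
        Or.inr (d.s2c e t (cen_comm.1 (le_cen_of_cs (h2 _ m1) m1)))⟩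
      rintro y (rfl | rfl)
      exacts [cen_comm.1 (comm_eq_one.1 c2), cen_comm.1 (comm_eq_one.1 c1)]
    · exact ⟨_, h3 _ m2, c2, h2 _ m2,
        Or.inl (haZ ▸ d.s2c a t (cen_comm.1 (le_cen_of_cs (h2 _ m2) m2)))⟩
  obtain ⟨ζ, hζ, hne, hc, hor⟩ := key
  obtain ⟨k, hk⟩ := isPGroup_iff_forall.1 hT ζ hζ
  have c1 : ζ ∈ cj e (cen x) := by rw [cj_cen]; exact cen_comm.1 (le_cen_of_cs hc m1)
  have c2 : ζ ∈ cj a (cen x) := by rw [cj_cen]; exact cen_comm.1 (le_cen_of_cs hc m2)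
  have n1 : ζ ∈ nor R' := cj_le_of_le_of_mem d.nR' (le_normalizer he) c1
  have n2 : ζ ∈ nor Z := by rw [← haZ, nor, ← cj_normalizer]; exact cj_mono a d.nZ c2
  have n3 : ζ ∈ nor (cj e Z) := by rw [nor, ← cj_normalizer]; exact cj_mono e d.nZ c1
  have nz : z ∈ nor R' := d.nR' hz.2
  have nz' : e * z * e⁻¹ ∈ nor R' := mul_mem (mul_mem (le_normalizer he) nz) (inv_mem (le_normalizer he))
  have hρ : z⁻¹ * (e * z * e⁻¹) ∈ R' := by
    rw [show z⁻¹ * (e * z * e⁻¹) = z⁻¹ * e * z * e⁻¹ by group]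
    exact mul_mem (conj_mem_of_mem_normalizer' nz he) (inv_mem he)
  refine ⟨cen ζ, (d.K x d.h).cenq p d.h.pp ζ k hk hne, le_cen_of_cs hc m2, le_cen_of_cs hc m1, ?_⟩
  rcases hor with h1 | h1
  · exact ⟨h1 hz, swap_cen n1 n3 (inf_eq_bot_ne d.hq.1 d.hr.1 d.ne (isPGroup_cj e d.pZ) d.mR'.1.pg)
      (conj_mem_cj hz) (h1 hz) nz hρ⟩
  · exact ⟨swap_cen n1 n2 (inf_eq_bot_ne d.hq.1 d.hr.1 d.ne d.pZ d.mR'.1.pg) hz
      (h1 (conj_mem_cj hz)) nz' (by simpa using inv_mem hρ), h1 (conj_mem_cj hz)⟩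

end ObD

theorem jobOb : JobOb.{u} := by
  intro G _ _ p K F U C x h q r hq hr hne R R' mR mR' hZ
  by_contra nc
  have d : ObD p q r x R R' := ⟨K, U, h, hq, hr, hne, mR, mR', nc⟩
  obtain ⟨⟨z, hz⟩, hz1⟩ := (ne_bot_iff_exists_ne_one).1 hZ
  have hz1 : z ≠ 1 := fun e => hz1 (Subtype.ext e)
  obtain ⟨e₀, he₀, hne₀⟩ : ∃ e₀ ∈ R', e₀ * z ≠ z * e₀ := by
    by_contra! hc; exact hz1 (d.s1 hz (mem_cs.2 hc))
  have hqr : Pr q r := ⟨hr.1, hne.symm⟩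
  obtain ⟨e, he, ee⟩ := exists_Yn hq.1 (d.pZ.to_le (zpowers_le.2 hz)) (hqr.not_dvd hq.1 mR'.1.pg)
    (d.nR' hz.2) he₀
  have heR : e ∈ R' := he.2
  set E := closure ({x, e} : Set G) ⊓ R' with hE
  have pE : IsPGroup r E := mR'.1.pg.to_le inf_le_right
  have nE : x ∈ nor E := le_normalizer_inf (H := zpowers x)
    (le_normalizer_of_le (zpowers_le.2 (subset_closure (by simp)))) (zp_le_nor mR'.1.inv)
    (mem_zpowers x)
  have h1 : R ≤ cs (cm E x) := by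
    rw [← mR.1.eq]
    refine cm_le_of mR.1.inv fun a ha => ?_
    obtain ⟨X, hX, m2, m1, mz, mz'⟩ := d.s4 C ha heR hz
    have me : e ∈ X := Yn_le_of mz (ee ▸ mz') he
    have mx : x ∈ X := by
      simpa [mul_assoc] using mul_mem (mul_mem (inv_mem me) m1) me
    have hR := hq.not_dvd h.pp mR.1.pg
    have h2 := (K x h).h1a X hX mx q hq _ (Yn_le_of mx m2) (mR.1.pg.to_le (Yn_le R x a))
      (nor_Yn mR.1.inv a)
    rw [cm_Yn h.pp h.pg hR mR.1.inv ha] at h2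
    exact le_cs_of_core hq.1 hr.1 hne h2 ((K x h).h1a X hX mx r hr E (inf_le_left.trans
      ((closure_le _).2 (by rintro y (rfl | rfl); exacts [mx, me]))) pE nE)
      (comm_mem_Yn mR.1.inv ha)
  have h2 : z ∈ cs (E ⊓ cen x) := le_cs_of_core hq.1 hr.1 hne
    (le_pCoreOf d.pZ inf_le_right d.nZ)
    ((inf_le_inf_right _ inf_le_right).trans (F x h r hr R' mR'.1)) hz
  have h3 : E ≤ cen z := by
    rw [← cm_sup_cen h.pp h.pg (hr.not_dvd h.pp pE) nE]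
    exact sup_le (le_cen_of_cs (h1 hz.1.1)) (le_cen_of_cs h2)
  have h4 := mem_cen.1 (h3 (⟨subset_closure (by simp), heR⟩ : e ∈ E))
  apply hne₀
  calc e₀ * z = e₀ * z * e₀⁻¹ * e₀ := by group
    _ = z * e₀ := by rw [← ee, h4]; group

end H57.F2
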