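import Cfsg.Agent.H98.Norm
import Cfsg.Agent.H98.Coprime
import Cfsg.Agent.H14.PElem

/-! Tower F2 (row S3817): definitions, facts and job statements.  Paper proof with all steps:
`blueprints/F2-S3817.md`. -/

set_option autoImplicit false

namespace H57.F2

open Subgroup Cfsg H98
open scoped commutatorElement

universe u

section defs

variable {G : Type u} [Group G]

/-- `C(x)` -/
abbrev cen (x : G) : Subgroup G := centralizer ({x} : Set G)
/-- `N(H)` -/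
abbrev nor (H : Subgroup G) : Subgroup G := normalizer (H : Set G)
/-- `C(H)` -/
abbrev cs (H : Subgroup G) : Subgroup G := centralizer (H : Set G)
/-- `[Y, x]` -/
abbrev cm (Y : Subgroup G) (x : G) : Subgroup G := ⁅Y, zpowers x⁆

/-- `q` is a prime different from `p` -/
def Pr (p q : ℕ) : Prop := q.Prime ∧ q ≠ p

/-- the `p'`-part of the Fitting subgroup of `X` -/
def Fp (p : ℕ) (X : Subgroup G) : Subgroup G := ⨆ q : {q : ℕ // Pr p q}, pCoreOf q.1 X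

/-- for a `p`-element `x` of `X`: `x` lies in the second Fitting subgroup of `X` -/
def Good (p : ℕ) (X : Subgroup G) (x : G) : Prop :=
  ∀ q : ℕ, Pr p q → ∀ y ∈ ncl X (zpowers x), (∃ k : ℕ, y ^ q ^ k = 1) → y ∈ pCoreOf q X

/-- the minimal counterexample with trivial Fitting subgroup -/
structure Hyp (p : ℕ) (x : G) : Prop where
  pp : p.Prime
  ord : orderOf x = p
  core : ∀ q : ℕ, q.Prime → pCore q G = ⊥
  good : ∀ X : Subgroup G, X ≠ ⊤ → x ∈ X → Good p X x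
  two : ∀ y : G, closure ({x, y} : Set G) ≠ ⊤

/-- a member: an `x`-invariant `q`-group `Y = [Y, x] ≠ 1` -/
structure Mem (q : ℕ) (x : G) (Y : Subgroup G) : Prop where
  pg : IsPGroup q Y
  inv : x ∈ nor Y
  eq : cm Y x = Y
  ne : Y ≠ ⊥

/-- a maximal member -/
def MaxM (q : ℕ) (x : G) (R : Subgroup G) : Prop :=
  Mem q x R ∧ ∀ Y, Mem q x Y → R ≤ Y → Y = R

/-- a maximal `W`-invariant `q`-subgroup -/
def MaxI (q : ℕ) (W S : Subgroup G) : Prop :=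
  IsPGroup q S ∧ W ≤ nor S ∧ ∀ T : Subgroup G, IsPGroup q T → W ≤ nor T → S ≤ T → T = S

/-- a line: a maximal subgroup containing `x` outside its `p`-core -/
structure Line (p : ℕ) (x : G) (M : Subgroup G) : Prop where
  co : IsCoatom M
  mem : x ∈ M
  nm : x ∉ pCoreOf p M

/-- `⟨x, x^n⟩ ⊓ R` -/
def Yn (R : Subgroup G) (x n : G) : Subgroup G := closure ({x, n * x * n⁻¹} : Set G) ⊓ R

/-- a fact for all `x` with `Hyp p x` (so for all conjugates of a given one: `Hyp.conj`) -/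
def All (p : ℕ) (P : G → Prop) : Prop := ∀ x : G, Hyp p x → P x

/-- first consequences of `Hyp` -/
structure Kit (p : ℕ) (x : G) : Prop where
  nrm : ∀ N : Subgroup G, N.Normal → N ≠ ⊥ → N ⊔ zpowers x = ⊤
  norq : ∀ q : ℕ, q.Prime → ∀ A : Subgroup G, IsPGroup q A → A ≠ ⊥ → nor A ≠ ⊤
  cenq : ∀ q : ℕ, q.Prime → ∀ (z : G) (k : ℕ), z ^ q ^ k = 1 → z ≠ 1 → cen z ≠ ⊤
  norM : ∀ M : Subgroup G, IsCoatom M → x ∈ M → nor M ≤ M
  norV : ∀ M : Subgroup G, IsCoatom M → ∀ q : ℕ, q.Prime → pCoreOf q M ≠ ⊥ → nor (pCoreOf q M) = M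
  h1a : ∀ X : Subgroup G, X ≠ ⊤ → x ∈ X → ∀ q : ℕ, Pr p q → ∀ Y : Subgroup G, Y ≤ X →
    IsPGroup q Y → x ∈ nor Y → cm Y x ≤ pCoreOf q X
  h1m : ∀ X : Subgroup G, X ≠ ⊤ → x ∈ X → ∀ q : ℕ, Pr p q → ∀ Y : Subgroup G, Y ≤ X →
    Mem q x Y → Y ≤ pCoreOf q X
  h1b : ∀ X : Subgroup G, X ≠ ⊤ → x ∈ X → res p (ncl X (zpowers x)) ≤ Fp p X
  h1c : ∀ X : Subgroup G, X ≠ ⊤ → x ∈ X → x ∉ pCoreOf p X →
    ∃ q : ℕ, Pr p q ∧ cm (pCoreOf q X) x ≠ ⊥
  mem2 : ∀ u : G, ¬ IsPGroup p (closure ({x, u} : Set G)) → (∃ k : ℕ, u ^ p ^ k = 1) →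
    ∃ (q : ℕ) (Y : Subgroup G), Pr p q ∧ Mem q x Y ∧ Y ≤ closure ({x, u} : Set G)
  line : ∀ g : G, ¬ IsPGroup p (closure ({x, g * x * g⁻¹} : Set G)) → ∃ M, Line p x M ∧ g ∈ M
  line0 : ∃ g : G, ¬ IsPGroup p (closure ({x, g * x * g⁻¹} : Set G))
  P : ∀ R : Subgroup G, ¬ p ∣ Nat.card R → x ∈ nor R → ∀ n ∈ R, ∀ c ∈ cen x,
    ∃ X : Subgroup G, X ≠ ⊤ ∧ x ∈ X ∧ c ∈ X ∧ Yn R x n ≤ X ∧ ⁅n, x⁆ ∈ ncl X (zpowers x)

/-- (G) -/
def FG (p : ℕ) (x : G) : Prop :=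
  ∀ X : Subgroup G, X ≠ ⊤ → x ∈ X → ∀ q : ℕ, Pr p q → ∀ U : Subgroup G,
    U ≤ pCoreOf q (X ⊓ cen x) → ncl X U ≤ (X ⊓ cen x) ⊔ Fp p X

/-- (G2') -/
def FG2 (p : ℕ) (x : G) : Prop :=
  ∀ M M₀ : Subgroup G, IsCoatom M → x ∈ M → M₀ ≠ ⊤ → M ⊓ cen x ≤ M₀ → Fp p M ≤ M₀ →
    ∀ q : ℕ, Pr p q → pCoreOf q M ≠ ⊥ → pCoreOf q M₀ ≤ pCoreOf q M

/-- (F) -/
def FF (p : ℕ) (x : G) : Prop :=
  ∀ q : ℕ, Pr p q → ∀ Y : Subgroup G, Mem q x Y → Y ⊓ cen x ≤ pCoreOf q (cen x)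

/-- TI for an operator group `W` with `x ∈ W ≤ C(x)` -/
def FTI (p : ℕ) (x : G) : Prop :=
  ∀ W : Subgroup G, x ∈ W → W ≤ cen x → ∀ q : ℕ, Pr p q →
    (∀ U : Subgroup G, IsPGroup q U → U ≤ cen x → W ≤ nor U →
      U ≤ (U ⊓ pCoreOf q (cen x)) ⊔ (U ⊓ cs W)) →
    (∀ R : Subgroup G, Mem q x R → W ≤ nor R → R ⊓ cen x ≤ pCoreOf q (cen x)) →
    ∀ S₁ S₂ : Subgroup G, MaxI q W S₁ → MaxI q W S₂ → ¬ S₁ ⊓ S₂ ≤ cen x → cm S₁ x = cm S₂ x

/-- the case `p = 2`, step (ii) -/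
def FTh (x : G) : Prop :=
  ∀ x' : G, Hyp 2 x' → x' ∈ cen x → x' ≠ x → ∀ q : ℕ, Pr 2 q → ∀ u : G, (u = x' ∨ u = x * x') →
    cm (pCoreOf q (cen u)) x ⊓ cen x ≤ pCoreOf q (cen x)

/-- unique maximal members -/
structure FU (p : ℕ) (x : G) : Prop where
  ex : ∀ q : ℕ, Pr p q → ∀ Y : Subgroup G, Mem q x Y → ∃ R, MaxM q x R ∧ Y ≤ R
  uniq : ∀ q : ℕ, Pr p q → ∀ R Y : Subgroup G, MaxM q x R → Mem q x Y → ¬ R ⊓ Y ≤ cen x → Y ≤ R
  cen_le : ∀ q : ℕ, Pr p q → ∀ R : Subgroup G, MaxM q x R → cen x ≤ nor R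

/-- (C*) -/
def FC (p : ℕ) (x : G) : Prop :=
  ∀ M : Subgroup G, IsCoatom M → x ∈ M → ∀ q : ℕ, Pr p q → cm (pCoreOf q M) x ≠ ⊥ →
    cen x ≤ nor (cm (pCoreOf q M) x) ∧ nor (cm (pCoreOf q M) x) ≤ M

/-- (Ob) -/
def FOb (p : ℕ) (x : G) : Prop :=
  ∀ q r : ℕ, Pr p q → Pr p r → q ≠ r → ∀ R R' : Subgroup G, MaxM q x R → MaxM r x R' →
    R ⊓ cs R ⊓ cen x ≠ ⊥ → R ≤ cs R'

/-- (U1) -/
def FU1 (p : ℕ) (x : G) : Prop :=
  ∀ M₁ M₂ : Subgroup G, IsCoatom M₁ → IsCoatom M₂ → x ∈ M₁ → x ∈ M₂ → ∀ q : ℕ, Pr p q →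
    ∀ Y : Subgroup G, Mem q x Y → Y ≤ M₁ → Y ≤ M₂ → M₁ = M₂

/-- (T) -/
def FT (p : ℕ) (x : G) : Prop :=
  ∀ M : Subgroup G, Line p x M → ∀ g : G, g * x * g⁻¹ ∈ M → x ∈ cj g M → g ∈ M

end defs

/-! ### Jobs -/

def JobKit : Prop :=
  ∀ (G : Type u) [Group G] [Finite G] (p : ℕ), All (G := G) p (Kit p)

def JobG : Prop :=
  ∀ (G : Type u) [Group G] [Finite G] (p : ℕ), All (G := G) p (Kit p) →
    All (G := G) p (FG p) ∧ All (G := G) p (FG2 p)

/-- generation lemma, `p` odd (no `Hyp`) -/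
def JobGO : Prop :=
  ∀ (G : Type u) [Group G] [Finite G] (p q : ℕ), p.Prime → p ≠ 2 → Pr p q →
    ∀ (x : G) (R J : Subgroup G), x ^ p = 1 → IsPGroup q R → x ∈ nor R → cm R x = R →
      J ≤ R ⊓ cen x → (∀ n ∈ R, Yn R x n ⊓ cen x ≤ J) → R ⊓ cen x ≤ J

/-- generation lemma for a four-group (no `Hyp`) -/
def JobG4 : Prop :=
  ∀ (G : Type u) [Group G] [Finite G] (q : ℕ), Pr 2 q →
    ∀ (x x' : G) (R J : Subgroup G), x * x = 1 → x' * x' = 1 → x' ∈ cen x → IsPGroup q R →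
      x ∈ nor R → x' ∈ nor R → cm R x = R → J ≤ R ⊓ cen x → x' ∈ nor J →
      cm (R ⊓ cen x) x' ≤ J → cm (R ⊓ cen x') x ⊓ cen x ≤ J →
      cm (R ⊓ cen (x * x')) x ⊓ cen x ≤ J → R ⊓ cen x ≤ J

def JobTI : Prop :=
  ∀ (G : Type u) [Group G] [Finite G] (p : ℕ), All (G := G) p (Kit p) → All (G := G) p (FTI p)

def JobFO : Prop :=
  JobGO.{u} → ∀ (G : Type u) [Group G] [Finite G] (p : ℕ), p ≠ 2 → All (G := G) p (Kit p) →
    All (G := G) p (FF p)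

def JobTh : Prop :=
  ∀ (G : Type u) [Group G] [Finite G], All (G := G) 2 (Kit 2) → All (G := G) 2 (FG 2) →
    All (G := G) 2 FTh

def JobF2 : Prop :=
  JobG4.{u} → ∀ (G : Type u) [Group G] [Finite G], All (G := G) 2 (Kit 2) →
    All (G := G) 2 (FTI 2) → All (G := G) 2 FTh → All (G := G) 2 (FF 2)

def JobU : Prop :=
  ∀ (G : Type u) [Group G] [Finite G] (p : ℕ), All (G := G) p (Kit p) → All (G := G) p (FTI p) →
    All (G := G) p (FF p) → All (G := G) p (FU p)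

def JobC : Prop :=
  ∀ (G : Type u) [Group G] [Finite G] (p : ℕ), All (G := G) p (Kit p) → All (G := G) p (FG2 p) →
    All (G := G) p (FU p) → All (G := G) p (FC p)

def JobOb : Prop :=
  ∀ (G : Type u) [Group G] [Finite G] (p : ℕ), All (G := G) p (Kit p) → All (G := G) p (FF p) →
    All (G := G) p (FU p) → All (G := G) p (FC p) → All (G := G) p (FOb p)

def JobU1 : Prop :=
  ∀ (G : Type u) [Group G] [Finite G] (p : ℕ), All (G := G) p (Kit p) → All (G := G) p (FG2 p) →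
    All (G := G) p (FU p) → All (G := G) p (FC p) → All (G := G) p (FOb p) → All (G := G) p (FU1 p)

def JobT : Prop :=
  ∀ (G : Type u) [Group G] [Finite G] (p : ℕ), All (G := G) p (Kit p) → All (G := G) p (FC p) →
    All (G := G) p (FU1 p) → All (G := G) p (FT p)

def JobEnd : Prop :=
  ∀ (G : Type u) [Group G] [Finite G] (p : ℕ), All (G := G) p (Kit p) → All (G := G) p (FU1 p) →
    All (G := G) p (FT p) → ∀ x : G, ¬ Hyp p x

/-- the core theorem -/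
def Core : Prop := ∀ (G : Type u) [Group G] [Finite G] (p : ℕ) (x : G), ¬ Hyp p x

/-- the theorem for `p`-elements -/
def Main : Prop :=
  ∀ (G : Type u) [Group G] [Finite G] (p : ℕ) (x : G), p.Prime → (∃ k : ℕ, x ^ p ^ k = 1) →
    (∀ y : G, Good p (closure ({x, y} : Set G)) x) → Good p ⊤ x

/-- the case of a nontrivial Fitting subgroup -/
def JobRA : Prop :=
  ∀ (G : Type u) [Group G] [Finite G] (p : ℕ) (x : G), p.Prime → (∃ k : ℕ, x ^ p ^ k = 1) →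
    (∃ r : ℕ, r.Prime ∧ pCore r G ≠ ⊥) →
    (∀ (N : Subgroup G) [N.Normal], N ≠ ⊥ → Good p (⊤ : Subgroup (G ⧸ N)) (x : G ⧸ N)) →
    (∀ X : Subgroup G, X ≠ ⊤ → x ∈ X → Good p X x) →
    (∀ y : G, closure ({x, y} : Set G) ≠ ⊤) → Good p ⊤ x

def JobRB : Prop := JobRA.{u} → Core.{u} → Main.{u}

/-- the second Fitting subgroup in terms of `Good` -/
def JobBr : Prop :=
  ∀ (G : Type u) [Group G] [Finite G] [(fittingSubgroup G).Normal] (p : ℕ) (x : G), p.Prime →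
    (∃ k : ℕ, x ^ p ^ k = 1) →
    (x ∈ (fittingSubgroup (G ⧸ fittingSubgroup G)).comap (QuotientGroup.mk' (fittingSubgroup G)) ↔
      Good p ⊤ x)

theorem core_of (kit : JobKit.{u}) (g : JobG.{u}) (go : JobGO.{u}) (g4 : JobG4.{u}) (ti : JobTI.{u})
    (fo : JobFO.{u}) (th : JobTh.{u}) (f2 : JobF2.{u}) (uu : JobU.{u}) (c : JobC.{u}) (ob : JobOb.{u})
    (u1 : JobU1.{u}) (t : JobT.{u}) (e : JobEnd.{u}) : Core.{u} := by
  intro G _ _ p x
  have K := kit G p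
  have F : All (G := G) p (FF p) := by
    by_cases h : p = 2
    · subst h; exact f2 g4 G K (ti G 2 K) (th G K (g G 2 K).1)
    · exact fo go G p h K
  have U := uu G p K (ti G p K) F
  have C := c G p K (g G p K).2 U
  have U1 := u1 G p K (g G p K).2 U C (ob G p K F U C)
  exact e G p K U1 (t G p K C U1) x

/-! ### Small API -/

section api

variable {G : Type u} [Group G] {p q r : ℕ} {x y g n : G} {X Y R K M : Subgroup G}

theorem mem_cen : y ∈ cen x ↔ y * x = x * y := mem_centralizer_singleton_iff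

theorem self_mem_cen (x : G) : x ∈ cen x := mem_cen.2 rfl

theorem cen_comm : y ∈ cen x ↔ x ∈ cen y := by rw [mem_cen, mem_cen, eq_comm]

theorem cs_zpowers (x : G) : cs (zpowers x) = cen x := by
  rw [cs, zpowers_eq_closure, centralizer_closure]

theorem zp_le_nor (h : x ∈ nor Y) : zpowers x ≤ nor Y := (zpowers_le).2 h

theorem cj_cen (g x : G) : cj g (cen x) = cen (g * x * g⁻¹) := by
  ext y; rw [mem_cj, mem_cen, mem_cen]
  constructor
  · intro h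
    calc y * (g * x * g⁻¹) = g * (g⁻¹ * y * g * x) * g⁻¹ := by group
      _ = g * x * g⁻¹ * y := by rw [h]; group
  · intro h
    calc g⁻¹ * y * g * x = g⁻¹ * (y * (g * x * g⁻¹)) * g := by group
      _ = x * (g⁻¹ * y * g) := by rw [h]; group

theorem cj_zp (g x : G) : cj g (zpowers x) = zpowers (g * x * g⁻¹) := by
  rw [cj, MonoidHom.map_zpowers]; rfl

theorem cj_cm (g : G) (Y : Subgroup G) (x : G) : cj g (cm Y x) = cm (cj g Y) (g * x * g⁻¹) := by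
  rw [cm, cj_commutator, cj_zp]

theorem cm_le (h : x ∈ nor Y) : cm Y x ≤ Y := commutator_le_left' (zp_le_nor h)

theorem cm_mono (h : Y ≤ R) : cm Y x ≤ cm R x := commutator_mono h le_rfl

theorem cm_eq_bot : cm Y x = ⊥ ↔ Y ≤ cen x := by
  rw [cm, commutator_eq_bot_iff_le_centralizer, ← cs_zpowers]

theorem comm_mem_cm (h : y ∈ Y) : ⁅y, x⁆ ∈ cm Y x :=
  commutator_mem_commutator h (mem_zpowers x)

theorem self_nor_cm (Y : Subgroup G) (x : G) : x ∈ nor (cm Y x) :=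
  normalizer_commutator_ge_right Y (zpowers x) (mem_zpowers x)

theorem le_nor_cm (Y : Subgroup G) (x : G) : Y ≤ nor (cm Y x) :=
  normalizer_commutator_ge_left Y (zpowers x)

theorem nor_cm {A : Subgroup G} (h1 : A ≤ nor Y) (h2 : A ≤ cen x) : A ≤ nor (cm Y x) :=
  le_normalizer_commutator h1 (le_normalizer_of_le_centralizer (by rwa [← cs_zpowers] at h2))

theorem cm_le_ncl (h : Y ≤ X) : cm Y x ≤ ncl X (zpowers x) := by
  rw [ncl_eq_commutator_sup, cm, commutator_comm]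
  exact (commutator_mono le_rfl h).trans le_sup_left

/-- `[Y, x]` is generated by the elements `⁅y, x⁆` -/
theorem cm_le_of [Finite G] (hx : x ∈ nor Y) (h : ∀ y ∈ Y, ⁅y, x⁆ ∈ K) : cm Y x ≤ K := by
  have key : ∀ k : ℕ, ∀ y ∈ Y, ⁅y, x ^ k⁆ ∈ K := by
    intro k
    induction k with
    | zero => intro y _; simp
    | succ k ih =>
      intro y hy
      have e : ⁅y, x ^ (k + 1)⁆ = ⁅y, x⁆ * ⁅x * y * x⁻¹, x ^ k⁆ := by
        simp only [commutatorElement_def]; group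
      rw [e]
      exact K.mul_mem (h y hy) (ih _ (conj_mem_of_mem_normalizer hx hy))
  refine commutator_le.2 fun y hy z hz => ?_
  obtain ⟨k, rfl⟩ := (Submonoid.mem_powers_iff z x).1 (mem_powers_iff_mem_zpowers.2 hz)
  exact key k y hy

theorem Pr.fact (h : Pr p q) : Fact q.Prime := ⟨h.1⟩

theorem Pr.not_dvd [Finite G] (h : Pr p q) (hp : p.Prime) (hY : IsPGroup q Y) :
    ¬ p ∣ Nat.card Y :=
  haveI := h.fact
  not_dvd_card_of_isPGroup_ne hp h.2.symm hY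

theorem inf_eq_bot_ne (hq : q.Prime) (hr : r.Prime) (hne : q ≠ r) (hX : IsPGroup q X)
    (hY : IsPGroup r Y) : X ⊓ Y = ⊥ :=
  haveI : Fact q.Prime := ⟨hq⟩
  haveI : Fact r.Prime := ⟨hr⟩
  (IsPGroup.disjoint_of_ne q r hne X Y hX hY).eq_bot

/-- a `q`-group and an `r`-group normalizing each other commute -/
theorem le_cs_of_nor (hq : q.Prime) (hr : r.Prime) (hne : q ≠ r) (hX : IsPGroup q X)
    (hY : IsPGroup r Y) (h1 : X ≤ nor Y) (h2 : Y ≤ nor X) : X ≤ cs Y :=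
  commutator_eq_bot_iff_le_centralizer.1 (le_bot_iff.1 ((le_inf (commutator_le_left' h2)
    (commutator_le_right' h1)).trans (inf_eq_bot_ne hq hr hne hX hY).le))

theorem core_le_cs (hq : q.Prime) (hr : r.Prime) (hne : q ≠ r) (X : Subgroup G) :
    pCoreOf q X ≤ cs (pCoreOf r X) :=
  le_cs_of_nor hq hr hne (isPGroup_pCoreOf X) (isPGroup_pCoreOf X)
    (le_normalizer_pCoreOf_of_le (pCoreOf_le X)) (le_normalizer_pCoreOf_of_le (pCoreOf_le X))

/-- subgroups of different cores of `X` commute -/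
theorem le_cs_of_core (hq : q.Prime) (hr : r.Prime) (hne : q ≠ r) {A B : Subgroup G}
    (hA : A ≤ pCoreOf q X) (hB : B ≤ pCoreOf r X) : A ≤ cs B :=
  hA.trans ((core_le_cs hq hr hne X).trans (centralizer_anti hB))

theorem core_le_Fp (h : Pr p q) (X : Subgroup G) : pCoreOf q X ≤ Fp p X :=
  le_iSup (fun q : {q : ℕ // Pr p q} => pCoreOf q.1 X) ⟨q, h⟩

theorem Fp_le_of (h : ∀ q : ℕ, Pr p q → pCoreOf q X ≤ K) : Fp p X ≤ K :=
  iSup_le fun q => h q.1 q.2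

theorem Fp_le (p : ℕ) (X : Subgroup G) : Fp p X ≤ X := Fp_le_of fun _ _ => pCoreOf_le X

theorem le_nor_Fp {A : Subgroup G} (h : A ≤ nor X) : A ≤ nor (Fp p X) :=
  le_normalizer_iSup fun _ => le_normalizer_pCoreOf h

theorem self_le_nor_Fp (p : ℕ) (X : Subgroup G) : X ≤ nor (Fp p X) := le_nor_Fp le_normalizer

theorem cj_Fp (g : G) (X : Subgroup G) : cj g (Fp p X) = Fp p (cj g X) := by
  simp only [Fp, cj, Subgroup.map_iSup]
  exact iSup_congr fun q => cj_pCoreOf g X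

theorem not_dvd_Fp [Finite G] (hp : p.Prime) (X : Subgroup G) : ¬ p ∣ Nat.card (Fp p X) := by
  have h1 : Fp p X ≤ H14.opp p X := Fp_le_of fun q hq =>
    H14.le_opp (pCoreOf_le X) (self_le_normalizer_pCoreOf X)
      ((Nat.coprime_comm.1 ((hp.coprime_iff_not_dvd).2 (hq.not_dvd hp (isPGroup_pCoreOf X)))))
  exact not_dvd_card_of_le h1
    ((hp.coprime_iff_not_dvd).1 (Nat.coprime_comm.1 (H14.coprime_card_opp X)))

theorem Fp_le_cs_core (hp : p.Prime) (X : Subgroup G) : Fp p X ≤ cs (pCoreOf p X) :=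
  Fp_le_of fun _ hq => core_le_cs hq.1 hp hq.2 X

theorem Fp_le_sup (hq : q.Prime) (X : Subgroup G) : Fp p X ≤ pCoreOf q X ⊔ Fp q X :=
  Fp_le_of fun r hr => by
    by_cases h : r = q
    · exact h ▸ le_sup_left
    · exact (core_le_Fp ⟨hr.1, h⟩ X).trans le_sup_right

/-- `q`-elements of `Fp p X` lie in `O_q(X)` -/
theorem mem_core_of_Fp [Finite G] (hq : q.Prime) (hy : y ∈ Fp p X) {k : ℕ} (h : y ^ q ^ k = 1) :
    y ∈ pCoreOf q X := by
  obtain ⟨a, ha, c, hc, rfl⟩ := (mem_sup_left_norm (le_nor_Fp (le_normalizer_of_le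
    (pCoreOf_le X)))).1 (Fp_le_sup hq X hy)
  have hac : Commute a c := (mem_centralizer_iff.1 (Fp_le_cs_core hq X hc) a ha)
  obtain ⟨j, hj⟩ := isPGroup_iff_forall.1 (isPGroup_pCoreOf (p := q) X) a ha
  have h1 : c ^ q ^ (j + k) = 1 := by
    have h2 : (a * c) ^ q ^ (j + k) = 1 := by rw [pow_add, mul_comm, pow_mul, h, one_pow]
    rwa [hac.mul_pow, pow_add, pow_mul a, hj, one_pow, one_mul, ← pow_add] at h2
  have h3 : orderOf c ∣ Nat.card (Fp q X) := orderOf_dvd_natCard _ hc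
  have h4 : orderOf c = 1 := Nat.eq_one_of_dvd_coprimes
    (Nat.Coprime.pow_left _ (hq.coprime_iff_not_dvd.2 (not_dvd_Fp hq X))) (orderOf_dvd_of_pow_eq_one h1) h3
  rw [orderOf_eq_one_iff.1 h4, mul_one]; exact ha

theorem le_core_of_Fp [Finite G] (hq : q.Prime) (hY : IsPGroup q Y) (h : Y ≤ Fp p X) :
    Y ≤ pCoreOf q X := fun y hy => by
  obtain ⟨k, hk⟩ := isPGroup_iff_forall.1 hY y hy
  exact mem_core_of_Fp hq (h hy) hk

theorem zp_pg {k : ℕ} (h : x ^ p ^ k = 1) : IsPGroup p (zpowers x) := isPGroup_zpowers h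

/-- coprime action: `R = [R, x] C_R(x)` -/
theorem cm_sup_cen (hp : p.Prime) (hx : IsPGroup p (zpowers x)) (hR : ¬ p ∣ Nat.card R)
    (h : x ∈ nor R) : cm R x ⊔ (R ⊓ cen x) = R := by
  have : Fact p.Prime := ⟨hp⟩
  rw [← cs_zpowers]; exact commutator_sup_centralizer_eq hx hR (zp_le_nor h)

theorem exists_cm_mul (hp : p.Prime) (hx : IsPGroup p (zpowers x)) (hR : ¬ p ∣ Nat.card R)
    (h : x ∈ nor R) (hy : y ∈ R) : ∃ a ∈ cm R x, ∃ c ∈ R ⊓ cen x, y = a * c := by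
  have : Fact p.Prime := ⟨hp⟩
  rw [← cs_zpowers]; exact exists_commutator_mul_centralizer hx hR (zp_le_nor h) hy

theorem cm_cm (hp : p.Prime) (hx : IsPGroup p (zpowers x)) (hR : ¬ p ∣ Nat.card R)
    (h : x ∈ nor R) : cm (cm R x) x = cm R x :=
  haveI : Fact p.Prime := ⟨hp⟩
  commutator_commutator_eq hx hR (zp_le_nor h)

/-- coprime action: an element fixed modulo `N` is fixed after correction by `N` -/
theorem exists_mul_cen (hp : p.Prime) (hx : IsPGroup p (zpowers x)) {N : Subgroup G} [Finite G]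
    (hN : ¬ p ∣ Nat.card N) (h : x ∈ nor N) (hy : ⁅x, y⁆ ∈ N) : ∃ m ∈ N, m * y ∈ cen x := by
  have : Fact p.Prime := ⟨hp⟩
  rw [← cs_zpowers]
  refine exists_mul_mem_centralizer hx hN (zp_le_nor h) fun a ha => ?_
  obtain ⟨k, rfl⟩ := (Submonoid.mem_powers_iff a x).1 (mem_powers_iff_mem_zpowers.2 ha)
  induction k with
  | zero => simp
  | succ k ih =>
    have e : ⁅x ^ (k + 1), y⁆ = x * ⁅x ^ k, y⁆ * x⁻¹ * ⁅x, y⁆ := by
      simp only [commutatorElement_def]; group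
    rw [e]
    exact N.mul_mem (conj_mem_of_mem_normalizer h (ih (pow_mem (mem_zpowers x) k))) hy

theorem Yn_le (R : Subgroup G) (x n : G) : Yn R x n ≤ R := inf_le_right

theorem Yn_le_of (hx : x ∈ X) (hn : n * x * n⁻¹ ∈ X) : Yn R x n ≤ X :=
  inf_le_left.trans ((closure_le _).2 (by rintro z (rfl | rfl); exacts [hx, hn]))

theorem nor_Yn (h : x ∈ nor R) (n : G) : x ∈ nor (Yn R x n) :=
  le_normalizer_inf (H := zpowers x) (le_normalizer_of_le (zpowers_le.2 (subset_closure (by simp))))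
    (zp_le_nor h) (mem_zpowers x)

theorem comm_mem_Yn (h : x ∈ nor R) (hn : n ∈ R) : ⁅n, x⁆ ∈ Yn R x n :=
  mem_inf.2 ⟨Subgroup.mul_mem _ (subset_closure (by simp))
    (Subgroup.inv_mem _ (subset_closure (by simp))), cm_le h (comm_mem_cm hn)⟩

/-- `x^n = x^{n'}` with `n'` in `⟨x, x^n⟩ ⊓ R` (any prime `p`, any `p`-element `x`) -/
theorem exists_Yn [Finite G] (hp : p.Prime) (hx : IsPGroup p (zpowers x)) (hR : ¬ p ∣ Nat.card R)
    (h : x ∈ nor R) (hn : n ∈ R) : ∃ m ∈ Yn R x n, m * x * m⁻¹ = n * x * n⁻¹ := by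
  obtain ⟨m, hm, hc⟩ := exists_mul_cen (y := n) hp hx (not_dvd_card_of_le (Yn_le R x n) hR)
    (nor_Yn h n) (by rw [← commutatorElement_inv]; exact inv_mem (comm_mem_Yn h hn))
  refine ⟨m⁻¹, inv_mem hm, ?_⟩
  calc m⁻¹ * x * m⁻¹⁻¹ = m⁻¹ * (x * (m * n)) * n⁻¹ := by group
    _ = n * x * n⁻¹ := by rw [← mem_cen.1 hc]; group

theorem cm_Yn [Finite G] (hp : p.Prime) (hx : IsPGroup p (zpowers x)) (hR : ¬ p ∣ Nat.card R)
    (h : x ∈ nor R) (hn : n ∈ R) : cm (Yn R x n) x = Yn R x n := by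
  refine le_antisymm (cm_le (nor_Yn h n)) fun y hy => ?_
  obtain ⟨m, hm, e⟩ := exists_Yn hp hx hR h hn
  have h1 : closure ({x, n * x * n⁻¹} : Set G) ≤ cm (Yn R x n) x ⊔ zpowers x := by
    refine (closure_le _).2 ?_
    rintro z (rfl | rfl)
    · exact mem_sup_right (mem_zpowers _)
    · rw [← e, show m * x * m⁻¹ = ⁅m, x⁆ * x by simp only [commutatorElement_def]; group]
      exact mul_mem_sup (comm_mem_cm hm) (mem_zpowers x)
  obtain ⟨a, ha, b, hb, rfl⟩ := (mem_sup_right_norm (zp_le_nor (self_nor_cm _ x))).1 (h1 hy.1)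
  have haR : a ∈ R := Yn_le R x n (cm_le (nor_Yn h n) ha)
  have hbR : b ∈ R := (Subgroup.mul_mem_cancel_left R haR).1 hy.2
  obtain ⟨k, hk⟩ := isPGroup_iff_forall.1 hx b hb
  have h4 : orderOf b = 1 := Nat.eq_one_of_dvd_coprimes
    (Nat.Coprime.pow_left _ (hp.coprime_iff_not_dvd.2 hR)) (orderOf_dvd_of_pow_eq_one hk)
    (orderOf_dvd_natCard _ hbR)
  rw [orderOf_eq_one_iff.1 h4, mul_one]; exact ha

theorem Hyp.pow (h : Hyp p x) : x ^ p = 1 := h.ord ▸ pow_orderOf_eq_one x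

theorem Hyp.pg (h : Hyp p x) : IsPGroup p (zpowers x) := zp_pg (k := 1) (by rw [pow_one, h.pow])

theorem Hyp.ne_one (h : Hyp p x) : x ≠ 1 := fun e => h.pp.one_lt.ne' (by rw [← h.ord, e, orderOf_one])

theorem Good.conj (h : Good p X x) (g : G) : Good p (cj g X) (g * x * g⁻¹) := by
  intro q hq y hy ⟨k, hk⟩
  rw [← cj_zp, ← cj_ncl, mem_cj] at hy
  rw [← cj_pCoreOf, mem_cj]
  refine h q hq _ hy ⟨k, ?_⟩
  have := conj_pow (a := g⁻¹) (b := y) (i := q ^ k)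
  rw [inv_inv] at this
  rw [this, hk]; group

theorem Good.mono (h : Good p X x) (hK : K ≤ X) (hx : x ∈ K) : Good p K x := fun q hq y hy hk =>
  pCoreOf_inf_le_of_le hK ⟨h q hq y (ncl_mono hK le_rfl hy) hk, ncl_le_of_le (zpowers_le.2 hx) hy⟩

theorem Hyp.conj (h : Hyp p x) (g : G) : Hyp p (g * x * g⁻¹) where
  pp := h.pp
  ord := by rw [← h.ord]; exact orderOf_injective (MulAut.conj g).toMonoidHom (MulAut.conj g).injective x
  core := h.core
  good := fun X hX hx => by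
    have := (h.good (cj g⁻¹ X) (fun e => hX (by rw [← cj_cj_inv g X, e, cj_top]))
      (mem_cj.2 (by simpa using hx))).conj g
    rwa [cj_cj_inv] at this
  two := fun y e => h.two (g⁻¹ * y * g) (by
    have := congrArg (cj g⁻¹) e
    rw [cj_top, cj, MonoidHom.map_closure, Set.image_pair] at this
    simpa [mul_assoc] using this)

theorem Mem.conj (h : Mem q x Y) (g : G) : Mem q (g * x * g⁻¹) (cj g Y) where
  pg := isPGroup_cj g h.pg
  inv := by rw [nor, ← cj_normalizer]; exact conj_mem_cj h.inv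
  eq := by rw [← cj_cm, h.eq]
  ne := fun e => h.ne (cj_eq_bot_iff.1 e)

theorem Mem.not_le (h : Mem q x Y) : ¬ Y ≤ cen x := fun e => h.ne (h.eq ▸ cm_eq_bot.2 e)

theorem MaxM.conj (h : MaxM q x R) (g : G) : MaxM q (g * x * g⁻¹) (cj g R) := by
  refine ⟨h.1.conj g, fun Y hY hle => ?_⟩
  have h1 := hY.conj g⁻¹
  rw [show g⁻¹ * (g * x * g⁻¹) * g⁻¹⁻¹ = x by group] at h1
  rw [← h.2 _ h1 (cj_le_iff.1 hle), cj_cj_inv]

theorem isCoatom_cj (h : IsCoatom M) (g : G) : IsCoatom (cj g M) :=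
  ⟨fun e => h.1 (by rw [← cj_inv_cj g M, e, cj_top]), fun K hK => by
    have : cj g⁻¹ K = ⊤ := h.2 _ (by rw [← cj_lt_cj_iff (g := g), cj_cj_inv]; exact hK)
    rw [← cj_cj_inv g K, this, cj_top]⟩

theorem Line.conj (h : Line p x M) (g : G) : Line p (g * x * g⁻¹) (cj g M) where
  co := isCoatom_cj h.co g
  mem := conj_mem_cj h.mem
  nm := by rw [← cj_pCoreOf, conj_mem_cj_iff]; exact h.nm

/-- `[T, x]` is a member -/
theorem Hyp.mem_cm [Finite G] (h : Hyp p x) (hq : Pr p q) (hY : IsPGroup q Y) (hx : x ∈ nor Y)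
    (hne : cm Y x ≠ ⊥) : Mem q x (cm Y x) :=
  ⟨hY.to_le (cm_le hx), self_nor_cm Y x, cm_cm h.pp h.pg (hq.not_dvd h.pp hY) hx, hne⟩

theorem exists_coatom [Finite G] (h : X ≠ ⊤) : ∃ M, IsCoatom M ∧ X ≤ M :=
  (eq_top_or_exists_le_coatom X).resolve_left h

theorem exists_maxI [Finite G] {W T : Subgroup G} (hT : IsPGroup q T) (h : W ≤ nor T) :
    ∃ S, MaxI q W S ∧ T ≤ S := by
  obtain ⟨S, hTS, hS⟩ := Finite.exists_le_maximal
    (p := fun S : Subgroup G => IsPGroup q S ∧ W ≤ nor S) ⟨hT, h⟩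
  exact ⟨S, ⟨hS.1.1, hS.1.2, fun U h1 h2 h3 => le_antisymm (hS.2 ⟨h1, h2⟩ h3) h3⟩, hTS⟩

end api

end H57.F2
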