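import Cfsg.Agent.H57.F2G
import Cfsg.Agent.H83.BaerSuzuki

/-! Tower F2 (row S3817): steps (F) for odd `p`, unique maximal members, (C*), (U1). -/

set_option autoImplicit false

namespace H57.F2

open Subgroup Cfsg H98
open scoped commutatorElement

universe u

variable {G : Type u} [Group G] [Finite G] {p q r : ℕ} {x c : G} {D E M R Y : Subgroup G}

theorem jobFO : JobFO.{u} := by
  intro go G _ _ p hp2 K x h q hq Y hY
  have := hq.fact
  have hR := hq.not_dvd h.pp hY.pg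
  refine (go G p q h.pp hp2 hq x Y (Y ⊓ pCoreOf q (cen x)) h.pow hY.pg hY.inv hY.eq
    (inf_le_inf_left _ (pCoreOf_le _)) fun n hn y hy => mem_inf.2 ⟨hy.1.2, ?_⟩).trans inf_le_right
  have h1 : (⟨y, hy.2⟩ : cen x) ∈ pCore q (cen x) := H83.mem_pCore_of_baer_suzuki fun g => by
    obtain ⟨X, hX, mx, mc, hle, -⟩ := (K x h).P Y hR hY.inv n hn g g.2
    have h2 := (K x h).h1a X hX mx q hq _ hle (hY.pg.to_le (Yn_le Y x n)) (nor_Yn hY.inv n)
    rw [cm_Yn h.pp h.pg hR hY.inv hn] at h2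
    refine (isPGroup_subgroupOf (isPGroup_pCoreOf (p := q) X) (cen x)).to_le ((closure_le _).2 ?_)
    rintro z (rfl | rfl)
    · exact h2 hy.1
    · exact mem_subgroupOf.2 (conj_mem_of_mem_normalizer (self_le_normalizer_pCoreOf X mc) (h2 hy.1))
  exact ⟨_, h1, rfl⟩

omit [Finite G] in
theorem conj_eq (hc : c ∈ cen x) : c * x * c⁻¹ = x := by rw [mem_cen.1 hc]; group

omit [Finite G] in
theorem Mem.conj' (h : Mem q x Y) (hc : c ∈ cen x) : Mem q x (cj c Y) := conj_eq hc ▸ h.conj c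

theorem jobU : JobU.{u} := by
  intro G _ _ p K T F x h
  have ex : ∀ q : ℕ, Pr p q → ∀ Y : Subgroup G, Mem q x Y → ∃ R, MaxM q x R ∧ Y ≤ R :=
    fun q _ Y hY => by
      obtain ⟨R, h1, h2⟩ := Finite.exists_le_maximal (p := Mem q x) hY
      exact ⟨R, ⟨h2.1, fun U h3 h4 => le_antisymm (h2.2 h3 h4) h4⟩, h1⟩
  have uq : ∀ q : ℕ, Pr p q → ∀ R Y : Subgroup G, MaxM q x R → Mem q x Y → ¬ R ⊓ Y ≤ cen x →
      Y ≤ R := fun q hq R Y hR hY hn => by
    obtain ⟨S₁, h1, l1⟩ := exists_maxI hR.1.pg (zp_le_nor hR.1.inv)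
    obtain ⟨S₂, h2, l2⟩ := exists_maxI hY.pg (zp_le_nor hY.inv)
    have e := T x h (zpowers x) (mem_zpowers x) (zpowers_le.2 (self_mem_cen x)) q hq
      (fun U _ hU _ => le_sup_of_le_right (le_inf le_rfl (by rwa [cs_zpowers])))
      (fun R hR _ => F x h q hq R hR) S₁ S₂ h1 h2 (fun e => hn ((inf_le_inf l1 l2).trans e))
    have l3 : R ≤ cm S₁ x := hR.1.eq ▸ cm_mono l1
    rw [← hR.2 _ (h.mem_cm hq h1.1 (h1.2.1 (mem_zpowers x))
      (fun e => hR.1.ne (le_bot_iff.1 (e ▸ l3)))) l3, e, ← hY.eq]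
    exact cm_mono l2
  refine ⟨ex, uq, fun q hq R hR c hc => ?_⟩
  have hR' : MaxM q x (cj c R) := conj_eq hc ▸ hR.conj c
  have hd := hq.not_dvd h.pp hR.1.pg
  obtain ⟨n, hn, hn'⟩ := SetLike.not_le_iff_exists.1 hR.1.not_le
  have mY : Mem q x (Yn R x n) := ⟨hR.1.pg.to_le (Yn_le R x n), nor_Yn hR.1.inv n,
    cm_Yn h.pp h.pg hd hR.1.inv hn,
    fun e => hn' (comm_eq_one.1 (mem_bot.1 (e ▸ comm_mem_Yn hR.1.inv hn)))⟩
  obtain ⟨X, hX, mx, mc, hle, -⟩ := (K x h).P R hd hR.1.inv n hn c hc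
  have l1 : Yn R x n ≤ cm (pCoreOf q X) x := mY.eq ▸ cm_mono ((K x h).h1m X hX mx q hq _ hle mY)
  have mD := h.mem_cm hq (isPGroup_pCoreOf X) (self_le_normalizer_pCoreOf X mx)
    (fun e => mY.ne (le_bot_iff.1 (e ▸ l1)))
  have l2 : cj c (Yn R x n) ≤ cm (pCoreOf q X) x := cj_le_of_le l1
    (nor_cm (A := zpowers c) (le_normalizer_pCoreOf_of_le (zpowers_le.2 mc)) (zpowers_le.2 hc)
      (mem_zpowers c))
  have l3 := uq q hq R _ hR mD fun e => mY.not_le ((le_inf (Yn_le R x n) l1).trans e)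
  exact mem_normalizer_of_cj_le (uq q hq R _ hR hR'.1 fun e => (mY.conj' hc).not_le
    ((le_inf (l2.trans l3) (cj_mono c (Yn_le R x n))).trans e))

omit [Finite G] in
theorem le_cs_comm : D ≤ cs E ↔ E ≤ cs D := le_centralizer_iff

/-- the commuting trick -/
theorem ct (h : Hyp p x) (K : Kit p x) (hq : Pr p q) (hr : Pr p r) (hne : q ≠ r) (hD : Mem q x D)
    (hE : IsPGroup r E) (nE : x ∈ nor E) (hDE : D ≤ cs E) (hc : c ∈ cen x) :
    cj c D ≤ cs (cm E x) := by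
  have co : ∀ {s : ℕ} {A : Subgroup G}, Pr p s → IsPGroup s A → (Nat.card A).Coprime p :=
    fun h1 h2 => Nat.coprime_comm.1 (h.pp.coprime_iff_not_dvd.2 (h1.not_dvd h.pp h2))
  have hR : ¬ p ∣ Nat.card (D ⊔ E : Subgroup G) := not_dvd_card_of_le (sup_le
    (H14.le_opp le_sup_left (sup_le le_normalizer
      (le_normalizer_of_le_centralizer (le_cs_comm.1 hDE))) (co hq hD.pg))
    (H14.le_opp le_sup_right (sup_le (le_normalizer_of_le_centralizer hDE) le_normalizer) (co hr hE)))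
    (h.pp.coprime_iff_not_dvd.1 (Nat.coprime_comm.1 (H14.coprime_card_opp _)))
  have nR : x ∈ nor (D ⊔ E) := le_normalizer_sup (zp_le_nor hD.inv) (zp_le_nor nE) (mem_zpowers x)
  rw [cj_le_iff, ← hD.eq]
  refine cm_le_of hD.inv fun d hd => ?_
  rw [mem_cj, inv_inv]
  refine mem_cs_of_le (cm_le_of nE fun e he => ?_)
  obtain ⟨X, hX, mx, mc, -, hn⟩ := K.P _ hR nR (d * e) (mul_mem_sup hd he) c hc
  have a1 : ⁅d, x⁆ ∈ D := cm_le hD.inv (comm_mem_cm hd)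
  have a2 : ⁅e, x⁆ ∈ E := cm_le nE (comm_mem_cm he)
  have e1 : ⁅d * e, x⁆ = ⁅d, x⁆ * ⁅e, x⁆ := by
    calc ⁅d * e, x⁆ = d * ⁅e, x⁆ * d⁻¹ * ⁅d, x⁆ := by simp only [commutatorElement_def]; group
      _ = _ := by rw [← mem_cs.1 (hDE hd) _ a2, mul_inv_cancel_right, mem_cs.1 (hDE a1) _ a2]
  have cm' : Commute ⁅d, x⁆ ⁅e, x⁆ := (mem_cs.1 (hDE a1) _ a2).symm
  obtain ⟨i, hi⟩ := isPGroup_iff_forall.1 hD.pg _ a1
  obtain ⟨j, hj⟩ := isPGroup_iff_forall.1 hE _ a2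
  have cop : (q ^ i).Coprime (r ^ j) := Nat.coprime_pow_primes i j hq.1 hr.1 hne
  have b1 : ⁅d, x⁆ ∈ ncl X (zpowers x) := mem_of_pow_mem_of_coprime (n := r ^ j) (by
    have := pow_mem hn (r ^ j)
    rwa [e1, cm'.mul_pow, hj, mul_one] at this) (cop.coprime_dvd_left (orderOf_dvd_of_pow_eq_one hi))
  have b2 : ⁅e, x⁆ ∈ ncl X (zpowers x) := (Subgroup.mul_mem_cancel_left _ b1).1 (e1 ▸ hn)
  exact mem_cen.2 (mem_cs.1 (core_le_cs hq.1 hr.1 hne X (conj_mem_of_mem_normalizer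
    (self_le_normalizer_pCoreOf X mc) (h.good X hX mx q hq _ b1 ⟨i, hi⟩))) _
    (h.good X hX mx r hr _ b2 ⟨j, hj⟩))

/-- `F_M ≤ A` from the commutators and the fixed points -/
theorem Fp_le_dec (h : Hyp p x) (hx : x ∈ M) {A : Subgroup G} (hc : cen x ≤ A)
    (h1 : ∀ r, Pr p r → cm (pCoreOf r M) x ≤ A) : Fp p M ≤ A := Fp_le_of fun r hr => by
  rw [← cm_sup_cen h.pp h.pg (hr.not_dvd h.pp (isPGroup_pCoreOf M)) (self_le_normalizer_pCoreOf M hx)]
  exact sup_le (h1 r hr) (inf_le_right.trans hc)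

theorem jobC : JobC.{u} := by
  intro G _ _ p K G2 U x h M hM hx q hq hne
  have : Fact p.Prime := ⟨h.pp⟩
  have K := K x h
  have nV := self_le_normalizer_pCoreOf (p := q) M hx
  set D := cm (pCoreOf q M) x with hD
  have mD : Mem q x D := h.mem_cm hq (isPGroup_pCoreOf M) nV hne
  have hV : pCoreOf q M ≠ ⊥ := fun e => hne (le_bot_iff.1 (e ▸ cm_le nV))
  obtain ⟨R, hR, hDR⟩ := (U x h).ex q hq D mD
  have n1 : cen x ≤ nor (ncl (cen x) D) := le_normalizer_ncl _ _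
  have mS : Mem q x (ncl (cen x) D) := ⟨hR.1.pg.to_le (ncl_le hDR ((U x h).cen_le q hq R hR)),
    n1 (self_mem_cen x), le_antisymm (cm_le (n1 (self_mem_cen x))) (ncl_le_iff.2 fun c hc =>
      (mD.conj' hc).eq ▸ cm_mono (cj_le_ncl hc)), fun e => hne (ncl_eq_bot_iff.1 e)⟩
  have n2 : Fp p M ≤ nor (ncl (cen x) D) := Fp_le_dec h hx n1 fun r hr => by
    by_cases e : r = q
    · exact e ▸ le_normalizer_of_le (le_ncl _ _)
    · exact le_normalizer_of_le_centralizer (le_cs_comm.1 (ncl_le_iff.2 fun c hc =>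
        ct h K hq hr (Ne.symm e) mD (isPGroup_pCoreOf M) (self_le_normalizer_pCoreOf M hx)
          (le_cs_of_core hq.1 hr.1 (Ne.symm e) (cm_le nV) le_rfl) hc))
  obtain ⟨M₀, h0, l0⟩ := exists_coatom (K.norq q hq.1 _ mS.pg mS.ne)
  have x0 : x ∈ M₀ := l0 (n1 (self_mem_cen x))
  have F0 : Fp p M ≤ M₀ := n2.trans l0
  have v0 := G2 x h M M₀ hM hx h0.1 (inf_le_right.trans (n1.trans l0)) F0 q hq hV
  have s0 := K.h1m M₀ h0.1 x0 q hq _ (le_normalizer.trans l0) mS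
  have e : ncl (cen x) D = D := le_antisymm (mS.eq ▸ cm_mono (s0.trans v0)) (le_ncl _ _)
  rw [e] at n1 l0 s0
  refine ⟨n1, ?_⟩
  have hV0 : pCoreOf q M₀ ≠ ⊥ := fun e => hne (le_bot_iff.1 (e ▸ s0))
  have key : ∀ m ∈ M, x ∈ cj m M₀ → m ∈ M₀ := fun m hm hx1 => by
    have h1 := isCoatom_cj h0 m
    have v1 : pCoreOf q (cj m M₀) ≤ pCoreOf q M := by
      rw [← cj_pCoreOf]; exact cj_le_of_le v0 (self_le_normalizer_pCoreOf M hm)
    have v2 : pCoreOf q M ≤ cj m M₀ := by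
      rw [← cj_eq_self (self_le_normalizer_pCoreOf (p := q) M hm)]
      exact cj_mono m ((core_le_Fp hq M).trans F0)
    have d1 : D ≤ pCoreOf q (cj m M₀) := K.h1a _ h1.1 hx1 q hq _ v2 (isPGroup_pCoreOf M) nV
    have h2 := G2 x h _ M₀ h1 hx1 h0.1 (inf_le_right.trans (n1.trans l0)) (Fp_le_of fun r hr => by
      by_cases e : r = q
      · exact e ▸ v1.trans ((core_le_Fp hq M).trans F0)
      · exact (le_normalizer_of_le_centralizer (le_cs_of_core hr.1 hq.1 e le_rfl d1)).trans l0)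
      q hq (by rw [← cj_pCoreOf]; exact fun e => hV0 (cj_eq_bot_iff.1 e))
    rw [← cj_pCoreOf] at h2
    rw [← K.norV M₀ h0 q hq.1 hV0]
    exact cj_eq_self_iff.1 (eq_of_le_of_card_ge h2 (card_cj m _).le).symm
  have hK : ncl M (zpowers x) ≤ M := ncl_le_of_le (zpowers_le.2 hx)
  have k0 : ncl M (zpowers x) ≤ M₀ := by
    by_contra hc
    obtain ⟨k, hk, hk'⟩ := SetLike.exists_of_lt (lt_inf_normalizer_of_res_le
      (le_inf (res_le _) ((K.h1b M hM.1 hx).trans F0)) (inf_lt_left.2 hc))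
    refine hk' ⟨hk.1, key k (hK hk.1) (cj_mono k (inf_le_right (a := ncl M (zpowers x))) ?_)⟩
    rw [cj_eq_self hk.2]
    exact ⟨le_ncl _ _ (mem_zpowers x), x0⟩
  have l1 : M ≤ M₀ := fun m hm => key m hm (mem_cj.2 (k0 (conj_mem_of_mem_normalizer'
    (le_normalizer_ncl _ _ hm) (le_ncl _ _ (mem_zpowers x)))))
  rwa [(hM.le_iff.1 l1).resolve_left h0.1] at l0

theorem jobU1 : JobU1.{u} := by
  intro G _ _ p K G2 U C Ob x h
  have K := K x h
  have U := U x h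
  have ob2 : ∀ {q r : ℕ} {E Y R : Subgroup G}, Pr p q → Pr p r → q ≠ r → Mem r x E → Mem q x Y →
      MaxM q x R → Y ≤ R → E ≤ cs Y → E ≤ cs R := by
    intro q r E Y R hq hr hne hE hY hR hYR hc
    by_cases hZ : R ⊓ cs R ⊓ cen x = ⊥
    swap
    · obtain ⟨R', hR', l⟩ := U.ex r hr E hE
      exact l.trans (le_cs_comm.1 (Ob x h q r hq hr hne R R' hR hR' hZ))
    have := hq.fact
    have pZ : IsPGroup q (R ⊓ cs R : Subgroup G) := hR.1.pg.to_le inf_le_left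
    have nZ : nor R ≤ nor (R ⊓ cs R) :=
      le_normalizer_inf le_rfl (normalizer_le_normalizer_centralizer R)
    have mZ : Mem q x (R ⊓ cs R) := ⟨pZ, nZ hR.1.inv, by
      have := cm_sup_cen h.pp h.pg (hq.not_dvd h.pp pZ) (nZ hR.1.inv)
      rwa [hZ, sup_bot_eq] at this, inf_centralizer_ne_bot hR.1.pg hR.1.pg le_normalizer hR.1.ne⟩
    have hX := K.norq q hq.1 Y hY.pg hY.ne
    have h1 : E ≤ cs (R ⊓ cs R) := le_cs_of_core hr.1 hq.1 hne.symm
      (K.h1m _ hX hY.inv r hr E (le_normalizer_of_le_centralizer hc) hE)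
      (K.h1m _ hX hY.inv q hq _ (le_normalizer_of_le_centralizer
        (inf_le_right.trans (centralizer_anti hYR))) mZ)
    have hX' := K.norq q hq.1 _ pZ mZ.ne
    exact le_cs_of_core hr.1 hq.1 hne.symm
      (K.h1m _ hX' mZ.inv r hr E (le_normalizer_of_le_centralizer h1) hE)
      (K.h1m _ hX' mZ.inv q hq R (le_normalizer.trans nZ) hR.1)
  have L : ∀ {q : ℕ} {M R : Subgroup G}, Pr p q → IsCoatom M → x ∈ M → cm (pCoreOf q M) x ≠ ⊥ →
      MaxM q x R → cm (pCoreOf q M) x ≤ R → R = cm (pCoreOf q M) x := by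
    intro q M R hq hM hx hne hR hle
    have nV := self_le_normalizer_pCoreOf (p := q) M hx
    have h1 := G2 x h M (nor R) hM hx (K.norq q hq.1 R hR.1.pg hR.1.ne)
      (inf_le_right.trans (U.cen_le q hq R hR)) (Fp_le_dec h hx (U.cen_le q hq R hR) fun r hr => by
        by_cases e : r = q
        · exact e ▸ le_normalizer_of_le hle
        by_cases e' : cm (pCoreOf r M) x = ⊥
        · exact e' ▸ bot_le
        have nr := self_le_normalizer_pCoreOf (p := r) M hx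
        exact le_normalizer_of_le_centralizer (ob2 hq hr (Ne.symm e)
          (h.mem_cm hr (isPGroup_pCoreOf M) nr e') (h.mem_cm hq (isPGroup_pCoreOf M) nV hne) hR hle
          (le_cs_of_core hr.1 hq.1 e (cm_le nr) (cm_le nV))))
      q hq (fun e => hne (le_bot_iff.1 (e ▸ cm_le nV)))
    exact le_antisymm (hR.1.eq ▸ cm_mono ((le_pCoreOf hR.1.pg le_normalizer le_rfl).trans h1)) hle
  intro M₁ M₂ h1 h2 x1 x2 q hq Y hY l1 l2
  obtain ⟨R, hR, hYR⟩ := U.ex q hq Y hY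
  have A : ∀ {M : Subgroup G}, IsCoatom M → x ∈ M → Y ≤ M →
      pCoreOf q M ≠ ⊥ ∧ cen x ≤ nor R ∧ nor R ≤ M ∧ Fp p M ≤ nor R := by
    intro M hM hx l
    have nV := self_le_normalizer_pCoreOf (p := q) M hx
    have y1 : Y ≤ cm (pCoreOf q M) x := hY.eq ▸ cm_mono (K.h1m M hM.1 hx q hq Y l hY)
    have hne : cm (pCoreOf q M) x ≠ ⊥ := fun e => hY.ne (le_bot_iff.1 (e ▸ y1))
    have e := L hq hM hx hne hR (U.uniq q hq R _ hR (h.mem_cm hq (isPGroup_pCoreOf M) nV hne)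
      fun e => hY.not_le ((le_inf hYR y1).trans e))
    rw [e]
    refine ⟨fun e => hne (le_bot_iff.1 (e ▸ cm_le nV)), (C x h M hM hx q hq hne).1,
      (C x h M hM hx q hq hne).2, Fp_le_of fun r hr => ?_⟩
    by_cases e : r = q
    · exact e ▸ le_nor_cm _ x
    · exact le_normalizer_of_le_centralizer (le_cs_of_core hr.1 hq.1 e le_rfl (cm_le nV))
  obtain ⟨a1, a2, a3, a4⟩ := A h1 x1 l1
  obtain ⟨b1, -, b3, b4⟩ := A h2 x2 l2
  rw [← K.norV M₁ h1 q hq.1 a1, ← K.norV M₂ h2 q hq.1 b1, le_antisymm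
    (G2 x h M₂ M₁ h2 x2 h1.1 (inf_le_right.trans (a2.trans a3)) (b4.trans a3) q hq b1)
    (G2 x h M₁ M₂ h1 x1 h2.1 (inf_le_right.trans (a2.trans b3)) (a4.trans b3) q hq a1)]

end H57.F2
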