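import Cfsg.Agent.H51.OVSpec

/-! Tower OV, jobs `JobKL3` and `JobKU3`: explicit matrices in `L₃(q)` and `U₃(q)`. -/

set_option autoImplicit false

namespace H57.OVK

open Matrix Cfsg Subgroup H51.OV
open scoped MatrixGroups

theorem ord2 {G : Type*} [Group G] {a : G} (h : a * a = 1) (h1 : a ≠ 1) : orderOf a = 2 :=
  orderOf_eq_prime (by rw [pow_two, h]) h1

/-- Passing to the central quotient. -/
theorem badY {G : Type} [Group G] {y s z z' : G} {n : ℕ} (hn : Odd n) (yn : y ^ n = 1)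
    (ss : s * s = 1) (zz : z * z = 1) (zz' : z' * z' = 1) (sy : y * s * y = s)
    (c1 : z * s = s * z) (c2 : z * y = y * z) (c3 : z' * y = y * z')
    (n : ∀ u ∈ [y, s, z, z', z * z'], u ∉ center G) : BadY (G ⧸ center G) := by
  let π := QuotientGroup.mk' (center G)
  have k : ∀ u ∈ [y, s, z, z', z * z'], π u ≠ 1 := fun u hu e =>
    n u hu ((QuotientGroup.eq_one_iff u).1 e)
  have o : ∀ u, u * u = 1 → π u * π u = 1 := fun u e => by rw [← map_mul, e, map_one]
  refine ⟨π y, π s, π z, π z', k _ (by simp),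
    hn.of_dvd_nat (orderOf_dvd_of_pow_eq_one (by rw [← map_pow, yn, map_one])),
    ord2 (o _ ss) (k _ (by simp)), ord2 (o _ zz) (k _ (by simp)), ord2 (o _ zz') (k _ (by simp)), ?_,
    Commute.map c1 π, Commute.map c2 π, Commute.map c3 π, fun e => k (z * z') (by simp) ?_⟩
  · rw [mul_inv_eq_iff_eq_mul, eq_inv_mul_iff_mul_eq, ← mul_assoc, ← map_mul, ← map_mul, sy]
  · rw [map_mul, e, o _ zz']

variable {F : Type} [Field F]

theorem two_ne [Fintype F] (h : Odd (Fintype.card F)) : (2 : F) ≠ 0 := fun e => by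
  obtain ⟨k, hk⟩ := h
  have := FiniteField.cast_card_eq_zero F
  rw [hk] at this
  push_cast at this
  rw [e] at this
  simp at this

theorem jobKL3 : JobKL3 := by
  intro F _ _ h
  have h2 := two_ne h
  have n1 : (-1 : F) ≠ 1 := fun e => h2 (by linear_combination -e)
  let u : F → SL(3, F) := fun a => ⟨!![1, 0, a; 0, 1, 0; 0, 0, 1], by simp [det_fin_three]⟩
  let s : SL(3, F) := ⟨!![-1, 0, 0; 0, -1, 0; 0, 0, 1], by simp [det_fin_three]⟩
  let z : F → SL(3, F) := fun a => ⟨!![-1, a, 0; 0, 1, 0; 0, 0, -1], by simp [det_fin_three]⟩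
  have uv : ∀ a, (u a).1 = !![1, 0, a; 0, 1, 0; 0, 0, 1] := fun _ => rfl
  have sv : s.1 = !![-1, 0, 0; 0, -1, 0; 0, 0, 1] := rfl
  have zv : ∀ a, (z a).1 = !![-1, a, 0; 0, 1, 0; 0, 0, -1] := fun _ => rfl
  clear_value u s z
  have up : ∀ n : ℕ, u 1 ^ n = u n := fun n => by
    induction n with
    | zero => exact Subtype.ext (by simp [uv, one_fin_three])
    | succ n ih => rw [pow_succ, ih]; exact Subtype.ext (by simp [uv, add_comm])
  refine badY (y := u 1) (s := s) (z := z 0) (z' := z 1) h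
    (by rw [up, FiniteField.cast_card_eq_zero]; exact Subtype.ext (by simp [uv, one_fin_three]))
    (Subtype.ext ?_) (Subtype.ext ?_) (Subtype.ext ?_) (Subtype.ext ?_) (Subtype.ext ?_)
    (Subtype.ext ?_) (Subtype.ext ?_) fun v hv e => ?_
  iterate 7 simp [uv, sv, zv, one_fin_three]
  obtain ⟨r, -, e⟩ := Matrix.SpecialLinearGroup.mem_center_iff.1 e
  have e0 := congrFun₂ e 0 0
  have e1 := congrFun₂ e 1 1
  have e2 := congrFun₂ e 2 2
  have e3 := congrFun₂ e 0 1
  have e4 := congrFun₂ e 0 2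
  simp only [List.mem_cons, List.not_mem_nil, or_false] at hv
  rcases hv with rfl | rfl | rfl | rfl | rfl <;> simp [uv, sv, zv] at e0 e1 e2 e3 e4
  exacts [n1 (e0.symm.trans e2), n1 (e0.symm.trans e1)]

variable {q : ℕ}

/-- diagonal elements -/
def dU (a b c : F) (h : a * b * c = 1 ∧ a ^ (q + 1) = 1 ∧ b ^ (q + 1) = 1 ∧ c ^ (q + 1) = 1) :
    SU 3 F q := ⟨⟨!![a, 0, 0; 0, b, 0; 0, 0, c], by simpa [det_fin_three] using h.1⟩, fun u v => by
  change hermForm 3 F q (!![a, 0, 0; 0, b, 0; 0, 0, c] *ᵥ u) (!![a, 0, 0; 0, b, 0; 0, 0, c] *ᵥ v) = _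
  simp [hermForm, Fin.sum_univ_three, mul_pow, vecHead, vecTail]
  linear_combination u 0 * v 0 ^ q * h.2.1 + u 1 * v 1 ^ q * h.2.2.1 + u 2 * v 2 ^ q * h.2.2.2⟩

/-- the cyclic permutation matrix -/
def cU : SU 3 F q := ⟨⟨!![0, 0, 1; 1, 0, 0; 0, 1, 0], by simp [det_fin_three]⟩, fun u v => by
  change hermForm 3 F q (!![0, 0, 1; 1, 0, 0; 0, 1, 0] *ᵥ u) (!![0, 0, 1; 1, 0, 0; 0, 1, 0] *ᵥ v) = _
  simp [hermForm, Fin.sum_univ_three, vecHead, vecTail]
  ring⟩

/-- a signed transposition -/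
def sU (h : Odd q) : SU 3 F q := ⟨⟨!![-1, 0, 0; 0, 0, 1; 0, 1, 0], by simp [det_fin_three]⟩,
  fun u v => by
  change hermForm 3 F q (!![-1, 0, 0; 0, 0, 1; 0, 1, 0] *ᵥ u)
    (!![-1, 0, 0; 0, 0, 1; 0, 1, 0] *ᵥ v) = _
  simp [hermForm, Fin.sum_univ_three, h.neg_pow, vecHead, vecTail]
  ring⟩

/-- the matrix -/
def mt : SU 3 F q →* Matrix (Fin 3) (Fin 3) F :=
  SpecialLinearGroup.coeMonoidHom.comp (SU 3 F q).subtype

theorem mt_inj : Function.Injective (mt (F := F) (q := q)) := fun _ _ h => Subtype.ext (Subtype.ext h)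
theorem mt_d (a b c : F) (h) : mt (dU (q := q) a b c h) = !![a, 0, 0; 0, b, 0; 0, 0, c] := rfl
theorem mt_c : mt (cU (F := F) (q := q)) = !![0, 0, 1; 1, 0, 0; 0, 1, 0] := rfl
theorem mt_s (h : Odd q) : mt (sU (F := F) h) = !![-1, 0, 0; 0, 0, 1; 0, 1, 0] := rfl

theorem cen {g : SU 3 F q} (h : g ∈ center (SU 3 F q)) :
    mt g 0 0 = mt g 1 1 ∧ mt g 0 0 = mt g 2 2 := by
  have e := congrArg mt (mem_center_iff.1 h cU)
  rw [map_mul, map_mul, mt_c] at e
  have e0 := congrFun₂ e 1 0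
  have e1 := congrFun₂ e 0 2
  simp [mul_apply, Fin.sum_univ_three] at e0 e1
  exact ⟨e0, e1.symm⟩

theorem jobKU3 : JobKU3 := by
  intro F _ _ q hF hq
  have h2 : (2 : F) ≠ 0 := two_ne (hF ▸ hq.pow)
  have n1 : (-1 : F) ≠ 1 := fun e => h2 (by linear_combination -e)
  have m1 : (-1 : F) ^ (q + 1) = 1 := (hq.add_odd odd_one).neg_one_pow
  let z := dU (q := q) (1 : F) (-1) (-1) (by simp [m1])
  let b := dU (q := q) (-1 : F) (-1) 1 (by simp [m1])
  have zz : z * z = 1 := mt_inj (by simp [z, mt_d, one_fin_three])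
  have bb : b * b = 1 := mt_inj (by simp [b, mt_d, one_fin_three])
  have zc : z ∉ center _ := fun e => n1 (cen e).1.symm
  have bc : b ∉ center _ := fun e => n1 (cen e).2
  have zb : z * b ∉ center _ := fun e => n1 (by simpa [z, b, mt_d] using (cen e).1)
  by_cases h4 : 4 ∣ q + 1
  · obtain ⟨i, hi⟩ : IsSquare (-1 : F) := FiniteField.isSquare_neg_one_iff.2 (by
      obtain ⟨k, rfl⟩ := hq
      rw [hF, show (2 * k + 1) ^ 2 = 4 * (k ^ 2 + k) + 1 by ring]; omega)
    have i4 : ∀ j : F, j * j = -1 → j ^ (q + 1) = 1 := fun j e => by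
      obtain ⟨k, hk⟩ := h4
      rw [hk, pow_mul, show j ^ 4 = 1 by linear_combination (j * j - 1) * e, one_pow]
    let x := dU (q := q) (1 : F) i (-i) ⟨by linear_combination hi, one_pow _, i4 _ hi.symm,
      i4 _ (by linear_combination -hi)⟩
    have xx : x * x = z := mt_inj (by simp [x, z, mt_d, ← hi])
    have xb : x * b = b * x := mt_inj (by simp [x, b, mt_d])
    let π := QuotientGroup.mk' (center (SU 3 F q))
    have k : ∀ u, u ∉ center _ → π u ≠ 1 := fun u hu e => hu ((QuotientGroup.eq_one_iff u).1 e)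
    have o : ∀ u, u * u = 1 → π u * π u = 1 := fun u e => by rw [← map_mul, e, map_one]
    refine .inr ⟨π x, π b, ?_, ord2 (o _ bb) (k _ bc), fun e => k _ zb ?_, Commute.map xb π⟩
    · rw [← map_mul, xx]; exact ord2 (o _ zz) (k _ zc)
    · rw [map_mul, e, ← map_mul π x, xx, o _ zz]
  · have q1 : q ≠ 1 := fun e => by
      have := Fintype.one_lt_card (α := F)
      rw [hF, e] at this
      simp at this
    obtain ⟨k, hk⟩ := id hq
    obtain ⟨r, hr, hd⟩ := Nat.exists_prime_and_dvd (n := k + 1) (by omega)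
    have ro : Odd r := (show Odd (k + 1) from Nat.odd_iff.2 (by omega)).of_dvd_nat hd
    have rq : r ∣ q + 1 := hd.trans ⟨2, by omega⟩
    have := Fact.mk hr
    classical
    obtain ⟨a, ha⟩ := exists_prime_orderOf_dvd_card (G := Fˣ) r (by
      rw [Fintype.card_units, hF, show q ^ 2 - 1 = (q + 1) * (q - 1) by
        simpa using Nat.sq_sub_sq q 1]
      exact rq.mul_right _)
    have ar : (a : F) ^ r = 1 := by rw [← Units.val_pow_eq_pow_val, ← ha, pow_orderOf_eq_one]; rfl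
    have aq : (a : F) ^ (q + 1) = 1 := by
      obtain ⟨m, hm⟩ := rq
      rw [hm, pow_mul, ar, one_pow]
    have a1 : (a : F) ≠ 1 := fun e => hr.one_lt.ne' (by rw [← ha, Units.val_eq_one.1 e, orderOf_one])
    let y := dU (q := q) (1 : F) a (a : F)⁻¹ (by simp [aq])
    have yp : ∀ n : ℕ, mt y ^ n = !![1, 0, 0; 0, (a : F) ^ n, 0; 0, 0, ((a : F) ^ n)⁻¹] := fun n => by
      induction n with
      | zero => simp [one_fin_three]
      | succ n ih => rw [pow_succ, ih]; simp [y, mt_d, pow_succ, mul_comm]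
    refine .inl (badY (y := y) (s := sU hq) (z := z) (z' := b) ro
      (mt_inj (by rw [map_pow, yp, ar]; simp [one_fin_three])) (mt_inj ?_) zz bb (mt_inj ?_)
      (mt_inj ?_) (mt_inj ?_) (mt_inj ?_) fun v hv => ?_)
    iterate 5 simp [y, z, b, mt_d, mt_s, one_fin_three]
    simp only [List.mem_cons, List.not_mem_nil, or_false] at hv
    rcases hv with rfl | rfl | rfl | rfl | rfl
    exacts [fun e => a1 (cen e).1.symm, fun e => by simpa [mt_s] using (cen e).1, zc, bc, zb]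

end H57.OVK
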