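/- PN tower (S3399), item PC: counting in the triangle-free graph. -/
import Cfsg.Agent.H42.PnSpec

set_option autoImplicit false
set_option linter.unusedSectionVars false

namespace H57.PNPC
open Equiv MulAction Pointwise H2.Ln H42.PN

section
variable {α : Type} [Fintype α] [DecidableEq α]

open Classical in
/-- The neighbours of `x`. -/
noncomputable def nb (Q : Finset α → Prop) (a a' x : α) : Finset α :=
  Finset.univ.filter fun y => y ≠ a ∧ y ≠ a' ∧ y ≠ x ∧ Q {a, a', x, y}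

theorem mem_nb {Q : Finset α → Prop} {a a' x y : α} :
    y ∈ nb Q a a' x ↔ y ≠ a ∧ y ≠ a' ∧ y ≠ x ∧ Q {a, a', x, y} := by simp [nb]

theorem nb_symm {Q : Finset α → Prop} {a a' x y : α} (h1 : x ≠ a) (h2 : x ≠ a')
    (h : y ∈ nb Q a a' x) : x ∈ nb Q a a' y := by
  rw [mem_nb] at h ⊢
  refine ⟨h1, h2, h.2.2.1.symm, ?_⟩
  rw [Finset.pair_comm y x]
  exact h.2.2.2

theorem nb_map {G : Subgroup (Perm α)} {Q : Finset α → Prop} (hQ : ∀ g ∈ G, ∀ T, Q (g • T) ↔ Q T)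
    {g : Perm α} (hg : g ∈ G) {a a' : α} (h1 : g a = a) (h2 : g a' = a') (x y : α) :
    g y ∈ nb Q a a' (g x) ↔ y ∈ nb Q a a' x := by
  have e : ({a, a', g x, g y} : Finset α) = g • ({a, a', x, y} : Finset α) := by
    simp [Finset.smul_finset_insert, Finset.smul_finset_singleton, h1, h2]
  rw [mem_nb, mem_nb, e, hQ g hg]
  have e1 : g y ≠ a ↔ y ≠ a := by conv_lhs => rw [← h1, g.injective.ne_iff]
  have e2 : g y ≠ a' ↔ y ≠ a' := by conv_lhs => rw [← h2, g.injective.ne_iff]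
  rw [e1, e2, g.injective.ne_iff]

theorem card_eq {g : Perm α} {A B : Finset α} (h : ∀ y, g y ∈ B ↔ y ∈ A) : B.card = A.card := by
  have : B = g • A := by
    ext y
    rw [mem_sm, ← h]
    simp
  rw [this, Finset.card_smul_finset]

theorem dc {Q : Finset α → Prop} {a a' : α} {A B : Finset α} {m n : ℕ}
    (hA : ∀ x ∈ A, x ≠ a ∧ x ≠ a') (hB : ∀ x ∈ B, x ≠ a ∧ x ≠ a')
    (hm : ∀ e ∈ A, (B ∩ nb Q a a' e).card = m) (hn : ∀ c ∈ B, (A ∩ nb Q a a' c).card = n) :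
    A.card * m = B.card * n := by
  refine Finset.card_mul_eq_card_mul (fun e c => c ∈ nb Q a a' e) (fun e he => ?_) fun c hc => ?_
  · rw [← hm e he]
    exact congrArg _ (Finset.ext fun y => by simp [Finset.mem_bipartiteAbove])
  · rw [← hn c hc]
    congr 1
    ext y
    simp only [Finset.mem_bipartiteBelow, Finset.mem_inter]
    exact ⟨fun h => ⟨h.1, nb_symm (hA y h.1).1 (hA y h.1).2 h.2⟩,
      fun h => ⟨h.1, nb_symm (hB c hc).1 (hB c hc).2 h.2⟩⟩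

theorem one_fix {K : Subgroup (Perm α)} {A : Finset α} (h : ∀ k ∈ K, ∀ y ∈ A, k y ∈ A)
    (h1 : A.card = 1) : A ⊆ fp K := by
  intro y hy
  exact mem_fp.2 fun k hk => Finset.card_le_one.1 h1.le _ (h k hk y hy) _ hy

theorem orb_iff {L : Subgroup (Perm α)} {u : α} {g : Perm α} (hg : g ∈ L) (y : α) :
    g y ∈ orb L u ↔ y ∈ orb L u :=
  ⟨fun h => by simpa using orb_inv g⁻¹ (L.inv_mem hg) _ h, orb_inv g hg y⟩
end

theorem arith (f1 f2 m m' : ℕ) (h0 : 1 ≤ f1) (h1 : 3 * (2 * f1 + 1) ≤ 2 * f2 + 2 + 3)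
    (h2 : (2 * f1 + 1) * (2 * f1) = (2 * f2 + 2) * m) (h3 : f1 * (f1 - 1) = f2 * m')
    (h4 : m = 1 → m' = 1) : False := by
  obtain ⟨f, rfl⟩ : ∃ f, f1 = f + 1 := ⟨f1 - 1, by omega⟩
  simp only [Nat.add_sub_cancel] at h3
  have a1 : 3 * (f + 1) ≤ f2 + 1 := by omega
  have a2 : (f2 + 1) * m = (f + 1) * (2 * f + 3) := by nlinarith
  have a3 : 3 * m ≤ 2 * f + 3 := by
    have : (f + 1) * (3 * m) ≤ (f + 1) * (2 * f + 3) := by nlinarith
    exact Nat.le_of_mul_le_mul_left this (by omega)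
  have a4 : f2 * m + m = 2 * (f2 * m') + 3 * (f + 1) := by nlinarith
  have a5 : 2 * m' + 1 ≤ m := by
    by_contra hc
    have : f2 * m ≤ f2 * (2 * m') := Nat.mul_le_mul_left _ (by omega)
    nlinarith
  have a6 : f2 * (2 * m' + 1) ≤ f2 * m := Nat.mul_le_mul_left _ a5
  have a7 : m ≤ 1 := by nlinarith
  have := h4 (by omega)
  omega

theorem jobPC : PC := by
  intro α _ _ G K a a' b O₁ O₂ Q T X hle
  obtain ⟨u₁, e₁⟩ := T.o1
  obtain ⟨u₂, e₂⟩ := T.o2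
  have nd := T.nd
  have nd' : a ≠ a' ∧ a ≠ b ∧ a' ≠ b := by simp at nd; tauto
  have out : ∀ c, c ∈ O₁ ∨ c ∈ O₂ ↔ c ≠ a ∧ c ≠ a' ∧ c ≠ b := fun c => by
    rw [T.cov]; simp
  have memL : ∀ g, g ∈ fx G {a, a', b} ↔ g ∈ G ∧ g a = a ∧ g a' = a' ∧ g b = b := fun g => by
    rw [mem_fx]; simp
  have KL : ∀ k ∈ K, k ∈ fx G {a, a', b} := fun k hk => (memL k).2
    ⟨T.le hk, mem_fp.1 T.ha k hk, mem_fp.1 T.ha' k hk, mem_fp.1 T.hb k hk⟩
  have i1 : ∀ g ∈ fx G {a, a', b}, ∀ y, g y ∈ O₁ ↔ y ∈ O₁ := fun g hg y => by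
    rw [e₁]; exact orb_iff hg y
  have nbb : nb Q a a' b = O₁ := by
    ext y
    rw [mem_nb]
    constructor
    · rintro ⟨h1, h2, h3, h4⟩
      exact (X.mem y (by simp [h1, h2, h3])).1 h4
    · intro h
      obtain ⟨h1, h2, h3⟩ := (out y).1 (Or.inl h)
      exact ⟨h1, h2, h3, (X.mem y (by simp [h1, h2, h3])).2 h⟩
  have ex : ∀ e, e ≠ a → e ≠ a' → ∃ g ∈ G, g a = a ∧ g a' = a' ∧ g b = e := fun e h1 h2 =>
    T.t3 a (by simp) a' (by simp) b (by simp) a (by simp) a' (by simp) e (by simp) nd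
      (by simp [nd'.1, h1.symm, h2.symm])
  -- the neighbours of a point of `O₁`
  have nbe : ∀ e ∈ O₁, ∀ y, y ∈ nb Q a a' e ↔ y = b ∨ (y ∈ O₂ ∧ y ∈ nb Q a a' e) := by
    intro e he y
    obtain ⟨h1, h2, h3⟩ := (out e).1 (Or.inl he)
    refine ⟨fun hy => ?_, ?_⟩
    · by_cases hb : y = b
      · exact Or.inl hb
      obtain ⟨h4, h5, h6, h7⟩ := mem_nb.1 hy
      rcases (out y).2 ⟨h4, h5, hb⟩ with h | h
      · refine absurd h7 (X.tri a a' b e y ?_ (mem_nb.1 (nbb ▸ he)).2.2.2 (mem_nb.1 (nbb ▸ h)).2.2.2)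
        simp only [List.nodup_cons, List.mem_cons, List.not_mem_nil, List.nodup_nil]
        grind
      · exact Or.inr ⟨h, hy⟩
    · rintro (rfl | h)
      · exact nb_symm nd'.2.1.symm nd'.2.2.symm (nbb ▸ he)
      · exact h.2
  have bO : b ∉ O₂ := fun h => ((out b).1 (Or.inr h)).2.2 rfl
  have c1 : ∀ e ∈ O₁, (O₂ ∩ nb Q a a' e).card = 2 * (O₁ ∩ fp K).card := by
    intro e he
    obtain ⟨h1, h2, -⟩ := (out e).1 (Or.inl he)
    obtain ⟨g, hg, g1, g2, g3⟩ := ex e h1 h2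
    have k1 : (nb Q a a' e).card = O₁.card := card_eq (g := g) fun y => by
      rw [← g3, nb_map X.inv hg g1 g2, nbb]
    have k2 : nb Q a a' e = insert b (O₂ ∩ nb Q a a' e) := by
      ext y
      rw [Finset.mem_insert, Finset.mem_inter]
      exact nbe e he y
    rw [k2, Finset.card_insert_of_notMem (by simp [bO]), T.d1] at k1
    omega
  have c2 : ∀ e ∈ O₁ ∩ fp K, (O₂ ∩ fp K ∩ nb Q a a' e).card = (O₁ ∩ fp K).card - 1 := by
    intro e he
    rw [Finset.mem_inter] at he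
    obtain ⟨h1, h2, -⟩ := (out e).1 (Or.inl he.1)
    obtain ⟨g, hg, g1, g2, g3⟩ := ex e h1 h2
    obtain ⟨x, hx, hxg⟩ := T.pro.wit T.le hg
    have x1 : x a = a := by rw [hxg a T.ha (by rw [g1]; exact T.ha), g1]
    have x2 : x a' = a' := by rw [hxg a' T.ha' (by rw [g2]; exact T.ha'), g2]
    have x3 : x b = e := by rw [hxg b T.hb (by rw [g3]; exact he.2), g3]
    have k1 : (nb Q a a' e ∩ fp K).card = (O₁ ∩ fp K).card := card_eq (g := x) fun y => by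
      rw [Finset.mem_inter, Finset.mem_inter, ← x3, nb_map X.inv hx.1 x1 x2, nbb,
        sm_eq_iff'.1 (mem_sw.1 hx).2]
    have k2 : nb Q a a' e ∩ fp K = insert b (O₂ ∩ fp K ∩ nb Q a a' e) := by
      ext y
      simp only [Finset.mem_insert, Finset.mem_inter]
      have := nbe e he.1 y
      have := T.hb
      grind
    rw [k2, Finset.card_insert_of_notMem (by simp [bO])] at k1
    omega
  have hA : ∀ x ∈ O₁, x ≠ a ∧ x ≠ a' := fun x h =>
    ⟨((out x).1 (Or.inl h)).1, ((out x).1 (Or.inl h)).2.1⟩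
  have hB : ∀ x ∈ O₂, x ≠ a ∧ x ≠ a' := fun x h =>
    ⟨((out x).1 (Or.inr h)).1, ((out x).1 (Or.inr h)).2.1⟩
  have f1 : 1 ≤ (O₁ ∩ fp K).card := by
    by_contra hc
    have := T.d1
    exact T.mv (one_fix (fun k hk y hy => (i1 k (KL k hk) y).2 hy) (by omega))
  have d1 := T.d1
  have d2 := T.d2
  obtain ⟨c₀, hc₀⟩ : (O₂ ∩ fp K).Nonempty := Finset.card_pos.1 (by omega)
  rw [Finset.mem_inter] at hc₀
  have tr : ∀ c ∈ O₂, ∃ g ∈ fx G {a, a', b}, g c₀ = c := fun c hc =>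
    orb_tr (u := u₂) c₀ (e₂ ▸ hc₀.1) c (e₂ ▸ hc)
  have c3 : ∀ c ∈ O₂, (O₁ ∩ nb Q a a' c).card = (O₁ ∩ nb Q a a' c₀).card := by
    intro c hc
    obtain ⟨g, hg, rfl⟩ := tr c hc
    obtain ⟨g0, g1, g2, -⟩ := (memL g).1 hg
    exact card_eq (g := g) fun y => by
      rw [Finset.mem_inter, Finset.mem_inter, nb_map X.inv g0 g1 g2, i1 g hg]
  have c4 : ∀ c ∈ O₂ ∩ fp K, (O₁ ∩ fp K ∩ nb Q a a' c).card = (O₁ ∩ fp K ∩ nb Q a a' c₀).card := by
    intro c hc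
    rw [Finset.mem_inter] at hc
    obtain ⟨g, hg, g4⟩ := tr c hc.1
    obtain ⟨g0, g1, g2, g3⟩ := (memL g).1 hg
    obtain ⟨x, hx, hxg⟩ := T.pro.wit T.le g0
    have x1 : x a = a := by rw [hxg a T.ha (by rw [g1]; exact T.ha), g1]
    have x2 : x a' = a' := by rw [hxg a' T.ha' (by rw [g2]; exact T.ha'), g2]
    have x3 : x b = b := by rw [hxg b T.hb (by rw [g3]; exact T.hb), g3]
    have x4 : x c₀ = c := by rw [hxg c₀ hc₀.2 (by rw [g4]; exact hc.2), g4]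
    exact card_eq (g := x) fun y => by
      simp only [Finset.mem_inter]
      rw [← x4, nb_map X.inv hx.1 x1 x2, i1 x ((memL x).2 ⟨hx.1, x1, x2, x3⟩),
        sm_eq_iff'.1 (mem_sw.1 hx).2]
  have D1 := dc hA hB c1 c3
  have D2 := dc (fun x h => hA x (Finset.mem_inter.1 h).1) (fun x h => hB x (Finset.mem_inter.1 h).1)
    c2 c4
  rw [d1, d2] at D1 hle
  refine arith _ _ _ _ f1 hle D1 D2 fun h => ?_
  have s := one_fix (K := K) (A := O₁ ∩ nb Q a a' c₀) (fun k hk y hy => by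
    rw [Finset.mem_inter] at hy ⊢
    obtain ⟨g0, g1, g2, -⟩ := (memL k).1 (KL k hk)
    refine ⟨(i1 k (KL k hk) y).2 hy.1, ?_⟩
    have := (nb_map X.inv g0 g1 g2 c₀ y).2 hy.2
    rwa [mem_fp.1 hc₀.2 k hk] at this) h
  rw [← h]
  congr 1
  ext y
  simp only [Finset.mem_inter]
  exact ⟨fun h => ⟨h.1.1, h.2⟩, fun h => ⟨⟨h.1, s (Finset.mem_inter.2 h)⟩, h.2⟩⟩

end H57.PNPC
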