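import Cfsg.Agent.H57.SU3b

/-! The special unitary groups are generated by two elements. -/

set_option autoImplicit false
set_option linter.unusedSectionVars false

namespace H57

open H65.Phan Matrix Equiv Cfsg H59 H65
open scoped MatrixGroups

theorem sl2_gen_Tt {K : Type*} [Field K] [Finite K] {ζ : Kˣ} (hζ : IsPrim (ζ : K))
    (h : 3 < Nat.card K) {t : K} (ht : t ≠ 0) :
    Subgroup.closure {sl2T ζ, sl2U t * sl2W} = ⊤ := by
  have e : sl2W * sl2T ζ * sl2W⁻¹ = sl2T ζ⁻¹ := by
    rw [eq_inv_of_mul_eq_one_left (sl2W_conj_T ζ), eq_comm, eq_inv_iff_mul_eq_one, ← sl2T_mul,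
      inv_mul_cancel, sl2T_one]
  have n : (ζ : K) ^ 2 ≠ 1 := fun e => by have := hζ.le two_pos e; omega
  obtain ⟨h1, h2⟩ := steinberg_two (K := Subgroup.closure {sl2T ζ, sl2U t * sl2W})
    (E := fun s => sl2U (t * s)) (fun a b => by simp only [mul_add, isAdd_sl2U _ _])
    (h := sl2T ζ) (w := sl2W) (c := (ζ : K) ^ 2) (c' := ((ζ⁻¹ : Kˣ) : K) ^ 2)
    (fun s => by rw [sl2T_conj, mul_left_comm]) (fun s => by rw [e, sl2T_conj, mul_left_comm]) (by
      rw [e, commute_iff_eq, ← sl2T_mul, ← sl2T_mul, mul_comm]) n (by simpa using n)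
    (hζ.closure_pow two_pos (by simp)) (Subgroup.subset_closure (by simp))
    (Subgroup.subset_closure (by simp))
  exact sl2_closure (fun s => by simpa [mul_inv_cancel_left₀ ht] using h1 (t⁻¹ * s)) h2

theorem sl2_cop {K F : Type*} [Field K] [Finite K] [Field F] (ι : K →+* F) {q : ℕ}
    (hc : Nat.card K = q) (h2 : 3 ≤ q) {u u' : F} {t : K} (hu : u * u' = 1) (hu' : u' ≠ u)
    (ht : ι t = u + u') (h1 : u ^ (q + 1) = 1) :
    ∃ (x y : SL(2, K)) (a b : ℕ), x ^ a = 1 ∧ y ^ b = 1 ∧
      a.Coprime b ∧ Subgroup.closure {x, y} = ⊤ := by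
  have hq0 : ((q : ℕ) : K) = 0 := by
    have := Fintype.ofFinite K
    rw [← hc, Nat.card_eq_fintype_card]
    exact FiniteField.cast_card_eq_zero _
  rcases (show q = 3 ∨ 3 < q by omega) with h3 | h3
  · refine ⟨sl2U 1, sl2W, 3, 4, ?_, ?_, by norm_num, sl2_closure (fun s => ?_)
      (Subgroup.subset_closure (by simp))⟩
    · have h0 : (1 + 1 + 1 : K) = 0 := by rw [h3] at hq0; rw [← hq0]; norm_num
      rw [pow_three, ← mul_assoc, ← isAdd_sl2U, ← isAdd_sl2U, h0, isAdd_sl2U.zero]
    · rw [show 4 = 2 * 2 from rfl, pow_mul, pow_two sl2W, sl2W_sq, ← sl2T_pow]; simp [sl2T_one]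
    · rcases card_le_three (c := s) (by omega) with rfl | rfl | rfl
      · rw [isAdd_sl2U.zero]; exact one_mem _
      · exact Subgroup.subset_closure (by simp)
      · rw [isAdd_sl2U.neg]; exact inv_mem (Subgroup.subset_closure (by simp))
  obtain ⟨ζ, hζ⟩ := exists_prim_unit K
  have hT : sl2T ζ ^ (q - 1) = 1 := by
    have := pow_card_eq_one' (x := ζ)
    rw [Nat.card_units, hc] at this
    rw [← sl2T_pow, this, sl2T_one]
  by_cases h0 : (2 : K) = 0
  · have h0' : (2 : F) = 0 := by rw [← map_ofNat ι 2, h0, map_zero]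
    refine ⟨sl2T ζ, sl2U t * sl2W, q - 1, q + 1, hT, ?_, ?_,
      sl2_gen_Tt hζ (by omega) fun e => hu' (by
        rw [e, map_zero] at ht; linear_combination -ht - u * h0')⟩
    · let A := (sl2U t * sl2W : SL(2, K))
      have hP : ∀ k : ℕ, ((A ^ k : SL(2, K)) : Matrix (Fin 2) (Fin 2) K).map ι * !![u, u'; 1, 1] =
          !![u, u'; 1, 1] * diagonal ![u ^ k, u' ^ k] := fun k => by
        induction k with
        | zero => ext i j; fin_cases i <;> fin_cases j <;> simp
        | succ k ih =>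
          rw [pow_succ', show (A * A ^ k : SL(2, K)).1 = A.1 * (A ^ k : SL(2, K)).1 from rfl,
            Matrix.map_mul, mul_assoc, ih, ← mul_assoc]
          ext i j
          fin_cases i <;> fin_cases j <;>
            simp [A, ht, mul_apply, Fin.sum_univ_two, pow_succ] <;> grind
      have h4 := hP (q + 1)
      rw [h1, show u' ^ (q + 1) = 1 by
        have := congrArg (· ^ (q + 1)) hu
        simpa [mul_pow, h1] using this] at h4
      have h5 : IsUnit (!![u, u'; 1, 1] : Matrix (Fin 2) (Fin 2) F) := by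
        rw [isUnit_iff_isUnit_det]; simpa [sub_eq_zero] using Ne.symm hu'
      have h6 : (A ^ (q + 1)).1.map ι = (1 : Matrix _ _ K).map ι := h5.mul_right_cancel (by
        rw [h4]; ext i j; fin_cases i <;> fin_cases j <;> simp)
      exact Subtype.ext (Matrix.map_injective ι.injective h6)
    · have h5 : 2 ∣ q := by
        by_contra h5
        obtain ⟨k, rfl⟩ : ∃ k, q = 2 * k + 1 := ⟨q / 2, by omega⟩
        push_cast at hq0
        rw [h0] at hq0; simp at hq0
      obtain ⟨k, rfl⟩ := h5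
      rw [show 2 * k + 1 = (2 * k - 1) + 2 by omega, Nat.coprime_self_add_right,
        Nat.coprime_two_right]
      exact ⟨k - 1, by omega⟩
  refine ⟨sl2T ζ, sl2U (-2) * sl2W, q - 1, q, hT, ?_, ?_, sl2_gen_Tt hζ (by omega) (neg_ne_zero.2 h0)⟩
  · have : ∀ k : ℕ, ((sl2U (-2) * sl2W : SL(2, K)) ^ k).1 =
        !![1 + (k : K), (k : K); -(k : K), 1 - (k : K)] := fun k => by
      induction k with
      | zero => ext i j; fin_cases i <;> fin_cases j <;> simp
      | succ k ih =>
        rw [pow_succ, show ∀ x y : SL(2, K), (x * y).1 = x.1 * y.1 from fun _ _ => rfl, ih]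
        ext i j
        fin_cases i <;> fin_cases j <;> simp [mul_apply, Fin.sum_univ_two] <;> ring
    refine Subtype.ext ?_
    rw [this, hq0]
    ext i j
    fin_cases i <;> fin_cases j <;> simp
  · rw [show q = (q - 1) + 1 by omega]; simp

variable {F : Type*} [Field F] [Fintype F] {q : ℕ} (hF : Fintype.card F = q ^ 2) {n : ℕ}

include hF in
/-- `SU₂(q)` is generated by two elements of coprime orders. -/
theorem su2_cop (hq : q ≠ 2) : ∃ (x y : SU 2 F q) (a b : ℕ), x ^ a = 1 ∧ y ^ b = 1 ∧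
    a.Coprime b ∧ Subgroup.closure {x, y} = ⊤ := by
  obtain ⟨-, -, θ, -⟩ := exists_su2_equiv hF
  obtain ⟨u, hu, hu'⟩ := exists_u hF
  have h2 := two_le_q hF
  obtain ⟨x, y, a, b, h1, h2, h3, h4⟩ := sl2_cop (Fix hF).subtype (card_Fix hF) (by omega) hu hu'
    (t := ⟨u + frob hF u, by
      change frob hF _ = _
      rw [map_add, frob_frob, add_comm]; rfl⟩) rfl (by rw [pow_succ', ← frob_apply hF, hu])
  refine ⟨θ x, θ y, a, b, by rw [← map_pow, h1, map_one], by rw [← map_pow, h2, map_one], h3, ?_⟩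
  have := congrArg (Subgroup.map θ.toMonoidHom) h4
  rwa [MonoidHom.map_closure, Set.image_pair, Subgroup.map_top_of_surjective _ θ.surjective] at this

theorem conj_blk {j : ℕ} {ι κ : Fin j ↪ Fin n} {g : SU n F q} (h : mat g * emb F ι = emb F κ)
    (s : SU j F q) : g * blkHom hF ι s * g⁻¹ = blkHom hF κ s := by
  rw [mul_inv_eq_iff_eq_mul]
  have h1 : (mat g).map (frob hF) * emb F ι = emb F κ := by
    rw [← emb_map ι (frob hF), ← Matrix.map_mul, h, emb_map]
  have h2 : (emb F κ)ᵀ * mat g = (emb F ι)ᵀ := by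
    have := congrArg transpose (mat_unit hF g)
    rw [← h1, transpose_mul, Matrix.mul_assoc]
    rw [transpose_mul, transpose_transpose, transpose_one] at this
    rw [this, Matrix.mul_one]
  refine mat_ext ?_
  rw [mat_mul, mat_mul, mat_blkHom, mat_blkHom, blk, blk, mul_add, add_mul, mul_one, one_mul,
    ← Matrix.mul_assoc, ← Matrix.mul_assoc, h, Matrix.mul_assoc _ _ (mat g), h2]

theorem exists_shift (n : ℕ) : ∃ c : SU n F q, ∀ (a l : ℕ) (h : a + 1 + l ≤ n) (s : SU l F q),
    c * blkHom hF (off (a + 1) h) s * c⁻¹ = blkHom hF (off a (by omega)) s := by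
  rcases n with _ | n
  · exact ⟨1, fun a l h => by omega⟩
  obtain ⟨w, hw⟩ := exists_cox F n
  have hs : ∀ i, frob hF (coxSign F n i) = coxSign F n i := fun i => by
    unfold coxSign; split_ifs <;> simp
  refine ⟨⟨w, (mem_SU hF w).2 ?_⟩, fun a l h s => conj_blk hF ?_ s⟩
  · rw [show w.1.map (frob hF) = w.1 by ext i j; simp [hw, apply_ite (frob hF), hs]]
    rw [mul_eq_one_comm]
    ext i j
    rw [cox_mul_apply hw, transpose_apply, hw, one_apply]
    by_cases e : i = j
    · simp [e, coxSign_mul_self]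
    · simp [e]
  · ext i j
    have := j.2
    have := i.2
    rw [show ∀ M : Matrix _ (Fin l) F, (mat ⟨w, _⟩ * M) i j = coxSign F n i * M (i + 1) j from
      fun M => by simp [mul_apply, mat, hw]]
    simp only [emb, of_apply, coxSign, Fin.ext_iff, off_val, Fin.val_add_one, Fin.val_last]
    split_ifs <;> first | omega | simp

include hF in
theorem eq_top_of_shift (hn : 4 ≤ n) {K : Subgroup (SU n F q)} {c : SU n F q} (hc : c ∈ K)
    (h : ∀ (a l : ℕ) (h : a + 1 + l ≤ n) (s : SU l F q),
      c * blkHom hF (off (a + 1) h) s * c⁻¹ = blkHom hF (off a (by omega)) s)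
    (h3 : ∀ s : SU 3 F q, blkHom hF (off 0 (by omega)) s ∈ K) : K = ⊤ := by
  have k3 : ∀ (a : ℕ) (h : a + 3 ≤ n) (s : SU 3 F q), blkHom hF (off a h) s ∈ K := fun a => by
    induction a with
    | zero => exact fun _ => h3
    | succ a ih =>
      intro ha s
      have := ih (by omega) s
      rw [← h a 3 ha s] at this
      simpa [mul_assoc] using mul_mem (mul_mem (inv_mem hc) this) hc
  have k4 : ∀ a, a + 3 ≤ n → FixS n F q (win n a 3) ≤ K := fun a ha => by
    rw [← range_blk_off hF ha]; rintro _ ⟨s, rfl⟩; exact k3 a ha s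
  have := (phan_lift hF (fun a l => FixS n F q (win n a l)) (MonoidHom.id _)
    (fun _ _ _ _ _ => Subgroup.map_id _) (fun _ _ _ _ e => e)
    (fun a _ => ⟨FixS_mono fun x => by simp; omega, FixS_mono fun x => by simp; omega⟩)
    (fun a l b l' _ _ _ _ _ _ x hx y hy => FixS_comm hF (Set.disjoint_left.2 fun x => by
      simp; omega) hx hy) hn (a := 0) (l := n) (by omega) (by omega)).2
  rw [Subgroup.map_id] at this
  refine eq_top_iff.2 fun g _ => YW_le _ (X := K) (fun i j hij => ?_) (this fun k hk => ?_)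
  · exact (FixS_mono fun x => by simp; omega).trans (k4 (min i (n - 3)) (by omega))
  · exact (hk (by simp)).elim

theorem sdHom_eq_conj {d : Fin n → F} (hd : ∀ i, d i * frob hF (d i) = 1) {D : SU n F q}
    (hD : mat D = diagonal d) (g : SU n F q) : sdHom hF 1 d hd g = D * g * D⁻¹ := by
  rw [eq_mul_inv_iff_mul_eq]
  refine mat_ext (Matrix.ext fun a b => ?_)
  rw [mat_mul, mat_mul, hD, mul_diagonal, diagonal_mul, sdHom_apply]
  simp only [RingAut.one_eq_refl, RingEquiv.refl_apply]
  linear_combination d a * mat g a b * hd b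

include hF in
theorem gen_su_four (hn : 4 ≤ n) : Gen (SU n F q) 2 := by
  obtain ⟨c, hc⟩ := exists_shift hF n
  have sh : ∀ {K : Subgroup (SU n F q)}, c ∈ K → ∀ {a : ℕ} (h : a + 1 + 2 ≤ n) (s : SU 2 F q),
      blkHom hF (off (a + 1) h) s ∈ K ↔ blkHom hF (off a (by omega)) s ∈ K := fun hK a h s => by
    rw [← hc a 2 h s, mul_mem_cancel_right (inv_mem hK), mul_mem_cancel_left hK]
  have c0 : ∀ (a : ℕ) (h : a + 2 ≤ 3) (s : SU 2 F q), blkHom hF (off 0 (show 0 + 3 ≤ n by omega))
      (blkHom hF (off a h) s) = blkHom hF (off a (by omega)) s := fun a h s => by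
    rw [blkHom_blkHom, off_trans]; simp only [zero_add]
  by_cases hq : q = 2
  · subst hq
    obtain ⟨ω, hω⟩ := exists_omega hF
    have h2 := two_eq_zero hF
    refine gen_two (a := c) (b := blkHom hF (off 0 (by omega)) (fou hF hω)) ?_
    have ma : c ∈ Subgroup.closure {c, blkHom hF (off 0 (by omega)) (fou hF hω)} :=
      Subgroup.subset_closure (by simp)
    have mb : blkHom hF (off 0 (by omega)) (fou hF hω) ∈
      Subgroup.closure {c, blkHom hF (off 0 (by omega)) (fou hF hω)} :=
      Subgroup.subset_closure (by simp)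
    generalize Subgroup.closure {c, blkHom hF (off 0 (by omega)) (fou hF hω)} = K at ma mb
    have e1 : b1 hF (sw hF) = fou hF hω * fou hF hω := mat_ext (by
      rw [mat_mul, mat_fou, mat_b1, mat_su2]
      ext i k; fin_cases i <;> fin_cases k <;> simp [mul_apply, Fin.sum_univ_three] <;> grind)
    have e2 : fou hF hω * b1 hF (dω hF hω) = b1 hF (sw hF) * b0 hF (sw hF) * fou hF hω := mat_ext (by
      simp only [mat_mul, dg, mat_b0, mat_b1, mat_su2, mat_fou]
      ext i k
      fin_cases i <;> fin_cases k <;> simp [mul_apply, Fin.sum_univ_three, frob_apply] <;> grind)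
    have s1 : blkHom hF (off 1 (by omega)) (sw hF) ∈ K := by
      rw [← c0 1 le_rfl, e1, map_mul]; exact mul_mem mb mb
    have s2 : blkHom hF (off 1 (by omega)) (dω hF hω) ∈ K := by
      rw [← c0 1 le_rfl, ← mul_mem_cancel_left mb, ← map_mul, e2, map_mul, map_mul, c0, c0]
      exact mul_mem (mul_mem s1 ((sh ma _ _).1 s1)) mb
    have l1 : ∀ g : SU 2 F 2, blkHom hF (off 1 (by omega)) g ∈ K := fun g =>
      (su2_two hF hω (K := K.comap (blkHom hF (off 1 (by omega)))) s2 s1).ge (Subgroup.mem_top g)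
    refine eq_top_of_shift hF hn ma hc fun s => (gen3_two hF hω
      (K := K.comap (blkHom hF (off 0 (by omega)))) (fun g => ?_) (fun g => ?_) fun t ht => ?_).ge
        (Subgroup.mem_top s)
    · rw [Subgroup.mem_comap, c0]; exact (sh ma _ _).1 (l1 g)
    · rw [Subgroup.mem_comap, c0]; exact l1 g
    have ht' := norm_two hF ht
    have hd : ∀ i : Fin 4, ![1, 1, t, frob hF t] i * frob hF (![1, 1, t, frob hF t] i) = 1 :=
      fun i => by fin_cases i <;> simp [ht', frob_frob, mul_comm (frob hF t)]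
    have hD : mat (e4 hF 2 (by omega) (dg hF t ht')) = diagonal ![1, 1, t, frob hF t] :=
      (eq_blk (fun i k => by fin_cases i <;> fin_cases k <;> simp [off, dg, mat_su2] <;> rfl) fun a ha b => by
        fin_cases a
        · fin_cases b <;> simp
        · fin_cases b <;> simp
        · exact (ha 0 rfl).elim
        · exact (ha 1 rfl).elim).symm
    have e3 := sdHom_blkHom (hF := hF) 1 _ hd (off 0 (show 0 + 3 ≤ 4 by omega)) (fou hF hω)
    rw [sdHom_eq_conj hF hd hD] at e3
    have e4 := congrArg (blkHom hF (off 0 (show 0 + 4 ≤ n by omega))) e3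
    simp only [map_mul, map_inv, blkHom_blkHom, off_trans] at e4
    have l2 := (sh ma (a := 1) (by omega) (dg hF t ht')).2 (l1 _)
    have := e4 ▸ mul_mem (mul_mem l2 mb) (inv_mem l2)
    rw [Subgroup.mem_comap]
    convert this using 4
    funext i; fin_cases i <;> rfl
  obtain ⟨x, y, a, b, hx, hy, hab, hxy⟩ := su2_cop hF hq
  let x' := blkHom hF (off 0 (show 0 + 2 ≤ n by omega)) x
  let y' := blkHom hF (off 2 (show 2 + 2 ≤ n by omega)) y
  refine gen_two (a := c) (b := x' * y') ?_
  have ma : c ∈ Subgroup.closure {c, x' * y'} := Subgroup.subset_closure (by simp)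
  have mb : x' * y' ∈ Subgroup.closure {c, x' * y'} := Subgroup.subset_closure (by simp)
  generalize Subgroup.closure {c, x' * y'} = K at ma mb
  obtain ⟨m1, m2⟩ := mem_of_mul_mem (FixS_comm hF (S := win n 0 2) (T := win n 2 2)
    (Set.disjoint_left.2 fun x => by simp; omega) ((range_blk_off hF _).le ⟨x, rfl⟩)
    ((range_blk_off hF _).le ⟨y, rfl⟩)) (by rw [← map_pow, hx, map_one])
    (by rw [← map_pow, hy, map_one]) hab mb
  have l0 : ∀ g : SU 2 F q, blkHom hF (off 0 (by omega)) g ∈ K := fun g =>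
    ((Subgroup.closure_le (K.comap (blkHom hF (off 0 (by omega))))).2 (Set.pair_subset m1
      ((sh ma _ _).1 ((sh ma _ _).1 m2)))) (hxy.ge (Subgroup.mem_top g))
  refine eq_top_of_shift hF hn ma hc fun s => (sup_le (c := K.comap (blkHom hF (off 0 (by omega))))
    ?_ ?_) ((gen3 hF hq).ge (Subgroup.mem_top s)) <;> rintro _ ⟨g, rfl⟩ <;>
    rw [Subgroup.mem_comap, c0]
  exacts [l0 g, (sh ma _ _).2 (l0 g)]

include hF in
theorem gen_su (hn : 3 ≤ n) (h : n = 3 → q ≠ 2) : Gen (SU n F q) 2 := by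
  rcases hn.eq_or_lt with rfl | hn
  · have := two_le_q hF
    have := h rfl
    obtain ⟨u, g, -, h⟩ := H70.su3_gen2_matrix hF (by omega)
    exact gen_two h
  · exact gen_su_four hF hn

end H57
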